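import Cfsg.Agent.TwistedLie.E6EvenLower
import Cfsg.Agent.TwistedLie.E6Order
import Cfsg.Agent.Chevalley.InvSeparate
import Cfsg.Agent.Chevalley.InvDataE6

/-!
`²E₆(q)`, `q` even: every involution is conjugate to a product `x_r(1)` over one of three sets of
orthogonal fixed roots.
-/

set_option autoImplicit false
set_option linter.unusedSectionVars false

namespace CfsgLib.TwistedLie.E6I

open Cfsg.Lie CfsgLib.Chevalley CfsgLib.TwistedLie.E6

noncomputable section

local notation "S" => sysE6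

/-- The descent: roots so far, support, twisted word, new root, new support. -/
def chain : List (List ℕ × List ℕ × List (Fin 4) × ℕ × List ℕ) :=
  [([], [0, 1, 2, 3, 4, 5], [0, 1, 2, 3, 1, 2, 0], 71, [0, 2, 3, 4, 5]),
    ([71], [0, 2, 3, 4, 5], [3, 2], 60, [2, 3, 4]),
    ([60, 71], [2, 3, 4], [2], 44, [3]),
    ([44, 60, 71], [3], [], 39, [])]

/-- The representatives. -/
def reps : List (List ℕ) := [[71], [60, 71], [44, 60, 71]]

/-- All products met. -/
def prods : List (List ℕ) := [[71], [60, 71], [44, 60, 71], [39, 44, 60, 71]]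

/-- Check: the supports of one step, and cleaning at `α₄`. -/
def chkStep (e : List ℕ × List ℕ × List (Fin 4) × ℕ × List ℕ) : Bool :=
  Js.contains e.2.1 && chkClean chevE6 (Sys.vec sysE6) e.2.1 3 &&
    chkTwistClean chevE6 (Sys.vec sysE6) pE e.2.1 3 &&
    (wdN e.2.2.1).all (fun j => e.2.1.contains j) &&
    chkClosedList chevE6 (Sys.vec sysE6) (rDel (sp e.2.1) 39) && (sp e.2.1).contains 39

/-- Check: what a step does. -/
def chkMove (e : List ℕ × List ℕ × List (Fin 4) × ℕ × List ℕ) : Bool :=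
  decide (wL chevE6 (wdN e.2.2.1) 39 = e.2.2.2.1) &&
    ((sp e.2.1).all fun r => decide (chevE6.cartan 3 r ≠ 0) ||
      ((sp e.2.2.2.2).contains (wL chevE6 (wdN e.2.2.1) r) &&
        decide (36 ≤ wL chevE6 (wdN e.2.2.1) r))) &&
    chkEvenComm chevE6 e.1 (leviGens chevE6 (Sys.vec sysE6) e.2.1) &&
    e.1.all fun r => decide (r ≠ e.2.2.2.1)

theorem chkStep_ok : ∀ e ∈ chain, chkStep e = true := by decide +kernel

theorem chkMove_ok : ∀ e ∈ chain, chkMove e = true := by decide +kernel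

variable {K : Type*} [Field K] [Fintype K] [CharP K 2] {q : ℕ}
variable (hq : IsPrimePow q) (hK : Fintype.card K = q ^ 2)
include hq hK

local notation "φ" => phi hq hK
local notation "GG" => twistedE6 K q
local notation "TW" => twist hq hK

theorem zero_pi {P : List ℕ} (hP : ∀ r ∈ P, pE r ∈ P) {k : ℕ} (hk : k < chevE6.nroots)
    {u : GL chevE6.Idx K} (hfix : (TW).σ u = u) (h : u ∈ uSub chevE6 K (rSet P \ {k})) :
    u ∈ uSub chevE6 K (rSet P \ {pE k}) := by
  have h' := (TW).coord_fixed (P := rSet P) (fun r _ hr => hP r hr) hk hfix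
    ((Sys.coord_zero_iff S).mpr h)
  rw [map_zero] at h'
  exact (Sys.coord_zero_iff S).mp h'

set_option maxHeartbeats 1000000 in
/-- A non-trivial fixed involution of a support is raised. -/
theorem raise {J : List ℕ} (hJ : J ∈ Js) {u : GL chevE6.Idx K}
    (hu : u ∈ uSub chevE6 K (rSet (sp J))) (hfix : (TW).σ u = u) (hsq : u * u = 1) (h1 : u ≠ 1) :
    Raised K q J u := by
  classical
  have hpi : ∀ r ∈ sp J, pE r ∈ sp J := sp_pi J hJ
  -- the last case: the coordinate at `42` is non-zero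
  have last : J ∈ [[0, 1, 2, 3, 4, 5], [0, 2, 3, 4, 5], [2, 3, 4]] → ∀ v : GL chevE6.Idx K,
      v ∈ uSub chevE6 K (rSet (sp J)) → (TW).σ v = v → v * v = 1 →
      v ∉ uSub chevE6 K (rSet (sp J) \ {42}) → Raised K q J v := by
    intro hJ3 v hv hvf hv2 hne
    by_cases h39 : v ∈ uSub chevE6 K (rSet (sp J) \ {39})
    · refine raise_pair hq hK hJ3 (u := v) (by rwa [rSet_del]) hvf hv2 fun h => hne ?_
      refine uSub_mono (fun r hr => ?_) h
      exact ⟨List.mem_of_mem_filter hr.1, hr.2⟩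
    · exact ⟨1, one_mem _, by simpa using hv, by simpa using h39⟩
  obtain ⟨h, hh, j, hj, hm, hne⟩ := lower hq hK hJ hu h1
  refine Raised.of_conj hh ?_
  set v := h * u * h⁻¹ with hv
  have hvf : (TW).σ v = v := fixed_conj hq hK hh hfix
  have hv2 : v * v = 1 := sq_conj h hsq
  by_cases h39 : v ∈ uSub chevE6 K (rSet (sp J) \ {39})
  swap
  · exact ⟨1, one_mem _, by simpa using hm, by simpa using h39⟩
  rcases (by decide +kernel : ∀ J ∈ Js, ∀ j ∈ J, chevE6.simple j = 39 ∨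
      ((chevE6.simple j = 42 ∨ chevE6.simple j = 37) ∧
        J ∈ [[0, 1, 2, 3, 4, 5], [0, 2, 3, 4, 5], [2, 3, 4]]) ∨
      ((chevE6.simple j = 56 ∨ chevE6.simple j = 36) ∧
        J ∈ [[0, 1, 2, 3, 4, 5], [0, 2, 3, 4, 5]]) ∨
      (chevE6.simple j = 46 ∧ J = [0, 1, 2, 3, 4, 5])) J hJ j hj with
    e | ⟨e, hJ3⟩ | ⟨e, hJ2⟩ | ⟨e, rfl⟩
  · exact absurd h39 (e ▸ hne)
  · refine last hJ3 v hm hvf hv2 fun h => hne ?_
    rcases e with e | e <;> rw [e]
    · exact h
    · have h' := zero_pi hq hK hpi (k := 42) (by decide) hvf h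
      rwa [show pE 42 = 37 by decide +kernel] at h'
  · have hJ3 : J ∈ [[0, 1, 2, 3, 4, 5], [0, 2, 3, 4, 5], [2, 3, 4]] :=
      List.mem_append_left [[2, 3, 4]] hJ2
    by_cases h42 : v ∈ uSub chevE6 K (rSet (sp J) \ {42})
    swap
    · exact last hJ3 v hm hvf hv2 h42
    have h37 : v ∈ uSub chevE6 K (rSet (sp J) \ {37}) := by
      have h' := zero_pi hq hK hpi (k := 42) (by decide) hvf h42
      rwa [show pE 42 = 37 by decide +kernel] at h'
    have hcl : ∀ k ∈ [42, 37], Sys.Closed S (rSet (sp J) \ {k}) := fun k hk => by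
      rw [← rSet_del]
      exact closed_of_chk S ((by decide +kernel : ∀ J ∈ Js, ∀ k ∈ [42, 37],
        chkClosedList chevE6 (Sys.vec sysE6) (rDel (sp J) k) = true) J hJ k hk)
    have hsub : v ∈ uSub chevE6 K (rSet (rDel (rDel (sp J) 42) 37)) := by
      have h' := (Sys.mem_diff_list S (closed_of_chk S ((by decide +kernel : ∀ J ∈ Js,
        chkClosedList chevE6 (Sys.vec sysE6) (sp J) = true) J hJ)) hm [42, 37] (fun k hk => by
          refine ⟨hcl k hk, ?_⟩
          simp only [List.mem_cons, List.not_mem_nil, or_false] at hk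
          rcases hk with rfl | rfl <;> assumption)).2
      refine uSub_mono (fun r hr => ?_) h'
      have hr' : r ∈ sp J ∧ r ∉ [42, 37] := hr
      simp [rDel] at hr' ⊢
      tauto
    have hmono : ∀ k, v ∈ uSub chevE6 K (rSet (rDel (rDel (sp J) 42) 37) \ {k}) →
        v ∈ uSub chevE6 K (rSet (sp J) \ {k}) := fun k h =>
      uSub_mono (P := rSet (rDel (rDel (sp J) 42) 37) \ {k}) (Q := rSet (sp J) \ {k})
        (fun r hr => ⟨List.mem_of_mem_filter (List.mem_of_mem_filter hr.1), hr.2⟩) h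
    obtain ⟨k, hk, hk1, hk2⟩ := transfer_pair hq hK hJ2 hsub hvf fun h => hne (by
      rcases e with e | e <;> rw [e]
      · exact hmono _ h
      · have h' := zero_pi hq hK hpi (k := 56) (by decide) hvf (hmono _ h)
        rwa [show pE 56 = 36 by decide +kernel] at h')
    exact Raised.of_conj hk
      (last hJ3 _ hk1 (fixed_conj hq hK hk hvf) (sq_conj k hv2) hk2)
  · refine raise_two hq hK (u := v) (by rwa [rSet_del]) hvf fun h => hne ?_
    rw [e]
    refine uSub_mono (fun r hr => ?_) h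
    exact ⟨List.mem_of_mem_filter hr.1, hr.2⟩

theorem xG_nW (W : List (Fin 4)) {r : ℕ} (hr : r < chevE6.nroots) (t : K) :
    ((tw hq hK).nW W : GL chevE6.Idx K) * Sys.xG S K r t *
      ((tw hq hK).nW W : GL chevE6.Idx K)⁻¹ = Sys.xG S K (wL chevE6 (wdN W) r) t := by
  have hn : ∀ W : List (Fin 4), ((tw hq hK).nW W : GL chevE6.Idx K) = nL S K (wdN W) := by
    intro W
    induction W with
    | nil => simp [Tw.nW_nil, wdN, nL]
    | cons b W ih =>
      rw [Tw.nW_cons, Subgroup.coe_mul, ih, show wdN (b :: W) = blkN b ++ wdN W from rfl,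
        nL_append]
      congr 1
      exact n_eq hq hK b
  rw [hn]
  obtain ⟨u, hu, h⟩ := nL_conj_xG S K (L := wdN W) (fun i hi => by
    obtain ⟨b, -, hb⟩ := List.mem_flatMap.mp hi
    exact blkN_lt b i hb) hr t
  rw [mul_inv_eq_iff_eq_mul, h]
  rcases hu with rfl | rfl <;> simp [CharTwo.neg_eq]

set_option maxHeartbeats 1000000 in
/-- One step of the descent. -/
theorem step {e : List ℕ × List ℕ × List (Fin 4) × ℕ × List ℕ} (he : e ∈ chain) {f : ℕ → K}
    (hf : ∀ r ∈ e.1, f r ≠ 0 ∧ φ (f r) = f r) {g : GL chevE6.Idx K}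
    (hg : g ∈ uSub chevE6 K (rSet (sp e.2.1))) (hfix : (TW).σ g = g) (hsq : g * g = 1)
    (hg1 : g ≠ 1) :
    ∃ f' : ℕ → K, (∀ r ∈ e.2.2.2.1 :: e.1, f' r ≠ 0 ∧ φ (f' r) = f' r) ∧
      ∃ g' ∈ uSub chevE6 K (rSet (sp e.2.2.2.2)), (TW).σ g' = g' ∧ g' * g' = 1 ∧
        ∃ h ∈ GG, h * (Sys.xProd S K e.1 f * g) * h⁻¹ =
          Sys.xProd S K (e.2.2.2.1 :: e.1) f' * g' := by
  classical
  obtain ⟨R, J, W, θ, J'⟩ := e
  have h1 := chkStep_ok _ he
  have h2 := chkMove_ok _ he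
  simp only [chkStep, chkMove, Bool.and_eq_true, List.all_eq_true, decide_eq_true_eq,
    Bool.or_eq_true, List.contains_iff_mem] at h1 h2
  obtain ⟨⟨⟨⟨⟨hJ, hcl⟩, htc⟩, hW⟩, h39c⟩, h39m⟩ := h1
  obtain ⟨⟨⟨hθ, hmap⟩, hcomm⟩, hθR⟩ := h2
  dsimp only at hf hg ⊢
  obtain ⟨h0, hh0, hg0, hne⟩ := raise hq hK hJ hg hfix hsq hg1
  have hC : Sys.CleanFacts S J 3 := Sys.cleanFacts_of_chk S hcl
  have hs3 : chevE6.simple 3 = 39 := simple_eq.2.2.2.1
  set g0 := h0 * g * h0⁻¹ with hg0def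
  have hg0f : (TW).σ g0 = g0 := fixed_conj hq hK hh0 hfix
  obtain ⟨A, hA, hcA⟩ := exists_coord_ne h39m (by decide) (Sys.closed_spanSet S J) hg0 hne
  have hAf : φ A = A := coord_fixed_fixed hq hK (sp_pi J hJ) (by decide) (by decide +kernel)
    (closed_of_chk S h39c) hg0f hcA
  set y := (Sys.xG S K 39 A)⁻¹ * g0 with hy
  have hx39 : (TW).σ (Sys.xG S K 39 A) = Sys.xG S K 39 A := by
    rw [(TW).hx 39 (by decide), show (TW).π 39 = 39 from (by decide +kernel : pE 39 = 39)]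
    exact congrArg _ hAf
  have hyf : (TW).σ y = y := by rw [hy, map_mul, map_inv, hx39, hg0f]
  have hg0y : Sys.xG S K (chevE6.simple 3) A * y = g0 := by
    rw [hs3, hy, mul_inv_cancel_left]
  have hinv : Sys.xG S K (chevE6.simple 3) A * y * (Sys.xG S K (chevE6.simple 3) A * y) = 1 := by
    rw [hg0y]; exact sq_conj h0 hsq
  obtain ⟨h1, hh1, hh1f, q', heq, hq'f, hq'⟩ :=
    twist_clean (TW) hC htc hA hAf (q := y) (by rw [hs3]; exact hcA) hyf hinv
  have hh1l : h1 ∈ levi K q J := mem_levi_of_fixed hq hK hh1 hh1f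
  have hqc : Commute (Sys.xG S K (chevE6.simple 3) A) q' := by
    have hle : uSub chevE6 K {r | r ∈ Sys.spanSet S J ∧ chevE6.cartan 3 r = 0} ≤
        Subgroup.centralizer {Sys.xG S K (chevE6.simple 3) A} := by
      refine Sys.uSub_le S K fun r ⟨hr, hr0⟩ h1 h2 t =>
        Subgroup.mem_centralizer_singleton_iff.mpr ?_
      by_cases hrb : r = chevE6.simple 3
      · subst hrb; rw [Sys.xG_add, Sys.xG_add, add_comm]
      have hne' : r ≠ chevE6.neg (chevE6.simple 3) := fun e' => by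
        have : chevE6.neg (chevE6.simple 3) = 32 := by decide +kernel
        have h36 : (36 : ℕ) ≤ r := h1
        omega
      have e' := Sys.xG_conj S K (show chevE6.simple 3 < chevE6.nroots by decide +kernel) h2 hrb
        hne' A t
      rw [Sys.wG_commWord_one S K (fun c hc => (hC.odd_terms r hr hrb c hc).resolve_right
        fun h' => h'.1 hr0), mul_one, mul_inv_eq_iff_eq_mul] at e'
      exact e'.symm
    exact (Subgroup.mem_centralizer_singleton_iff.mp (hle hq')).symm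
  have hq'2 : q' * q' = 1 := by
    have h2 : Sys.xG S K (chevE6.simple 3) A * q' * (Sys.xG S K (chevE6.simple 3) A * q') = 1 := by
      rw [← heq]; exact sq_conj h1 hinv
    rw [mul_assoc, ← mul_assoc q', ← hqc.eq, ← mul_assoc, ← mul_assoc, Sys.xG_add,
      CharTwo.add_self_eq_zero, Sys.xG_zero, one_mul] at h2
    exact h2
  set n := (tw hq hK).nW W with hn
  have hnl : (n : GL chevE6.Idx K) ∈ levi K q J := hn ▸ nW_mem_levi hq hK hJ hW
  set g' := (n : GL chevE6.Idx K) * q' * (n : GL chevE6.Idx K)⁻¹ with hg'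
  have hg'S : g' ∈ uSub chevE6 K (rSet (sp J')) := by
    refine uSub_perm S n _ (fun r => nW_perm hq hK W r) (fun r _ hr => ?_) hq'
    exact ((hmap r hr.1).resolve_left (by simpa using hr.2)).imp id id
  have hg'f : (TW).σ g' = g' := fixed_conj hq hK hnl hq'f
  have hg'2 : g' * g' = 1 := sq_conj _ hq'2
  set k := (n : GL chevE6.Idx K) * h1 * h0 with hk
  have hkl : k ∈ levi K q J := mul_mem (mul_mem hnl hh1l) hh0
  have hkg : k * g * k⁻¹ = Sys.xG S K θ A * g' := by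
    rw [hk, show (n : GL chevE6.Idx K) * h1 * h0 * g * ((n : GL chevE6.Idx K) * h1 * h0)⁻¹ =
      (n : GL chevE6.Idx K) * (h1 * (h0 * g * h0⁻¹) * h1⁻¹) * (n : GL chevE6.Idx K)⁻¹ by group,
      ← hg0def, ← hg0y, heq, hg', ← hθ, ← xG_nW hq hK W (by decide) A, hs3, ← hn]
    group
  have hxl : Sys.xG S K θ A ∈
      genSub chevE6 K {r | r ∈ leviGens chevE6 (Sys.vec sysE6) J} := by
    rw [← hθ, ← xG_nW hq hK W (by decide) A]
    exact mul_mem (mul_mem hnl.2 (Sys.xG_mem_genSub S K (List.mem_append_left _ h39m) A))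
      (inv_mem hnl.2)
  have hP : ∀ z ∈ genSub chevE6 K {r | r ∈ leviGens chevE6 (Sys.vec sysE6) J},
      z * Sys.xProd S K R f = Sys.xProd S K R f * z := fun z hz =>
    Subgroup.mem_centralizer_singleton_iff.mp (Sys.genSub_le_centralizer S K hcomm hz)
  refine ⟨fun r => if r = θ then A else f r, ?_, g', hg'S, hg'f, hg'2, k, hkl.1, ?_⟩
  · intro r hr
    rcases List.mem_cons.mp hr with rfl | hr
    · simp [hA, hAf]
    · simp only [if_neg (hθR r hr)]
      exact hf r hr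
  · have ec : Sys.xProd S K R (fun r => if r = θ then A else f r) = Sys.xProd S K R f :=
      Sys.xProd_congr S K fun r hr => if_neg (hθR r hr)
    rw [Sys.xProd_cons, if_pos rfl, ec, hP _ hxl]
    have e1 : k * Sys.xProd S K R f * k⁻¹ = Sys.xProd S K R f := by
      rw [hP k hkl.2, mul_inv_cancel_right]
    rw [show k * (Sys.xProd S K R f * g) * k⁻¹ =
      (k * Sys.xProd S K R f * k⁻¹) * (k * g * k⁻¹) by group, e1, hkg]
    group

/-- A fixed involution of the unipotent subgroup becomes a product over orthogonal roots. -/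
theorem exists_prod {g : GL chevE6.Idx K} (hg : g ∈ uSub chevE6 K (rSet (sp [0, 1, 2, 3, 4, 5])))
    (hfix : (TW).σ g = g) (hsq : g * g = 1) (hg1 : g ≠ 1) :
    ∃ R ∈ prods, ∃ f : ℕ → K, (∀ r ∈ R, f r ≠ 0 ∧ φ (f r) = f r) ∧
      ∃ h ∈ GG, h * g * h⁻¹ = Sys.xProd S K R f := by
  classical
  obtain ⟨f1, hf1, g1, hg1', hf1x, hs1, h1, hh1, e1⟩ := step hq hK
    (e := ([], [0, 1, 2, 3, 4, 5], [0, 1, 2, 3, 1, 2, 0], 71, [0, 2, 3, 4, 5])) (by decide)
    (f := fun _ => (1 : K)) (by simp) hg hfix hsq hg1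
  simp only [Sys.xProd_nil, one_mul] at e1
  by_cases c1 : g1 = 1
  · exact ⟨[71], by decide, f1, hf1, h1, hh1, by rw [e1, c1, mul_one]⟩
  obtain ⟨f2, hf2, g2, hg2', hf2x, hs2, h2, hh2, e2⟩ := step hq hK
    (e := ([71], [0, 2, 3, 4, 5], [3, 2], 60, [2, 3, 4])) (by decide) hf1 hg1' hf1x hs1 c1
  dsimp only at e2 e1
  have E2 : h2 * h1 * g * (h2 * h1)⁻¹ = Sys.xProd S K [60, 71] f2 * g2 := by
    rw [← e2, ← e1]; group
  by_cases c2 : g2 = 1
  · exact ⟨[60, 71], by decide, f2, hf2, h2 * h1, mul_mem hh2 hh1, by rw [E2, c2, mul_one]⟩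
  obtain ⟨f3, hf3, g3, hg3', hf3x, hs3, h3, hh3, e3⟩ := step hq hK
    (e := ([60, 71], [2, 3, 4], [2], 44, [3])) (by decide) hf2 hg2' hf2x hs2 c2
  dsimp only at e3
  have E3 : h3 * (h2 * h1) * g * (h3 * (h2 * h1))⁻¹ = Sys.xProd S K [44, 60, 71] f3 * g3 := by
    rw [← e3, ← E2]; group
  by_cases c3 : g3 = 1
  · exact ⟨[44, 60, 71], by decide, f3, hf3, h3 * (h2 * h1), mul_mem hh3 (mul_mem hh2 hh1),
      by rw [E3, c3, mul_one]⟩
  obtain ⟨f4, hf4, g4, hg4', -, -, h4, hh4, e4⟩ := step hq hK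
    (e := ([44, 60, 71], [3], [], 39, [])) (by decide) hf3 hg3' hf3x hs3 c3
  dsimp only at e4 hg4'
  have c4 : g4 = 1 := by
    rw [uSub_empty_of (fun r hr => absurd hr ((by decide +kernel :
      sp [] = []) ▸ List.not_mem_nil))] at hg4'
    exact Subgroup.mem_bot.mp hg4'
  refine ⟨[39, 44, 60, 71], by decide, f4, hf4, h4 * (h3 * (h2 * h1)),
    mul_mem hh4 (mul_mem hh3 (mul_mem hh2 hh1)), ?_⟩
  rw [show h4 * (h3 * (h2 * h1)) * g * (h4 * (h3 * (h2 * h1)))⁻¹ =
    h4 * (h3 * (h2 * h1) * g * (h3 * (h2 * h1))⁻¹) * h4⁻¹ by group, E3, e4, c4, mul_one]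

theorem fixed_sqrt {x : K} (hx : φ x = x) : ∃ m : K, φ m = m ∧ m * m = x := by
  have hinj : Function.Injective (fun y : K => y * y) := fun y z h => by
    rcases mul_self_eq_mul_self_iff.mp h with h' | h'
    · exact h'
    · rw [h', CharTwo.neg_eq]
  obtain ⟨m, hm⟩ := Finite.injective_iff_surjective.mp hinj x
  exact ⟨m, hinj (show φ m * φ m = m * m by rw [← map_mul, show m * m = x from hm, hx]), hm⟩

/-- Normalising the coefficients inside the group. -/
theorem normalise_fixed {R : List ℕ} (hR : R ∈ prods) (f : ℕ → K)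
    (hf : ∀ r ∈ R, f r ≠ 0 ∧ φ (f r) = f r) :
    ∃ h ∈ GG, h * Sys.xProd S K R f * h⁻¹ = Sys.xProd S K R fun _ => 1 := by
  classical
  have hor := (by decide +kernel : ∀ R ∈ prods, chkOrthList chevE6 R = true) R hR
  have hsym := (by decide +kernel : ∀ R ∈ prods, ∀ r ∈ R, ∀ j < chevE6.rank,
    (chevE6.coroot.getD r #[]).getD (qE j) 0 = (chevE6.coroot.getD r #[]).getD j 0) R hR
  simp only [chkOrthList, Bool.and_eq_true, decide_eq_true_eq, List.all_eq_true] at hor
  obtain ⟨hnd, hor⟩ := hor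
  have hsqrt : ∀ r : ℕ, ∃ u : Kˣ, φ (u : K) = u ∧ (r ∈ R → (u : K) ^ 2 * f r = 1) := by
    intro r
    by_cases hr : r ∈ R
    · obtain ⟨m, hm, hmm⟩ := fixed_sqrt hq hK (x := (f r)⁻¹) (by rw [map_inv₀, (hf r hr).2])
      have hm0 : m ≠ 0 := by
        rintro rfl
        rw [zero_mul, eq_comm, inv_eq_zero] at hmm
        exact (hf r hr).1 hmm
      exact ⟨Units.mk0 m hm0, hm, fun _ => by
        rw [Units.val_mk0, sq, hmm, inv_mul_cancel₀ (hf r hr).1]⟩
    · exact ⟨1, by simp, fun h => absurd h hr⟩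
  choose u hu1 hu2 using hsqrt
  let c : ℕ → Kˣ := fun j => ∏ r ∈ R.toFinset, u r ^ (chevE6.coroot.getD r #[]).getD j 0
  have hc : c ∈ Folded.fixC φ chevE6 qE := by
    intro j hj
    simp only [c, map_prod, map_zpow]
    refine Finset.prod_congr rfl fun r hr => ?_
    rw [hsym r (List.mem_toFinset.mp hr) j hj]
    congr 1
    exact Units.ext (hu1 r).symm
  have hval : ∀ s ∈ R, (torusVal chevE6 c s : K) = (u s : K) ^ 2 := by
    intro s hs
    have e : torusVal chevE6 c s = ∏ r ∈ R.toFinset, u r ^ chevE6.pairing r s := by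
      rw [torusVal]
      simp only [c, ← Finset.prod_zpow, ← zpow_mul]
      rw [Finset.prod_comm]
      refine Finset.prod_congr rfl fun r _ => ?_
      rw [Sys.pairing_eq S, prod_zpow_sum]
    rw [e, Finset.prod_eq_single_of_mem s (List.mem_toFinset.mpr hs)]
    · rw [((hor s hs).2 s hs), if_pos rfl]
      simp [zpow_ofNat]
    · intro r hr hrs
      rw [(hor r (List.mem_toFinset.mp hr)).2 s hs, if_neg hrs, zpow_zero]
  refine ⟨tor chevE6 K c, TT_mem hq hK (mem_TT hq hK hc), ?_⟩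
  rw [Sys.tor_conj_xProd S K c fun r hr => (hor r hr).1.2]
  exact Sys.xProd_congr S K fun r hr => by rw [hval r hr, hu2 r hr]

theorem xProd_one_mem {L : List ℕ} (h : ∀ r ∈ L, pE r = r ∧ 36 ≤ r ∧ r < chevE6.nroots) :
    Sys.xProd S K L (fun _ => (1 : K)) ∈ GG := by
  refine Subgroup.list_prod_mem _ fun g hg => ?_
  obtain ⟨r, hr, rfl⟩ := List.mem_map.mp hg
  obtain ⟨h1, h2, h3⟩ := h r hr
  refine mem_of_fixed hq hK (P := Set.univ) (Sys.xG_mem_uSub S K (Set.mem_univ r) h2 h3 _) ?_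
  rw [(TW).hx r h3, show (TW).π r = r from h1, map_one]

/-- The four-root product is conjugate to the three-root one. -/
theorem four_to_three :
    ∃ h ∈ GG, h * Sys.xProd S K [39, 44, 60, 71] (fun _ => (1 : K)) * h⁻¹ =
      Sys.xProd S K [44, 60, 71] fun _ => 1 := by
  have hw : ∀ e ∈ [(([0] : List (Fin 4)), 39), ([0], 46), ([2, 1, 0], 46), ([3, 2, 1, 0], 46)],
      Sys.xG S K (wL chevE6 (wdN e.1) e.2) (1 : K) ∈ GG := by
    intro e he
    have hb : ∀ e ∈ [(([0] : List (Fin 4)), 39), ([0], 46), ([2, 1, 0], 46), ([3, 2, 1, 0], 46)],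
        pE e.2 = e.2 ∧ 36 ≤ e.2 ∧ e.2 < chevE6.nroots := by decide +kernel
    obtain ⟨h1, h2, h3⟩ := hb e he
    rw [← xG_nW hq hK e.1 h3]
    refine mul_mem (mul_mem ((tw hq hK).nW_mem _) ?_) (inv_mem ((tw hq hK).nW_mem _))
    simpa [Sys.xProd] using xProd_one_mem hq hK (L := [e.2]) (by simpa using ⟨h1, h2, h3⟩)
  refine ⟨Sys.xProd S K [47, 25, 20, 8] (fun _ => 1), ?_, ?_⟩
  · refine Subgroup.list_prod_mem _ fun g hg => ?_
    obtain ⟨r, hr, rfl⟩ := List.mem_map.mp hg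
    obtain ⟨e, he, her⟩ := (by decide +kernel : ∀ r ∈ [47, 25, 20, 8],
      ∃ e ∈ [(([0] : List (Fin 4)), 39), ([0], 46), ([2, 1, 0], 46), ([3, 2, 1, 0], 46)],
        wL chevE6 (wdN e.1) e.2 = r) r hr
    exact her ▸ hw e he
  · have h2 := sysE6.wordEqBit_sound K (show wordEqBit chevE6 ([47, 25, 20, 8] ++ [39, 44, 60, 71])
      ([44, 60, 71] ++ [47, 25, 20, 8]) = true by decide +kernel)
    simp only [Sys.xProd, List.map_append, List.prod_append] at h2 ⊢
    rw [h2, mul_inv_cancel_right]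

/-- Every involution is conjugate to one of the three representatives. -/
theorem exists_rep {g : GL chevE6.Idx K} (hg : g ∈ GG) (hg2 : orderOf g = 2) :
    ∃ R ∈ reps, ∃ h ∈ GG, h * g * h⁻¹ = Sys.xProd S K R fun _ => 1 := by
  classical
  haveI : Fact (Nat.Prime 2) := ⟨Nat.prime_two⟩
  obtain ⟨m, -, hm⟩ := FiniteField.card K 2
  have hev : 2 ∣ q := Nat.prime_two.dvd_of_dvd_pow (hK ▸ hm ▸ dvd_pow_self 2 (PNat.ne_zero m))
  set U : Subgroup ↥GG := (chevE6.posUnipotent K ⊓ GG).subgroupOf GG with hUdef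
  have hcardU : Nat.card ↥U = q ^ 36 := by
    rw [Nat.card_congr (Subgroup.subgroupOfEquivOfLe inf_le_right).toEquiv]
    exact card_U hq hK
  have hG : Nat.gcd 3 (q + 1) * Nat.card ↥GG = q ^ 36 * (q ^ 2 - 1) * (q ^ 5 + 1) * (q ^ 6 - 1) *
      (q ^ 8 - 1) * (q ^ 9 + 1) * (q ^ 12 - 1) := card_group hq hK
  have hq2 := hq.two_le
  have hodd : ¬ 2 ∣ U.index := by
    intro h
    have h1 := U.card_mul_index
    rw [hcardU] at h1
    have h3 : q ^ 36 * (Nat.gcd 3 (q + 1) * U.index) = q ^ 36 * ((q ^ 2 - 1) * (q ^ 5 + 1) *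
        (q ^ 6 - 1) * (q ^ 8 - 1) * (q ^ 9 + 1) * (q ^ 12 - 1)) := by
      rw [mul_left_comm, h1, hG]; ring
    have h4 := Nat.eq_of_mul_eq_mul_left (pow_pos (by omega) 36) h3
    have h5 : 2 ∣ (q ^ 2 - 1) * (q ^ 5 + 1) * (q ^ 6 - 1) * (q ^ 8 - 1) * (q ^ 9 + 1) *
        (q ^ 12 - 1) := h4 ▸ dvd_mul_of_dvd_right h _
    have hk : ∀ k, k ≠ 0 → 2 ∣ q ^ k ∧ 1 ≤ q ^ k := fun k hk =>
      ⟨dvd_pow hev hk, Nat.one_le_pow _ _ (by omega)⟩
    obtain ⟨a1, b1⟩ := hk 2 (by norm_num)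
    obtain ⟨a2, b2⟩ := hk 5 (by norm_num)
    obtain ⟨a3, b3⟩ := hk 6 (by norm_num)
    obtain ⟨a4, b4⟩ := hk 8 (by norm_num)
    obtain ⟨a5, b5⟩ := hk 9 (by norm_num)
    obtain ⟨a6, b6⟩ := hk 12 (by norm_num)
    simp only [Nat.Prime.dvd_mul Nat.prime_two] at h5
    omega
  set gg : ↥GG := ⟨g, hg⟩
  have hgg : orderOf gg = 2 := by rw [← Subgroup.orderOf_coe]; exact hg2
  have hP : IsPGroup 2 ↥(Subgroup.zpowers gg) :=
    IsPGroup.of_card (n := 1) (by rw [Nat.card_zpowers, hgg, pow_one])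
  obtain ⟨x, hx⟩ := hP.nonempty_fixed_point_of_prime_not_dvd_card (↥GG ⧸ U) hodd
  obtain ⟨k, rfl⟩ := QuotientGroup.mk_surjective x
  have h6 : (↑(gg * k) : ↥GG ⧸ U) = ↑k := hx ⟨gg, Subgroup.mem_zpowers gg⟩
  rw [QuotientGroup.eq, Subgroup.mem_subgroupOf] at h6
  have hU' : (k : GL chevE6.Idx K)⁻¹ * g * (k : GL chevE6.Idx K) ∈
      chevE6.posUnipotent K ⊓ GG := by
    have h7 := inv_mem h6
    simpa [gg, mul_assoc] using h7
  set u := (k : GL chevE6.Idx K)⁻¹ * g * (k : GL chevE6.Idx K) with hu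
  have hspan : chevE6.posUnipotent K ≤ uSub chevE6 K (rSet (sp [0, 1, 2, 3, 4, 5])) := by
    rw [← uSub_univ]
    refine Sys.uSub_le S K fun r _ h1 h2 t => Sys.xG_mem_uSub S K ?_ h1 h2 t
    exact (Sys.mem_spanList S).mpr ⟨⟨h1, h2⟩, fun m hm => Or.inl
      ((by decide : ∀ m < chevE6.rank, m ∈ [0, 1, 2, 3, 4, 5]) m hm)⟩
  have hsq : g * g = 1 := by rw [← pow_two, ← hg2]; exact pow_orderOf_eq_one g
  have hu1 : u ≠ 1 := fun h => by
    have : g = 1 := by
      rw [show g = (k : GL chevE6.Idx K) * u * (k : GL chevE6.Idx K)⁻¹ by rw [hu]; group, h]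
      group
    rw [this, orderOf_one] at hg2
    norm_num at hg2
  have hu2 : u * u = 1 := by
    rw [hu]; simpa using sq_conj (k : GL chevE6.Idx K)⁻¹ hsq
  obtain ⟨R, hR, f, hf, h, hh, e⟩ := exists_prod hq hK (hspan hU'.1)
    (fix_of_mem hq hK hU'.2) hu2 hu1
  obtain ⟨t, ht, et⟩ := normalise_fixed hq hK hR f hf
  have E : t * h * (k : GL chevE6.Idx K)⁻¹ * g * (t * h * (k : GL chevE6.Idx K)⁻¹)⁻¹ =
      Sys.xProd S K R fun _ => 1 := by
    rw [← et, ← e, hu]; group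
  have hm' : t * h * (k : GL chevE6.Idx K)⁻¹ ∈ GG := mul_mem (mul_mem ht hh) (inv_mem k.2)
  simp only [prods, List.mem_cons, List.not_mem_nil, or_false] at hR
  rcases hR with rfl | rfl | rfl | rfl
  · exact ⟨_, by simp [reps], _, hm', E⟩
  · exact ⟨_, by simp [reps], _, hm', E⟩
  · exact ⟨_, by simp [reps], _, hm', E⟩
  · obtain ⟨w, hw, ew⟩ := four_to_three hq hK
    refine ⟨[44, 60, 71], by simp [reps], w * (t * h * (k : GL chevE6.Idx K)⁻¹),
      mul_mem hw hm', ?_⟩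
    rw [← ew, ← E]; group

theorem rep_mem {R : List ℕ} (hR : R ∈ reps) :
    Sys.xProd S K R (fun _ => (1 : K)) ∈ GG :=
  xProd_one_mem hq hK ((by decide +kernel :
    ∀ R ∈ reps, ∀ r ∈ R, pE r = r ∧ 36 ≤ r ∧ r < chevE6.nroots) R hR)

omit hq hK in
/-- The rank of `g - 1` at a representative. -/
theorem rep_rank {R : List ℕ} (hR : R ∈ reps) :
    ((Sys.xProd S K R (fun _ => (1 : K)) : Matrix chevE6.Idx chevE6.Idx K) - 1).rank =
      [22, 32, 38].getD (reps.idxOf R) 0 := by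
  classical
  have key : ∀ e : InvStep, chkInvStep chevE6 e = true → ∀ {n : ℕ},
      ((Sys.xProd S K e.2.2.2 (fun _ => (1 : K)) : Matrix chevE6.Idx chevE6.Idx K) - 1).rank = n →
      ((Sys.xProd S K e.1 (fun _ => (1 : K)) : Matrix chevE6.Idx chevE6.Idx K) - 1).rank = n := by
    intro e he n hn
    obtain ⟨k, -, hk⟩ := Sys.step_conj S K he
    rw [← hk, Sys.rank_conj S K] at hn
    exact hn
  simp only [reps, List.mem_cons, List.not_mem_nil, or_false] at hR
  rcases hR with rfl | rfl | rfl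
  · rw [sysE6.rank_sub_one K InvE6.chk_rank0]; rfl
  · exact key ([60, 71], true, [2, 3, 1], [68, 66]) (by decide +kernel)
      (by rw [sysE6.rank_sub_one K InvE6.chk_rank1]; rfl)
  · exact key ([44, 60, 71], true, [0, 2, 3, 1, 0], [55, 65, 67]) (by decide +kernel)
      (by rw [sysE6.rank_sub_one K InvE6.chk_rank2]; rfl)

omit hq hK in
theorem rep_order {R : List ℕ} (hR : R ∈ reps) :
    orderOf (Sys.xProd S K R (fun _ => (1 : K))) = 2 := by
  refine Sys.orderOf_xProd S K ((by decide +kernel :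
    ∀ R ∈ reps, wordEqBit chevE6 (R ++ R) [] = true) R hR) fun h => ?_
  have := rep_rank (K := K) hR
  rw [h, Units.val_one, sub_self, Matrix.rank_zero] at this
  exact (by decide +kernel : ∀ R ∈ reps, (0 : ℕ) ≠ [22, 32, 38].getD (reps.idxOf R) 0) R hR this

/-- Three classes. -/
theorem ncard_involution_classes :
    (ConjClasses.mk '' {g : ↥GG | orderOf g = 2}).ncard = 3 := by
  classical
  let el : Fin reps.length → ↥GG := fun k =>
    ⟨Sys.xProd S K (reps.get k) (fun _ => 1), rep_mem hq hK (List.get_mem reps k)⟩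
  have him : ConjClasses.mk '' {g : ↥GG | orderOf g = 2} =
      Set.range fun k => ConjClasses.mk (el k) := by
    ext C
    constructor
    · rintro ⟨g, hg, rfl⟩
      obtain ⟨R, hR, h, hh, e⟩ := exists_rep hq hK g.2 (by rw [Subgroup.orderOf_coe]; exact hg)
      obtain ⟨k, rfl⟩ := List.mem_iff_get.mp hR
      exact ⟨k, (ConjClasses.mk_eq_mk_iff_isConj.mpr
        (isConj_iff.mpr ⟨⟨h, hh⟩, Subtype.ext e⟩)).symm⟩
    · rintro ⟨k, rfl⟩
      refine ⟨el k, ?_, rfl⟩
      show orderOf (el k) = 2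
      rw [← Subgroup.orderOf_coe]
      exact rep_order (List.get_mem reps k)
  rw [him, Set.ncard_range_of_injective]
  · simp [reps]
  · intro a b hab
    obtain ⟨h, e⟩ := isConj_iff.mp (ConjClasses.mk_eq_mk_iff_isConj.mp hab)
    have e' : (h : GL chevE6.Idx K) * Sys.xProd S K (reps.get a) (fun _ => 1) *
        (h : GL chevE6.Idx K)⁻¹ = Sys.xProd S K (reps.get b) (fun _ => 1) :=
      congrArg Subtype.val e
    have hr := rep_rank (K := K) (List.get_mem reps b)
    rw [← e', Sys.rank_conj S K, rep_rank (K := K) (List.get_mem reps a)] at hr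
    exact (show reps.Nodup by decide +kernel).get_inj_iff.mp
      ((by decide +kernel : ∀ R₁ ∈ reps, ∀ R₂ ∈ reps,
        [22, 32, 38].getD (reps.idxOf R₁) 0 = [22, 32, 38].getD (reps.idxOf R₂) 0 → R₁ = R₂)
        _ (List.get_mem reps a) _ (List.get_mem reps b) hr)

end

end CfsgLib.TwistedLie.E6I
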