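import Cfsg.Agent.TwistedLie.D4EvenCoord
import Cfsg.Agent.TwistedLie.D4Facts

/-!
`³D₄(q)`, `q` even: every involution is conjugate to one of two elements.
-/

set_option autoImplicit false

namespace CfsgLib.TwistedLie.D4E

open Cfsg.Lie CfsgLib.Chevalley CfsgLib.TwistedLie.D4

/-- The representative of the short involutions. -/
noncomputable def shortInv (K : Type*) [Field K] : GL chevD4.Idx K :=
  uD K 0 0 0 0 0 0 0 1 1 1 0 0

/-- The representative of the long involutions. -/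
noncomputable def longInv (K : Type*) [Field K] : GL chevD4.Idx K :=
  uD K 0 0 0 0 0 0 0 0 0 0 0 1

variable {K : Type*} [Field K]

theorem nL_conj [CharP K 2] {L : List ℕ} (hL : ∀ i ∈ L, i < chevD4.rank) {r : ℕ}
    (hr : r < chevD4.nroots) {s : ℕ} (hs : wL chevD4 L r = s) (t : K) :
    MulAut.conj (nL sysD4 K L) (xd K r t) = xd K s t := by
  obtain ⟨u, hu, h⟩ := nL_conj_xG sysD4 K hL hr t
  rw [MulAut.conj_apply, mul_inv_eq_iff_eq_mul, xd, h, hs]
  rcases hu with rfl | rfl <;> simp [xd, CharTwo.neg_eq]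

variable [Fintype K] [CharP K 2] {q : ℕ}
variable (hq : IsPrimePow q) (hK : Fintype.card K = q ^ 3)
include hq hK

local notation "φ" => phi hq hK
local notation "GG" => twistedD4 K q

omit [CharP K 2] in
theorem phi3 (x : K) : φ (φ (φ x)) = x := by simp only [phi_apply]; exact pow_q3 hq hK x

set_option maxHeartbeats 1000000 in
theorem sigma_uD (b a1 a2 a3 c1 c2 c3 d1 d2 d3 e f : K) :
    sigma hq hK (uD K b a1 a2 a3 c1 c2 c3 d1 d2 d3 e f) =
      uD K (φ b) (φ a3) (φ a1) (φ a2) (φ c3) (φ c1) (φ c2) (φ d2) (φ d3) (φ d1) (φ e) (φ f) := by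
  have hx : ∀ r s : ℕ, r < chevD4.nroots → (symE 2785620 r).natAbs = 1 → pA r = s → ∀ t : K,
      sigma hq hK (xd K r t) = xd K s (φ t) := by
    intro r s hr he hs t
    have h1 : ((symE 2785620 r : ℤ) : K) = 1 := by
      rcases Int.natAbs_eq (symE 2785620 r) with h | h <;> rw [h, he] <;> simp [CharTwo.neg_eq]
    rw [← hs, xd, xd, sigma, twistHom_x sysD4 K graphD4a _ hr, h1, one_mul]
  conv_lhs => rw [uD]
  simp only [map_mul, hx 14 14 (by decide) (by decide +kernel) (by decide +kernel),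
    hx 18 13 (by decide) (by decide +kernel) (by decide +kernel),
    hx 13 12 (by decide) (by decide +kernel) (by decide +kernel),
    hx 12 18 (by decide) (by decide +kernel) (by decide +kernel),
    hx 19 16 (by decide) (by decide +kernel) (by decide +kernel),
    hx 16 15 (by decide) (by decide +kernel) (by decide +kernel),
    hx 15 19 (by decide) (by decide +kernel) (by decide +kernel),
    hx 21 17 (by decide) (by decide +kernel) (by decide +kernel),
    hx 20 21 (by decide) (by decide +kernel) (by decide +kernel),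
    hx 17 20 (by decide) (by decide +kernel) (by decide +kernel),
    hx 22 22 (by decide) (by decide +kernel) (by decide +kernel),
    hx 23 23 (by decide) (by decide +kernel) (by decide +kernel)]
  simp only [x14_eq, x18_eq, x13_eq, x12_eq, x19_eq, x16_eq, x15_eq, x21_eq, x20_eq, x17_eq, x22_eq, x23_eq,
    uD_mul]
  congr 1 <;> ring

/-- Fixed elements of the positive unipotent subgroup have twisted coordinates. -/
theorem exists_uT {g : GL chevD4.Idx K} (hg : g ∈ chevD4.posUnipotent K)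
    (hfix : sigma hq hK g = g) :
    ∃ b a c d e f : K, φ b = b ∧ φ e = e ∧ φ f = f ∧ g = uT K φ b a c d e f := by
  obtain ⟨b, a1, a2, a3, c1, c2, c3, d1, d2, d3, e, f, rfl⟩ := exists_uD K hg
  rw [sigma_uD hq hK] at hfix
  obtain ⟨hb, -, ha2, ha3, -, hc2, hc3, hd1, hd2, hd3, he, hf⟩ := uD_inj K hfix
  refine ⟨b, a1, c1, d1, e, f, hb, he, hf, ?_⟩
  rw [uT, ha2, ha3, hc2, hc3, hd3, hd2]

omit [CharP K 2] in
theorem fix_of_mem {g : GL chevD4.Idx K} (hg : g ∈ GG) : sigma hq hK g = g :=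
  (tw hq hK).σ_mem hg

theorem uD_fixed {b a1 a2 a3 c1 c2 c3 d1 d2 d3 e f : K}
    (h : uD K b a1 a2 a3 c1 c2 c3 d1 d2 d3 e f ∈ GG) :
    φ b = b ∧ φ e = e ∧ φ f = f ∧
      uD K b a1 a2 a3 c1 c2 c3 d1 d2 d3 e f = uT K φ b a1 c1 d1 e f := by
  have h' := fix_of_mem hq hK h
  rw [sigma_uD hq hK] at h'
  obtain ⟨hb, -, ha2, ha3, -, hc2, hc3, -, hd2, hd3, he, hf⟩ := uD_inj K h'
  refine ⟨hb, he, hf, ?_⟩
  rw [uT, ha2, ha3, hc2, hc3, hd3, hd2]

/-- Every element with twisted coordinates lies in the group. -/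
theorem uT_mem (b a c d e f : K) (hb : φ b = b) (he : φ e = e) (hf : φ f = f) :
    uT K φ b a c d e f ∈ GG := by
  classical
  let T := ↥(fixedAdd K φ) × K × K × K × ↥(fixedAdd K φ) × ↥(fixedAdd K φ)
  let F : T → GL chevD4.Idx K := fun t =>
    uT K φ t.1 t.2.1 t.2.2.1 t.2.2.2.1 t.2.2.2.2.1 t.2.2.2.2.2
  have hF : Function.Injective F := by
    rintro ⟨b, a, c, d, e, f⟩ ⟨b', a', c', d', e', f'⟩ h
    obtain ⟨h1, h2, -, -, h5, -, -, h8, -, -, h11, h12⟩ := uD_inj K h
    simp only at h1 h2 h5 h8 h11 h12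
    rw [Subtype.ext h1, h2, h5, h8, Subtype.ext h11, Subtype.ext h12]
  set U : Set (GL chevD4.Idx K) := ↑(chevD4.posUnipotent K ⊓ (tw hq hK).G) with hU
  have hsub : U ⊆ Set.range F := by
    rintro g ⟨h1, h2⟩
    obtain ⟨b, a, c, d, e, f, hb, he, hf, rfl⟩ := exists_uT hq hK h1 ((tw hq hK).σ_mem h2)
    exact ⟨(⟨b, hb⟩, a, c, d, ⟨e, he⟩, ⟨f, hf⟩), rfl⟩
  have hcard : (Set.range F).ncard ≤ U.ncard := by
    rw [Set.ncard_range_of_injective hF, hU, ← Nat.card_coe_set_eq,
      SetLike.coe_sort_coe, card_U hq hK]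
    simp only [T, Nat.card_prod, card_fixedAdd K hq hK (phi_apply hq hK)]
    rw [Nat.card_eq_fintype_card, hK]
    exact le_of_eq (by ring)
  have heq := Set.eq_of_subset_of_ncard_le hsub hcard (Set.finite_range F)
  have hmem : uT K φ b a c d e f ∈ U := heq ▸ ⟨(⟨b, hb⟩, a, c, d, ⟨e, he⟩, ⟨f, hf⟩), rfl⟩
  exact hmem.2

theorem shortInv_eq : shortInv K = uT K φ 0 0 0 1 0 0 := by simp [shortInv, uT]

theorem longInv_eq : longInv K = uT K φ 0 0 0 0 0 1 := by simp [longInv, uT]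

theorem shortInv_mem : shortInv K ∈ GG := by
  rw [shortInv_eq hq hK]; exact uT_mem hq hK _ _ _ _ _ _ (map_zero _) (map_zero _) (map_zero _)

theorem longInv_mem : longInv K ∈ GG := by
  rw [longInv_eq hq hK]; exact uT_mem hq hK _ _ _ _ _ _ (map_zero _) (map_zero _) (map_one _)

omit [CharP K 2] in
theorem nJ_mem' : nL sysD4 K [0, 2, 3] ∈ GG := D4.nJ_mem hq hK

omit [CharP K 2] in
theorem n1_mem' : nL sysD4 K [1] ∈ GG := D4.n2_mem hq hK

theorem cj_P_Q (a : K) : Cj GG (uT K φ 0 a 0 0 0 0) (uT K φ 0 0 a 0 0 0) := by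
  refine ⟨_, n1_mem' hq hK, ?_⟩
  rw [← MulAut.conj_apply]
  have e : uT K φ 0 a 0 0 0 0 = xd K 18 a * (xd K 13 (φ a) * xd K 12 (φ (φ a))) := by
    simp [uT, uD, xd, sysD4.xG_zero]
  rw [e]
  simp only [map_mul, nL_conj (by decide) (by decide) (show wL chevD4 [1] 18 = 19 by decide +kernel),
    nL_conj (by decide) (by decide) (show wL chevD4 [1] 13 = 16 by decide +kernel),
    nL_conj (by decide) (by decide) (show wL chevD4 [1] 12 = 15 by decide +kernel)]
  simp [uT, uD, xd, sysD4.xG_zero]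

theorem cj_Q_R (c : K) : Cj GG (uT K φ 0 0 c 0 0 0) (uT K φ 0 0 0 (φ (φ c)) 0 0) := by
  refine ⟨_, nJ_mem' hq hK, ?_⟩
  rw [← MulAut.conj_apply]
  have e : uT K φ 0 0 c 0 0 0 = xd K 19 c * (xd K 16 (φ c) * xd K 15 (φ (φ c))) := by
    simp [uT, uD, xd, sysD4.xG_zero]
  rw [e]
  simp only [map_mul,
    nL_conj (by decide) (by decide) (show wL chevD4 [0, 2, 3] 19 = 17 by decide +kernel),
    nL_conj (by decide) (by decide) (show wL chevD4 [0, 2, 3] 16 = 20 by decide +kernel),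
    nL_conj (by decide) (by decide) (show wL chevD4 [0, 2, 3] 15 = 21 by decide +kernel)]
  simp only [uT, x21_eq, x20_eq, x17_eq, uD_mul, map_zero, phi3 hq hK]
  congr 1 <;> ring

theorem cj_b (b d : K) : Cj GG (uT K φ b 0 0 d 0 0) (uT K φ 0 (φ d) 0 0 0 b) := by
  refine ⟨nL sysD4 K [1] * nL sysD4 K [0, 2, 3], mul_mem (n1_mem' hq hK) (nJ_mem' hq hK), ?_⟩
  rw [← MulAut.conj_apply, map_mul, MulAut.mul_apply]
  have e : uT K φ b 0 0 d 0 0 = xd K 14 b * (xd K 21 d * (xd K 20 (φ (φ d)) * xd K 17 (φ d))) := by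
    simp [uT, uD, xd, sysD4.xG_zero]
  rw [e]
  simp only [map_mul,
    nL_conj (by decide) (by decide) (show wL chevD4 [0, 2, 3] 14 = 22 by decide +kernel),
    nL_conj (by decide) (by decide) (show wL chevD4 [0, 2, 3] 21 = 15 by decide +kernel),
    nL_conj (by decide) (by decide) (show wL chevD4 [0, 2, 3] 20 = 16 by decide +kernel),
    nL_conj (by decide) (by decide) (show wL chevD4 [0, 2, 3] 17 = 19 by decide +kernel),
    nL_conj (by decide) (by decide) (show wL chevD4 [1] 22 = 23 by decide +kernel),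
    nL_conj (by decide) (by decide) (show wL chevD4 [1] 15 = 12 by decide +kernel),
    nL_conj (by decide) (by decide) (show wL chevD4 [1] 16 = 13 by decide +kernel),
    nL_conj (by decide) (by decide) (show wL chevD4 [1] 19 = 18 by decide +kernel)]
  simp only [uT, x23_eq, x12_eq, x13_eq, x18_eq, uD_mul, map_zero, phi3 hq hK]
  congr 1 <;> ring

theorem cj_e (e : K) : Cj GG (uT K φ 0 0 0 0 e 0) (uT K φ 0 0 0 0 0 e) := by
  refine ⟨_, n1_mem' hq hK, ?_⟩
  rw [← MulAut.conj_apply]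
  have h : uT K φ 0 0 0 0 e 0 = xd K 22 e := by simp [uT, uD, xd, sysD4.xG_zero]
  rw [h, nL_conj (by decide) (by decide) (show wL chevD4 [1] 22 = 23 by decide +kernel)]
  simp [uT, uD, xd, sysD4.xG_zero]

theorem cj_long {k : K} (hk : φ k = k) (h0 : k ≠ 0) :
    Cj GG (uT K φ 0 0 0 0 0 k) (longInv K) := by
  set a : Kˣ := (Units.mk0 k h0)⁻¹ with ha
  have haq : (a : K) ^ q = a := by
    rw [← phi_apply hq hK, ha, Units.val_inv_eq_inv_val, map_inv₀, Units.val_mk0, hk]
  refine ⟨_, torP_mem hq hK a haq, ?_⟩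
  have h : uT K φ 0 0 0 0 0 k = xd K 23 k := by simp [uT, uD, xd, sysD4.xG_zero]
  rw [h, xd, Sys.tor_conj sysD4 K _ (show 23 < chevD4.nroots by decide),
    torusVal_single K a (show 1 < chevD4.rank by decide),
    show chevD4.cartan 1 23 = 1 by decide +kernel, zpow_one, ha, Units.val_inv_eq_inv_val,
    Units.val_mk0, inv_mul_cancel₀ h0]
  simp [longInv, uD, xd, sysD4.xG_zero]

omit [CharP K 2] in
theorem twisted_norm_surj [CharP K 2] (k : Kˣ) :
    ∃ a : Kˣ, (a : K) * (a : K) ^ q * ((a : K) ^ (q ^ 2))⁻¹ = k := by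
  let ψ : Kˣ →* Kˣ :=
    { toFun := fun a => a * a ^ q * (a ^ (q ^ 2))⁻¹
      map_one' := by simp
      map_mul' := fun x y => by simp only [mul_pow, mul_inv]; ac_rfl }
  have hinj : Function.Injective ψ := by
    rw [injective_iff_map_eq_one]
    intro a h
    have h1 : (a : K) * φ (a : K) = φ (φ (a : K)) := by
      have h' : a * a ^ q = a ^ (q ^ 2) := mul_inv_eq_one.mp h
      have := congrArg (fun u : Kˣ => (u : K)) h'
      simp only [Units.val_mul, Units.val_pow_eq_pow_val] at this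
      rw [phi_apply, phi_apply, ← pow_mul, ← sq]
      exact this
    have h2 : φ (a : K) * φ (φ (a : K)) = a := by
      have := congrArg φ h1
      rwa [map_mul, phi3 hq hK] at this
    rw [← h1] at h2
    have h4 : φ (a : K) * φ (a : K) = 1 :=
      mul_left_cancel₀ (Units.ne_zero a) (by linear_combination h2)
    have h5 : φ (a : K) = 1 := by
      rcases mul_self_eq_one_iff.mp h4 with h6 | h6
      · exact h6
      · rw [h6, CharTwo.neg_eq]
    exact Units.ext ((φ).injective (by rw [h5, Units.val_one, map_one]))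
  obtain ⟨a, ha⟩ := Finite.injective_iff_surjective.mp hinj k
  refine ⟨a, ?_⟩
  rw [← ha]
  simp [ψ]

theorem cj_short {d : K} (hd : d ≠ 0) : Cj GG (uT K φ 0 0 0 d 0 0) (shortInv K) := by
  obtain ⟨a, ha⟩ := twisted_norm_surj hq hK (Units.mk0 d hd)⁻¹
  have hg : tor chevD4 K (cJ q a) ∈ GG := torJ_mem hq hK a
  refine ⟨_, hg, ?_⟩
  have e : uT K φ 0 0 0 d 0 0 = xd K 21 d * (xd K 20 (φ (φ d)) * xd K 17 (φ d)) := by
    simp [uT, uD, xd, sysD4.xG_zero]
  have hm := mul_mem (mul_mem hg (uT_mem hq hK 0 0 0 d 0 0 (map_zero _) (map_zero _) (map_zero _)))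
    (inv_mem hg)
  have e' : tor chevD4 K (cJ q a) * uT K φ 0 0 0 d 0 0 * (tor chevD4 K (cJ q a))⁻¹ =
      uD K 0 0 0 0 0 0 0 ((torusVal chevD4 (cJ q a) 21 : K) * d)
        ((torusVal chevD4 (cJ q a) 20 : K) * φ (φ d)) ((torusVal chevD4 (cJ q a) 17 : K) * φ d) 0 0 := by
    rw [e, ← MulAut.conj_apply, map_mul, map_mul]
    simp only [MulAut.conj_apply, xd, Sys.tor_conj sysD4 K _ (show 21 < chevD4.nroots by decide),
      Sys.tor_conj sysD4 K _ (show 20 < chevD4.nroots by decide),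
      Sys.tor_conj sysD4 K _ (show 17 < chevD4.nroots by decide)]
    simp [uD, xd, sysD4.xG_zero]
  rw [e'] at hm ⊢
  rw [(uD_fixed hq hK hm).2.2.2, shortInv_eq hq hK]
  congr 1
  rw [cJ_at a 21 1 1 (-1) (by decide +kernel) (by decide +kernel) (by decide +kernel)]
  simp only [zpow_one, zpow_neg, ha, Units.val_inv_eq_inv_val, Units.val_mk0, inv_mul_cancel₀ hd]

theorem cj_short_a {a : K} (ha : a ≠ 0) : Cj GG (uT K φ 0 a 0 0 0 0) (shortInv K) :=
  ((cj_P_Q hq hK a).trans (cj_Q_R hq hK a)).trans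
    (cj_short hq hK (by simpa using ha))

theorem trQ_self {x : K} (hx : φ x = x) : trQ φ x = x := by
  rw [trQ, hx, hx, CharTwo.add_self_eq_zero, zero_add]

omit [CharP K 2] in
theorem nmQ_ne {a : K} (ha : a ≠ 0) : nmQ φ a ≠ 0 := by
  simp [nmQ, ha]

theorem exists_sqrt {x : K} (hx : φ x = x) : ∃ m : K, φ m = m ∧ m * m = x := by
  have hinj : Function.Injective (fun y : K => y * y) := fun y z h => by
    rcases mul_self_eq_mul_self_iff.mp h with h' | h'
    · exact h'
    · rw [h', CharTwo.neg_eq]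
  obtain ⟨m, hm⟩ := Finite.injective_iff_surjective.mp hinj x
  exact ⟨m, hinj (show φ m * φ m = m * m by rw [← map_mul]; rw [show m * m = x from hm, hx]), hm⟩

theorem short_of_a {a e f : K} (ha : a ≠ 0) (he : φ e = e) (hf : φ f = f) :
    Cj GG (uT K φ 0 a 0 0 e f) (shortInv K) := by
  have hN := nmQ_ne hq hK ha
  obtain ⟨m, hm, hmm⟩ := exists_sqrt hq hK (x := f / nmQ φ a)
    (by rw [map_div₀, hf, nmQ_fix (phi3 hq hK)])
  have hmm' : m * m * nmQ φ a = f := by rw [hmm, div_mul_cancel₀ _ hN]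
  have h2 := two_zero (F := K)
  have s1 := step_a_d (phi3 hq hK) (uT_mem hq hK) (a := a) (d := 0) (e := e) (f := f) (γ := a * m)
    (by rw [map_mul, hm]; linear_combination -(a * φ a * m) * h2)
  have e1 : f + trQ φ (a * φ (a * m) * φ (φ (a * m))) = 0 := by
    simp only [trQ, map_mul, hm, phi3 hq hK]
    rw [← hmm', nmQ]
    linear_combination 2 * (m * m * a * φ a * φ (φ a)) * h2
  rw [e1] at s1
  set e' := e + trQ φ (a * φ a * φ (φ (a * m))) with he'
  have hfe : φ e' = e' := by rw [he', map_add, he, trQ_fix (phi3 hq hK)]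
  have s2 := step_a_e (phi3 hq hK) (uT_mem hq hK) (a := a) (e := e') (f := 0)
    (δ := φ (φ (e' / a))) (by rw [phi3 hq hK, mul_div_cancel₀ _ ha, trQ_self hq hK hfe])
  exact (s1.trans s2).trans (cj_short_a hq hK ha)

theorem sq_eqns {b a c d e f : K} (hb : φ b = b)
    (h : uT K φ b a c d e f * uT K φ b a c d e f = 1) :
    a * b = 0 ∧ a * φ c + φ a * c + a * φ a * b = 0 ∧
      trQ φ (a * φ d) + trQ φ (a * φ a * φ (φ c)) + nmQ φ a * b = 0 ∧
      b * e + trQ φ (c * φ d) + trQ φ (a * φ c * φ (φ c)) + nmQ φ a * b * b = 0 := by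
  rw [uT, uD_mul, ← uD_zero K] at h
  obtain ⟨-, -, -, -, hc, -, -, hd, -, -, he, hf⟩ := uD_inj K h
  have h2 := two_zero (F := K)
  have h3 := phi3 hq hK
  simp only [trQ, nmQ, map_mul, h3]
  refine ⟨?_, ?_, ?_, ?_⟩ <;> grind

omit hq hK in
/-- An involution of the standard kind. -/
def Std (q : ℕ) (g : GL chevD4.Idx K) : Prop :=
  Cj (twistedD4 K q) g (shortInv K) ∨ Cj (twistedD4 K q) g (longInv K)

theorem std_of_cj {g g' : GL chevD4.Idx K} (h : Cj GG g g') (h' : Std q g') : Std q g :=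
  h'.imp h.trans h.trans

omit [CharP K 2] in
theorem cj_sq {g g' : GL chevD4.Idx K} (h : Cj GG g g') (h2 : g * g = 1) : g' * g' = 1 := by
  obtain ⟨x, -, rfl⟩ := h
  rw [show x * g * x⁻¹ * (x * g * x⁻¹) = x * (g * g) * x⁻¹ by group, h2]
  group

/-- Every involution with twisted coordinates is standard. -/
theorem std_of_sq {b a c d e f : K} (hb : φ b = b) (he : φ e = e) (hf : φ f = f)
    (hne : uT K φ b a c d e f ≠ 1) (hsq : uT K φ b a c d e f * uT K φ b a c d e f = 1) :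
    Std q (uT K φ b a c d e f) := by
  have h3 := phi3 hq hK
  have hT := uT_mem hq hK
  have h2 := two_zero (F := K)
  obtain ⟨q1, q2, q3, q4⟩ := sq_eqns hq hK hb hsq
  by_cases hb0 : b = 0
  swap
  · obtain rfl : a = 0 := (mul_eq_zero.mp q1).resolve_right hb0
    obtain ⟨ε, ψ, s1⟩ := step_b_c h3 hT (b := b) (c := c) (d := d) (e := e) (f := f) (α := c / b) hb
      (mul_div_cancel₀ _ hb0)
    set δ := d + b * (c / b) * φ (c / b)
    obtain ⟨g, hg, hgu⟩ := s1
    have hm : uT K φ b 0 0 δ ε ψ ∈ GG := by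
      rw [← hgu]
      exact mul_mem (mul_mem hg (hT _ _ _ _ _ _ hb he hf)) (inv_mem hg)
    obtain ⟨-, hε, hψ, -⟩ := uD_fixed hq hK hm
    have q4' := (sq_eqns hq hK hb (cj_sq hq hK ⟨g, hg, hgu⟩ hsq)).2.2.2
    obtain rfl : ε = 0 := by
      simp [trQ, nmQ] at q4'
      exact q4'.resolve_left hb0
    have s2 := step_b_f h3 hT (b := b) (d := δ) (f := ψ) (η := ψ / b)
      (by rw [map_div₀, hψ, hb]) (mul_div_cancel₀ _ hb0)
    refine std_of_cj hq hK ⟨g, hg, hgu⟩ (std_of_cj hq hK (s2.trans (cj_b hq hK b δ)) ?_)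
    by_cases hδ : δ = 0
    · rw [hδ, map_zero]
      exact Or.inr (cj_long hq hK hb hb0)
    · exact Or.inl (short_of_a hq hK (by simpa using hδ) (map_zero _) hb)
  subst hb0
  by_cases ha : a = 0
  swap
  · have hφa : φ a ≠ 0 := by simpa using ha
    obtain ⟨l, rfl⟩ : ∃ l, c = l * a := ⟨c / a, (div_mul_cancel₀ _ ha).symm⟩
    have hlf : φ l = l := by
      refine mul_left_cancel₀ (mul_ne_zero ha hφa) ?_
      rw [map_mul] at q2
      linear_combination q2 - a * φ a * l * h2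
    have s1 := step_a_c h3 hT (a := a) (d := d) (e := e) (f := f) hlf
    have hsq1 := cj_sq hq hK s1 hsq
    obtain ⟨-, -, r3, -⟩ := sq_eqns hq hK (map_zero _) hsq1
    set d' := d + l * a * φ a
    set e' := e + l * nmQ φ a
    set f' := f + l * e'
    have he' : φ e' = e' := by simp only [e', map_add, map_mul, he, hlf, nmQ_fix h3]
    have hf' : φ f' = f' := by simp only [f', map_add, map_mul, hf, hlf, he']
    set w := d' / (a * φ a) with hw
    have hd' : d' = a * φ a * w := by rw [hw, mul_div_cancel₀ _ (mul_ne_zero ha hφa)]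
    have htr : w + φ w + φ (φ w) = 0 := by
      have := r3
      rw [hd'] at this
      simp only [trQ, nmQ, map_mul, map_zero, h3] at this
      refine ((mul_eq_zero (a := a * φ a * φ (φ a))).mp ?_).resolve_left (nmQ_ne hq hK ha)
      linear_combination this
    have s2 := step_a_d h3 hT (a := a) (d := d') (e := e') (f := f') (γ := a * φ w)
      (by rw [hd', map_mul]; linear_combination a * φ a * htr - (a * φ a * φ (φ w) + a * φ a * φ w) * h2)
    refine std_of_cj hq hK (s1.trans s2) (Or.inl (short_of_a hq hK ha ?_ ?_))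
    · rw [map_add, he', trQ_fix h3]
    · rw [map_add, hf', trQ_fix h3]
  subst ha
  by_cases hc : c = 0
  swap
  · have hφc : φ c ≠ 0 := by simpa using hc
    obtain ⟨w, rfl⟩ : ∃ w, d = c * φ c * w :=
      ⟨d / (c * φ c), (mul_div_cancel₀ _ (mul_ne_zero hc hφc)).symm⟩
    have htr : w + φ w + φ (φ w) = 0 := by
      simp only [trQ, nmQ, map_mul, map_zero, h3] at q4
      refine ((mul_eq_zero (a := c * φ c * φ (φ c))).mp ?_).resolve_left (nmQ_ne hq hK hc)
      linear_combination q4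
    have s1 := step_c_d h3 hT (c := c) (d := c * φ c * w) (e := e) (f := f) (α := c * φ w)
      (by rw [map_mul]; linear_combination c * φ c * htr - (c * φ c * φ (φ w) + c * φ c * φ w) * h2)
    set e' := e + trQ φ (c * φ w * φ (c * φ w) * φ (φ c))
    set f' := f + trQ φ (c * φ w * φ c * φ (φ c))
    have he' : φ e' = e' := by simp only [e', map_add, he, trQ_fix h3]
    obtain ⟨m, hm, hmm⟩ := exists_sqrt hq hK (x := e' / nmQ φ c)
      (by rw [map_div₀, he', nmQ_fix h3])
    have hmm' : m * m * nmQ φ c = e' := by rw [hmm, div_mul_cancel₀ _ (nmQ_ne hq hK hc)]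
    have s2 := step_c_d h3 hT (c := c) (d := 0) (e := e') (f := f') (α := c * m)
      (by rw [map_mul, hm]; linear_combination -(c * φ c * m) * h2)
    have e1 : e' + trQ φ (c * m * φ (c * m) * φ (φ c)) = 0 := by
      simp only [trQ, map_mul, hm, h3]
      rw [← hmm', nmQ]
      linear_combination 2 * (m * m * c * φ c * φ (φ c)) * h2
    rw [e1] at s2
    set f'' := f' + trQ φ (c * m * φ c * φ (φ c))
    have hf'' : φ f'' = f'' := by simp only [f'', f', map_add, hf, trQ_fix h3]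
    have s3 := step_c_f h3 hT (c := c) (f := f'') (δ := φ (φ (f'' / c)))
      (by rw [h3, mul_div_cancel₀ _ hc, trQ_self hq hK hf''])
    exact std_of_cj hq hK ((s1.trans s2).trans s3)
      (Or.inl ((cj_Q_R hq hK c).trans (cj_short hq hK (by simpa using hc))))
  subst hc
  by_cases hd : d = 0
  swap
  · have hφd : φ d ≠ 0 := by simpa using hd
    have s1 := step_d_e h3 hT (d := d) (e := e) (f := f) (α := e / φ d)
      (by rw [div_mul_cancel₀ _ hφd, trQ_self hq hK he])
    have s2 := step_d_f h3 hT (d := d) (f := f) (γ := f / φ d)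
      (by rw [div_mul_cancel₀ _ hφd, trQ_self hq hK hf])
    exact std_of_cj hq hK (s1.trans s2) (Or.inl (cj_short hq hK hd))
  subst hd
  by_cases he0 : e = 0
  swap
  · have s1 := step_e h3 hT (e := e) (f := f) (l := f / e) (by rw [map_div₀, hf, he])
      (div_mul_cancel₀ _ he0)
    exact std_of_cj hq hK s1 (Or.inr ((cj_e hq hK e).trans (cj_long hq hK he he0)))
  subst he0
  refine Or.inr (cj_long hq hK hf fun h => hne ?_)
  simp [uT, h, uD_zero]

/-- Every involution of `³D₄(q)` is standard. -/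
theorem std_of_orderOf_two {g : GL chevD4.Idx K} (hg : g ∈ GG) (h2 : orderOf g = 2) :
    Std q g := by
  classical
  haveI : Fact (Nat.Prime 2) := ⟨Nat.prime_two⟩
  obtain ⟨n, -, hn⟩ := FiniteField.card K 2
  have hev : 2 ∣ q := Nat.prime_two.dvd_of_dvd_pow (hK ▸ hn ▸ dvd_pow_self 2 (PNat.ne_zero n))
  set U : Subgroup ↥GG := (chevD4.posUnipotent K ⊓ GG).subgroupOf GG with hUdef
  have hcardU : Nat.card ↥U = q ^ 12 := by
    rw [Nat.card_congr (Subgroup.subgroupOfEquivOfLe inf_le_right).toEquiv]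
    exact card_U hq hK
  have hG : Nat.card ↥GG = q ^ 12 * (q ^ 2 - 1) * (q ^ 6 - 1) * (q ^ 8 + q ^ 4 + 1) :=
    card_group hq hK
  have hq2 := hq.two_le
  have hodd : ¬ 2 ∣ U.index := by
    have h1 := U.card_mul_index
    rw [hcardU, hG, mul_assoc, mul_assoc] at h1
    rw [Nat.eq_of_mul_eq_mul_left (pow_pos (by omega) 12) h1, Nat.Prime.dvd_mul Nat.prime_two,
      Nat.Prime.dvd_mul Nat.prime_two]
    have h3 : ∀ k, k ≠ 0 → 2 ∣ q ^ k ∧ 1 ≤ q ^ k := fun k hk =>
      ⟨dvd_pow hev hk, Nat.one_le_pow _ _ (by omega)⟩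
    obtain ⟨a1, b1⟩ := h3 2 (by norm_num)
    obtain ⟨a2, b2⟩ := h3 6 (by norm_num)
    obtain ⟨a3, -⟩ := h3 8 (by norm_num)
    obtain ⟨a4, -⟩ := h3 4 (by norm_num)
    omega
  set gg : ↥GG := ⟨g, hg⟩
  have hgg : orderOf gg = 2 := by rw [← Subgroup.orderOf_coe]; exact h2
  have hP : IsPGroup 2 ↥(Subgroup.zpowers gg) :=
    IsPGroup.of_card (n := 1) (by rw [Nat.card_zpowers, hgg, pow_one])
  obtain ⟨x, hx⟩ := hP.nonempty_fixed_point_of_prime_not_dvd_card (↥GG ⧸ U) hodd
  obtain ⟨k, rfl⟩ := QuotientGroup.mk_surjective x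
  have h6 : (↑(gg * k) : ↥GG ⧸ U) = ↑k := hx ⟨gg, Subgroup.mem_zpowers gg⟩
  rw [QuotientGroup.eq, Subgroup.mem_subgroupOf] at h6
  have hU' : (k : GL chevD4.Idx K)⁻¹ * g * (k : GL chevD4.Idx K) ∈ chevD4.posUnipotent K ⊓ GG := by
    have h7 := inv_mem h6
    simpa [gg, mul_assoc] using h7
  obtain ⟨b, a, c, d, e, f, hb, he, hf, heq⟩ :=
    exists_uT hq hK hU'.1 (fix_of_mem hq hK hU'.2)
  have hcj : Cj GG g (uT K φ b a c d e f) :=
    ⟨(k : GL chevD4.Idx K)⁻¹, inv_mem k.2, by rw [inv_inv, heq]⟩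
  have hsq : g * g = 1 := by rw [← pow_two, ← h2]; exact pow_orderOf_eq_one g
  refine std_of_cj hq hK hcj (std_of_sq hq hK hb he hf (fun h => ?_) (cj_sq hq hK hcj hsq))
  rw [← heq] at h
  have h8 := congrArg (fun y => (k : GL chevD4.Idx K) * y * (k : GL chevD4.Idx K)⁻¹) h
  have : g = 1 := by simpa [mul_assoc] using h8
  rw [this, orderOf_one] at h2
  norm_num at h2

end CfsgLib.TwistedLie.D4E
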