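import Cfsg.Agent.TwistedLie.D4EvenCoord
import Cfsg.Agent.Chevalley.Terms
import Mathlib.LinearAlgebra.Matrix.Rank
import Mathlib.Algebra.CharP.Lemmas

/-!
Type `D₄` in characteristic two: the long and short involutions have different ranks.
-/

set_option autoImplicit false

namespace CfsgLib.TwistedLie.D4E

open Cfsg.Lie CfsgLib.Chevalley

theorem xMat_map_ringHom {D : ChevalleyDatum} {F L : Type*} [Field F] [Field L] (f : F →+* L)
    (r : Fin D.nroots) (t : F) : (D.xMat F r t).map f = D.xMat L r (f t) := by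
  ext row col
  simp only [Matrix.map_apply, ChevalleyDatum.xMat, Matrix.of_apply]
  rcases col with i | s
  · rcases row with i' | u <;> dsimp only <;> split_ifs <;>
      simp [map_intCast]
  · rcases row with i' | u <;> dsimp only <;> split_ifs <;>
      simp [map_intCast, map_list_sum, List.map_map, Function.comp_def]

/-- The long element minus the identity, over the prime field. -/
noncomputable def longM : Matrix chevD4.Idx chevD4.Idx (ZMod 2) :=
  letI : Fact (Nat.Prime 2) := ⟨Nat.prime_two⟩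
  chevD4.xMat (ZMod 2) ⟨23, by decide⟩ 1 - 1

/-- The short element minus the identity, over the prime field. -/
noncomputable def shortM : Matrix chevD4.Idx chevD4.Idx (ZMod 2) :=
  letI : Fact (Nat.Prime 2) := ⟨Nat.prime_two⟩
  chevD4.xMat (ZMod 2) ⟨21, by decide⟩ 1 *
    (chevD4.xMat (ZMod 2) ⟨20, by decide⟩ 1 * chevD4.xMat (ZMod 2) ⟨17, by decide⟩ 1) - 1

/-- The index at a position of the concatenated basis. -/
def ix (k : ℕ) : chevD4.Idx :=
  if h : k < 4 then Sum.inl ⟨k, h⟩ else Sum.inr ⟨(k - 4) % 24, Nat.mod_lt _ (by decide)⟩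

/-- The support columns of the long element. -/
def colA : Fin 10 → chevD4.Idx := fun j => ix ([1, 4, 5, 6, 7, 8, 10, 11, 12, 13].getD j 0)

/-- Rows of a regular minor of the short element. -/
def rowB : Fin 11 → chevD4.Idx := fun j => ix ([0, 1, 2, 8, 9, 16, 17, 19, 20, 21, 26].getD j 0)

/-- Columns of a regular minor of the short element. -/
def colB : Fin 11 → chevD4.Idx := fun j => ix ([0, 4, 5, 6, 7, 8, 9, 10, 11, 12, 14].getD j 0)

/-- The selection matrix of the support columns. -/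
def selA : Matrix (Fin 10) chevD4.Idx (ZMod 2) := fun j c => if colA j = c then 1 else 0

/-- The inverse of the minor. -/
def minorInv : Matrix (Fin 11) (Fin 11) (ZMod 2) :=
  !![1,1,0,0,0,0,0,0,0,1,0; 0,0,0,1,0,0,0,0,0,0,0; 0,0,0,0,1,0,0,0,0,0,0; 1,1,1,0,0,0,0,0,0,0,0;
     0,1,1,0,0,0,0,0,0,0,0; 0,0,0,1,0,1,1,0,0,0,1; 0,0,0,0,1,0,0,0,1,0,0; 1,1,0,0,0,0,0,0,0,0,0;
     0,0,0,0,0,0,1,0,0,0,1; 0,0,0,0,0,1,0,0,0,0,1; 0,0,0,0,0,0,0,1,1,0,0]

theorem longM_factor : longM = longM.submatrix id colA * selA := by decide +kernel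

theorem shortM_minor : shortM.submatrix rowB colB * minorInv = 1 := by decide +kernel

variable (F : Type*) [Field F] [CharP F 2]

theorem rank_long : ((xd F 23 1 : GL chevD4.Idx F).1 - 1).rank ≤ 10 := by
  haveI : Fact (Nat.Prime 2) := ⟨Nat.prime_two⟩
  let f : ZMod 2 →+* F := ZMod.castHom dvd_rfl F
  have e : longM.map f = (xd F 23 1 : GL chevD4.Idx F).1 - 1 := by
    rw [longM, Matrix.map_sub _ f.map_sub, xMat_map_ringHom, map_one, Matrix.map_one _ f.map_zero f.map_one,
      sysD4.xG_val F, x_eq (show 23 < chevD4.nroots by decide)]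
  rw [← e, longM_factor, Matrix.map_mul]
  exact (Matrix.rank_mul_le_right _ _).trans ((Matrix.rank_le_card_height _).trans_eq (Fintype.card_fin 10))

theorem rank_short :
    11 ≤ ((xd F 21 1 * (xd F 20 1 * xd F 17 1) : GL chevD4.Idx F).1 - 1).rank := by
  haveI : Fact (Nat.Prime 2) := ⟨Nat.prime_two⟩
  let f : ZMod 2 →+* F := ZMod.castHom dvd_rfl F
  have e : shortM.map f = (xd F 21 1 * (xd F 20 1 * xd F 17 1) : GL chevD4.Idx F).1 - 1 := by
    rw [shortM, Matrix.map_sub _ f.map_sub, Matrix.map_mul, Matrix.map_mul, xMat_map_ringHom,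
      xMat_map_ringHom, xMat_map_ringHom, map_one, Matrix.map_one _ f.map_zero f.map_one,
      Units.val_mul, Units.val_mul, sysD4.xG_val F, sysD4.xG_val F, sysD4.xG_val F,
      x_eq (show 21 < chevD4.nroots by decide), x_eq (show 20 < chevD4.nroots by decide),
      x_eq (show 17 < chevD4.nroots by decide)]
  have h : (shortM.map f).submatrix rowB colB * minorInv.map f = 1 := by
    rw [Matrix.submatrix_map, ← Matrix.map_mul, shortM_minor,
      Matrix.map_one _ f.map_zero f.map_one]
  have h2 := Matrix.rank_mul_le_left ((shortM.map f).submatrix rowB colB) (minorInv.map f)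
  rw [h, Matrix.rank_one, Fintype.card_fin] at h2
  rw [← e]
  exact h2.trans (Matrix.rank_submatrix_le _ _ _)

/-- The long and the short involution are not conjugate, even in the linear group. -/
theorem not_conj_long_short (g : GL chevD4.Idx F) :
    g * uD F 0 0 0 0 0 0 0 0 0 0 0 1 * g⁻¹ ≠ uD F 0 0 0 0 0 0 0 1 1 1 0 0 := by
  intro h
  have h1 := rank_long F
  have h2 := rank_short F
  rw [show xd F 21 1 * (xd F 20 1 * xd F 17 1) = uD F 0 0 0 0 0 0 0 1 1 1 0 0 by
    simp [uD, xd, sysD4.xG_zero], ← h, ← x23_eq] at h2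
  have e : ((g * xd F 23 1 * g⁻¹ : GL chevD4.Idx F).1 - 1) =
      g.1 * ((xd F 23 1 : GL chevD4.Idx F).1 - 1) * (g⁻¹).1 := by
    rw [mul_sub, sub_mul, mul_one, Units.val_mul, Units.val_mul, Units.mul_inv]
  rw [e] at h2
  have h3 := (Matrix.rank_mul_le_left _ (g⁻¹).1).trans
    (Matrix.rank_mul_le_right g.1 ((xd F 23 1 : GL chevD4.Idx F).1 - 1))
  omega

end CfsgLib.TwistedLie.D4E
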