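import Cfsg.Agent.TwistedLie.D4MinDegree65
import Cfsg.Agent.ChevSubfield.Basic
import Cfsg.Agent.ChevSubfield.Field
import Cfsg.Agent.Chevalley.FoldFixed

/-!
The subgroup of `³D₄(q)` of matrices over the field of `q` elements is maximal.

An overgroup `H` contains the long root elements with parameter in the small field. Either it contains
a short root element with parameter outside the small field, and then it is everything, or it meets the
unipotent part in subfield points; in that case the orbit of `H` on long root subgroups is that of the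
subfield group, and the stabilisers agree.
-/

set_option autoImplicit false

namespace CfsgLib.TwistedLie.D4.Subfield65

open Cfsg.Lie CfsgLib.Chevalley CfsgLib.TwistedLie CfsgLib.TwistedLie.D4
open CfsgLib.TwistedLie.D4.MinDeg65
open CfsgLib.ChevField CfsgLib.ChevSubfield
open scoped Matrix

local notation "S" => sysD4

/-! ### Signs of conjugation by products of the `n_p` -/

/-- The sign by which a product of the `n_p` moves a root element. -/
def sgnL : List ℕ → ℕ → ℤ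
  | [], _ => 1
  | i :: L, r => tabD4.etaF i (wL chevD4 L r) * sgnL L r

variable {K : Type*} [Field K]

theorem nL_conj {L : List ℕ} (hL : ∀ i ∈ L, i < chevD4.rank) {r : ℕ} (hr : r < chevD4.nroots)
    (t : K) : nL S K L * Sys.xG S K r t * (nL S K L)⁻¹ =
      Sys.xG S K (wL chevD4 L r) ((sgnL L r : K) * t) := by
  induction L with
  | nil => simp [nL, sgnL, wL]
  | cons i L ih =>
    have hi := hL i (List.mem_cons_self ..)
    have hL' : ∀ j ∈ L, j < chevD4.rank := fun j hj => hL j (List.mem_cons_of_mem _ hj)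
    rw [nL_cons, mul_inv_rev]
    calc Sys.nG S K (chevD4.simple i) 1 * nL S K L * Sys.xG S K r t *
          ((nL S K L)⁻¹ * (Sys.nG S K (chevD4.simple i) 1)⁻¹)
        = Sys.nG S K (chevD4.simple i) 1 * (nL S K L * Sys.xG S K r t * (nL S K L)⁻¹) *
          (Sys.nG S K (chevD4.simple i) 1)⁻¹ := by group
      _ = _ := by
        rw [ih hL', Sys.nG_conj_xG S K hi (wL_lt S hL' hr), mul_inv_cancel_right, sgnL, Int.cast_mul,
          mul_assoc]
        rfl

theorem conj_prod3 {G : Type*} [Group G] (n a b c : G) :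
    n * (a * b * c) * n⁻¹ = n * a * n⁻¹ * (n * b * n⁻¹) * (n * c * n⁻¹) := by group

theorem n1_conj_P (q : ℕ) (t : K) : nL S K [1] * P q t * (nL S K [1])⁻¹ = U1 q t := by
  rw [P, conj_prod3, nL_conj (by decide) (by decide), nL_conj (by decide) (by decide),
    nL_conj (by decide) (by decide), U1,
    show wL chevD4 [1] 18 = 19 by decide +kernel, show wL chevD4 [1] 13 = 16 by decide +kernel,
    show wL chevD4 [1] 12 = 15 by decide +kernel, show sgnL [1] 18 = 1 by decide +kernel,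
    show sgnL [1] 13 = -1 by decide +kernel, show sgnL [1] 12 = -1 by decide +kernel]
  simp

theorem n0_conj_U1 (q : ℕ) (A : K) :
    nL S K [0, 2, 3] * U1 q A * (nL S K [0, 2, 3])⁻¹ = U2 q A := by
  rw [U1, conj_prod3, nL_conj (by decide) (by decide), nL_conj (by decide) (by decide),
    nL_conj (by decide) (by decide), U2,
    show wL chevD4 [0, 2, 3] 19 = 17 by decide +kernel,
    show wL chevD4 [0, 2, 3] 16 = 20 by decide +kernel,
    show wL chevD4 [0, 2, 3] 15 = 21 by decide +kernel,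
    show sgnL [0, 2, 3] 19 = 1 by decide +kernel, show sgnL [0, 2, 3] 16 = 1 by decide +kernel,
    show sgnL [0, 2, 3] 15 = 1 by decide +kernel]
  simp

/-! ### An additive closure criterion -/

/-- An additive subgroup containing one and closed under inversion is stable under `x ↦ a x a`. -/
theorem triple_mem {A : AddSubgroup K} (hinv : ∀ a ∈ A, a⁻¹ ∈ A) {a b : K} (ha : a ∈ A)
    (hb : b ∈ A) : a * b * a ∈ A := by
  rcases eq_or_ne a 0 with rfl | ha0
  · simp
  rcases eq_or_ne b 0 with rfl | hb0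
  · simp
  rcases eq_or_ne (b⁻¹ - a) 0 with h | h
  · rw [← sub_eq_zero.1 h, inv_mul_cancel₀ hb0, one_mul]
    exact hinv b hb
  rcases eq_or_ne (a⁻¹ + (b⁻¹ - a)⁻¹) 0 with h' | h'
  · exfalso
    have := congrArg (fun x => x * (a * (b⁻¹ - a))) h'
    simp only [add_mul, zero_mul] at this
    rw [inv_mul_cancel_left₀ ha0, mul_comm a, inv_mul_cancel_left₀ h] at this
    exact inv_ne_zero hb0 (by linear_combination this)
  have e : a * b * a = a - (a⁻¹ + (b⁻¹ - a)⁻¹)⁻¹ := by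
    have h1 : a⁻¹ + (b⁻¹ - a)⁻¹ = b⁻¹ * a⁻¹ * (b⁻¹ - a)⁻¹ := by
      have e1 : b⁻¹ = b⁻¹ - a + a := (sub_add_cancel _ _).symm
      conv_rhs => rw [e1]
      rw [add_mul, add_mul, show (b⁻¹ - a) * a⁻¹ * (b⁻¹ - a + a - a)⁻¹ = a⁻¹ by
          rw [add_sub_cancel_right, mul_comm (b⁻¹ - a), mul_inv_cancel_right₀ h],
        mul_inv_cancel₀ ha0, one_mul, add_sub_cancel_right]
    rw [h1, mul_inv_rev, mul_inv_rev, inv_inv, inv_inv, inv_inv, sub_mul,
      show b⁻¹ * (a * b) = a by field_simp]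
    ring
  rw [e]
  exact A.sub_mem ha (hinv _ (A.add_mem (hinv a ha) (hinv _ (A.sub_mem (hinv b hb) ha))))

section

variable [Fintype K] {q : ℕ} (hq : IsPrimePow q) (hK : Fintype.card K = q ^ 3)

local notation "G1" => chevD4.genSubgroup K (d4Words K q)

/-- The entrywise action of `t ↦ t ^ q`. -/
noncomputable abbrev fM : GL chevD4.Idx K →* GL chevD4.Idx K := gmap chevD4 (phi hq hK)

theorem fM_x {r : ℕ} {t : K} (ht : t ^ q = t) :
    fM hq hK (Sys.xG S K r t) = Sys.xG S K r t := by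
  rw [fM, gmap_xG S, phi_apply, ht]

theorem fM_nL (L : List ℕ) : fM hq hK (nL S K L) = nL S K L := by
  induction L with
  | nil => simp [nL]
  | cons i L ih => rw [nL_cons, map_mul, ih, fM, gmap_nG S, map_one]

theorem fM_P (t : K) : fM hq hK (P q t) = P q (t ^ q) := by
  simp only [fM, P, map_mul, gmap_xG S, phi_apply, ← pow_mul, mul_comm]

include hq hK in
theorem powData : ∃ p, PowData (phi hq hK) p q 3 := by
  obtain ⟨p, hp, hc, n, hn⟩ := exists_char_pow hq three_ne_zero hK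
  have h1 : 1 ≤ n := by
    by_contra h
    have := hq.two_le
    rw [hn, show n = 0 by omega, pow_zero] at this
    omega
  exact ⟨p, hp, hc, ⟨n, h1, hn⟩, Nat.prime_three, by rw [Nat.card_eq_fintype_card, hK],
    phi_apply hq hK⟩

include hq hK in
theorem exists_not_fixed : ∃ t : K, t ^ q ≠ t := by
  obtain ⟨p, D⟩ := powData hq hK
  obtain ⟨t, ht⟩ := D.exists_not_mem
  exact ⟨t, fun h => ht (by rw [mem_fixField, phi_apply, h])⟩

include hq hK in
/-- An additive subgroup with the small field, stable under inversion and with a further element is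
everything. -/
theorem all_mem (A : AddSubgroup K) (hF : ∀ x : K, x ^ q = x → x ∈ A)
    (hs : ∀ x : K, x ^ q = x → ∀ a ∈ A, x * a ∈ A) (hinv : ∀ a ∈ A, a⁻¹ ∈ A) {t : K} (ht : t ∈ A)
    (ht' : t ^ q ≠ t) : ∀ x, x ∈ A := by
  obtain ⟨p, D⟩ := powData hq hK
  have h2 : (t * t) ^ q ≠ t * t := by
    intro h
    rw [mul_pow, mul_self_eq_mul_self_iff] at h
    rcases h with h | h
    · exact ht' h
    · have h3 := pow_q3 hq hK t
      rw [h, negq hq hK, h, neg_neg] at h3
      rw [h] at ht' h3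
      exact ht' h3
  have hall := D.eq_univ (A := {x : K | ∀ a ∈ A, x * a ∈ A})
    (fun x hx => hs x (by rw [← phi_apply hq hK]; exact hx))
    (fun x hx y hy a ha => by rw [add_mul]; exact A.add_mem (hx a ha) (hy a ha))
    (fun x hx y hy a ha => by rw [mul_assoc]; exact hx _ (hy a ha))
    (t := t * t) (fun a ha => by
      have := triple_mem hinv ht ha
      rwa [mul_right_comm] at this)
    (fun h => h2 (by rw [← phi_apply hq hK]; exact h))
  intro x
  have := hall x 1 (hF 1 (one_pow q))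
  rwa [mul_one] at this

/-! ### Generalities on the group -/

theorem G1_group {g : GL chevD4.Idx K} (hg : g ∈ G1) (hq : IsPrimePow q)
    (hK : Fintype.card K = q ^ 3) : g ∈ chevD4.group K := (tw hq hK).G_mem_group hg

include hq hK in
theorem x_mem {r : ℕ} (h : r = 9 ∨ r = 14 ∨ r = 22 ∨ r = 23) {t : K} (ht : t ^ q = t) :
    Sys.xG S K r t ∈ G1 := by
  rcases h with rfl | h
  · exact fix_mem (Or.inr rfl) ht
  · exact fix_pos_mem hq hK h ht

include hq hK in
/-- A root element of a fixed root in the group has a parameter in the small field. -/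
theorem param_fixed {r : ℕ} (h : r = 1 ∨ r = 9 ∨ r = 14 ∨ r = 22 ∨ r = 23) {t : K}
    (hx : Sys.xG S K r t ∈ G1) : t ^ q = t := by
  have hs := (tw hq hK).σ_mem hx
  change sigma hq hK _ = _ at hs
  have key : r < chevD4.nroots ∧ pA r = r ∧ symE 2785620 r = 1 := by
    rcases h with rfl | rfl | rfl | rfl | rfl <;> decide +kernel
  rw [sigma_x hq hK key.1 key.2.2, key.2.1] at hs
  exact ChevField.xG_inj S key.1 hs

end

/-! ### The overgroup -/

/-- An overgroup of the subfield points inside `³D₄(q)`. -/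
structure Over [Fintype K] {q : ℕ} (hq : IsPrimePow q) (hK : Fintype.card K = q ^ 3)
    (H : Subgroup (GL chevD4.Idx K)) : Prop where
  fix : ∀ g ∈ chevD4.genSubgroup K (d4Words K q), fM hq hK g = g → g ∈ H
  le : H ≤ chevD4.genSubgroup K (d4Words K q)

/-- The positive unipotent part of the group. -/
def UG (K : Type*) [Field K] (q : ℕ) : Subgroup (GL chevD4.Idx K) :=
  chevD4.posUnipotent K ⊓ chevD4.genSubgroup K (d4Words K q)

section

variable [Fintype K] {q : ℕ} {hq : IsPrimePow q} {hK : Fintype.card K = q ^ 3}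
  {H : Subgroup (GL chevD4.Idx K)} (O : Over hq hK H)

local notation "G1" => chevD4.genSubgroup K (d4Words K q)
local notation "m1" => nL S K [1]
local notation "m0" => nL S K [0, 2, 3]

include O

theorem Over.x {r : ℕ} (h : r = 9 ∨ r = 14 ∨ r = 22 ∨ r = 23) {t : K} (ht : t ^ q = t) :
    Sys.xG S K r t ∈ H := O.fix _ (x_mem hq hK h ht) (fM_x hq hK ht)

theorem Over.n1 : m1 ∈ H := O.fix _ (n2_mem hq hK) (fM_nL hq hK _)

theorem Over.n0 : m0 ∈ H := O.fix _ (nJ_mem hq hK) (fM_nL hq hK _)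

theorem Over.P_fix {t : K} (ht : t ^ q = t) : P q t ∈ H :=
  O.fix _ (P_mem t) (by rw [fM_P, ht])

theorem Over.U1_iff {t : K} : U1 q t ∈ H ↔ P q t ∈ H := by
  rw [← n1_conj_P, Subgroup.mul_mem_cancel_right _ (inv_mem O.n1),
    Subgroup.mul_mem_cancel_left _ O.n1]

theorem Over.U2_iff {t : K} : U2 q t ∈ H ↔ P q t ∈ H := by
  rw [← n0_conj_U1, Subgroup.mul_mem_cancel_right _ (inv_mem O.n0),
    Subgroup.mul_mem_cancel_left _ O.n0, O.U1_iff]

theorem Over.scale {t c : K} (hc : c ^ q = c) (ht : P q t ∈ H) : P q (c * t) ∈ H := by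
  rcases eq_or_ne c 0 with rfl | hc0
  · rw [zero_mul]; exact O.P_fix (zero_pow (by have := hq.two_le; omega))
  set a : Kˣ := Units.mk0 c⁻¹ (inv_ne_zero hc0)
  have ha : (a : K) ^ q = a := by show c⁻¹ ^ q = c⁻¹; rw [inv_pow, hc]
  set T := tor chevD4 K (Pi.mulSingle 1 a)
  have hT : T ∈ H := by
    refine O.fix _ (torP_mem hq hK a ha) ?_
    rw [fM, gmap_tor S]
    refine congrArg _ (funext fun j => Units.ext ?_)
    rcases eq_or_ne j 1 with rfl | hj
    · simp [phi_apply, ha]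
    · simp [Pi.mulSingle_eq_of_ne hj]
  have e : T * P q t * T⁻¹ = P q (c * t) := by
    have hc2 : c ^ (q ^ 2) = c := by rw [← pq2 hq hK, hc, hc]
    have hi : ∀ r, (torusVal chevD4 (Pi.mulSingle 1 a) r : K) = c ^ (-chevD4.cartan 1 r) := by
      intro r
      rw [torusVal_single K a (show 1 < chevD4.rank by decide), Units.val_zpow_eq_zpow_val]
      simp [a, inv_zpow]
    rw [P, conj_prod3, Sys.tor_conj S K _ (by decide), Sys.tor_conj S K _ (by decide),
      Sys.tor_conj S K _ (by decide), hi, hi, hi, show chevD4.cartan 1 18 = -1 by decide +kernel,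
      show chevD4.cartan 1 13 = -1 by decide +kernel, show chevD4.cartan 1 12 = -1 by decide +kernel,
      P, mul_pow, mul_pow, hc, hc2]
    simp
  rw [← e]
  exact mul_mem (mul_mem hT ht) (inv_mem hT)

/-- The parameters of the short root elements in `H`. -/
noncomputable def Over.shortPar : AddSubgroup K where
  carrier := {t | P q t ∈ H}
  zero_mem' := by show P q 0 ∈ H; exact O.P_fix (zero_pow (by have := hq.two_le; omega))
  add_mem' := fun {a b} ha hb => by
    show P q (a + b) ∈ H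
    rw [← P_comm hq hK]; exact mul_mem ha hb
  neg_mem' := fun {a} ha => by
    show P q (-a) ∈ H
    have e : P q (-a) = (P q a)⁻¹ := eq_inv_of_mul_eq_one_left (by
      rw [P_comm hq hK, neg_add_cancel, P_zero hq hK])
    rw [e]; exact inv_mem ha

/-- A short root element with parameter outside the small field gives everything. -/
theorem Over.eq_of_short {t : K} (ht : P q t ∈ H) (ht' : t ^ q ≠ t) : G1 ≤ H := by
  have hinv : ∀ a ∈ O.shortPar, a⁻¹ ∈ O.shortPar := by
    intro a ha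
    show P q a⁻¹ ∈ H
    rcases eq_or_ne a 0 with rfl | ha0
    · rwa [inv_zero]
    obtain ⟨v, hv, e⟩ := conj_P_root hq hK a (one_pow q)
    have hN : (a * a ^ q * a ^ (q ^ 2)) ^ q = a * a ^ q * a ^ (q ^ 2) := by
      rw [mul_pow, mul_pow, pq2 hq hK, pq3 hq hK]; ring
    have h14 := O.x (Or.inr (Or.inl rfl)) (one_pow q)
    have hl : P q a * Sys.xG S K 14 1 * (P q a)⁻¹ ∈ H := mul_mem (mul_mem ha h14) (inv_mem ha)
    rw [e, mul_one, mul_one, Subgroup.mul_mem_cancel_right _ (O.x (Or.inr (Or.inr (Or.inr rfl))) hv),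
      Subgroup.mul_mem_cancel_left _ (mul_mem h14 (O.U1_iff.2 (O.shortPar.neg_mem ha))),
      Subgroup.mul_mem_cancel_right _ (O.x (Or.inr (Or.inr (Or.inl rfl)))
        (by rw [mul_one, negq hq hK, hN])), O.U2_iff] at hl
    have := O.scale (c := (a * a ^ q * a ^ (q ^ 2))⁻¹) (by rw [inv_pow, hN]) hl
    convert this using 2
    field_simp
  have hall : ∀ x, P q x ∈ H := all_mem hq hK O.shortPar (fun _ hx => O.P_fix hx)
    (fun _ hx _ ha => O.scale hx ha) hinv ht ht'
  refine gen_le S K ?_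
  rintro w (⟨u, hu, r, hr, rfl⟩ | ⟨u, rs, hrs, rfl⟩)
  · rw [wG_single]
    simp only [d4p2, d4m2, List.mem_cons, List.not_mem_nil, or_false] at hr
    rcases hr with rfl | rfl
    · exact O.x (Or.inr (Or.inl rfl)) hu
    · exact O.x (Or.inl rfl) hu
  · simp only [List.mem_cons, List.not_mem_nil, or_false] at hrs
    rcases hrs with rfl | rfl
    · rw [wG_P]; exact hall u
    · rw [wG_N, show u = - -u by rw [neg_neg], ← n0_conj_P hq hK, n0_eq' hq hK]
      exact mul_mem (mul_mem O.n0 (hall _)) (inv_mem O.n0)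

end

/-! ### Conjugates of long root elements by positive elements -/

section

variable [Fintype K] {q : ℕ}

local notation "G1" => chevD4.genSubgroup K (d4Words K q)
local notation "m1" => nL S K [1]
local notation "m0" => nL S K [0, 2, 3]

theorem x14_inv (t : K) : (Sys.xG S K 14 t)⁻¹ = Sys.xG S K 14 (-t) := Sys.xG_inv S K 14 t

variable (hq : IsPrimePow q) (hK : Fintype.card K = q ^ 3)
include hq hK

theorem P_inv (s : K) : (P q s)⁻¹ = P q (-s) :=
  inv_eq_of_mul_eq_one_right (by rw [P_comm hq hK, add_neg_cancel, P_zero hq hK])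

theorem split0 {v : GL chevD4.Idx K} (hv : v ∈ UG K q) :
    ∃ s, ∃ a ∈ UG K q, v = P q s * a ∧ m0 * a * m0⁻¹ ∈ UG K q := by
  obtain ⟨a, ha, x, hx, e, hn⟩ := (tw hq hK).U_split 0 (inv_mem hv)
  obtain ⟨s, rfl⟩ := (mem_XX0 hq hK).mp hx
  replace hn : (Sys.wN S K (blkF 0) : GL chevD4.Idx K) * a *
      (Sys.wN S K (blkF 0) : GL chevD4.Idx K)⁻¹ ∈ UG K q := hn
  rw [n0_eq' hq hK] at hn
  refine ⟨-s, a⁻¹, inv_mem ha, ?_, ?_⟩
  · rw [← P_inv hq hK, ← mul_inv_rev, ← e, inv_inv]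
  · have := inv_mem hn
    rwa [mul_inv_rev, mul_inv_rev, inv_inv, ← mul_assoc] at this

theorem split1 {v : GL chevD4.Idx K} (hv : v ∈ UG K q) :
    ∃ t, t ^ q = t ∧ ∃ a ∈ UG K q, v = Sys.xG S K 14 t * a ∧ m1 * a * m1⁻¹ ∈ UG K q := by
  obtain ⟨a, ha, x, hx, e, hn⟩ := (tw hq hK).U_split 1 (inv_mem hv)
  obtain ⟨t, ht, rfl⟩ := (mem_XX1 hq hK).mp hx
  replace hn : (Sys.wN S K (blkF 1) : GL chevD4.Idx K) * a *
      (Sys.wN S K (blkF 1) : GL chevD4.Idx K)⁻¹ ∈ UG K q := hn
  rw [n1_eq' hq hK] at hn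
  refine ⟨-t, by rw [negq hq hK, ht], a⁻¹, inv_mem ha, ?_, ?_⟩
  · rw [← x14_inv, ← mul_inv_rev, ← e, inv_inv]
  · have := inv_mem hn
    rwa [mul_inv_rev, mul_inv_rev, inv_inv, ← mul_assoc] at this

omit hq hK in
theorem conj23 {v : GL chevD4.Idx K} (hv : v ∈ UG K q) (c : K) :
    v * Sys.xG S K 23 c * v⁻¹ = Sys.xG S K 23 c := by
  rw [top_comm_pos hv.1, mul_inv_cancel_right]

theorem conj22 {v : GL chevD4.Idx K} (hv : v ∈ UG K q) {c : K} (hc : c ^ q = c) :
    ∃ z, z ^ q = z ∧ v * Sys.xG S K 22 c * v⁻¹ = Sys.xG S K 22 c * Sys.xG S K 23 z := by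
  obtain ⟨t, ht, a, -, rfl, ha⟩ := split1 hq hK hv
  have h1 : m1 * Sys.xG S K 22 c * m1⁻¹ = Sys.xG S K 23 c := by
    rw [nL_conj (by decide) (by decide), show wL chevD4 [1] 22 = 23 by decide +kernel,
      show sgnL [1] 22 = 1 by decide +kernel, Int.cast_one, one_mul]
  have h2 : a * Sys.xG S K 22 c * a⁻¹ = Sys.xG S K 22 c := by
    refine mul_left_cancel (a := m1) (mul_right_cancel (b := m1⁻¹) ?_)
    calc m1 * (a * Sys.xG S K 22 c * a⁻¹) * m1⁻¹
        = m1 * a * m1⁻¹ * (m1 * Sys.xG S K 22 c * m1⁻¹) * (m1 * a * m1⁻¹)⁻¹ := by group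
      _ = _ := by rw [h1, conj23 ha]
  refine ⟨t * c, by rw [mul_pow, ht, hc], ?_⟩
  rw [show Sys.xG S K 14 t * a * Sys.xG S K 22 c * (Sys.xG S K 14 t * a)⁻¹ =
      Sys.xG S K 14 t * (a * Sys.xG S K 22 c * a⁻¹) * (Sys.xG S K 14 t)⁻¹ by group, h2,
    conj_of (r := 14) (s := 22) (w := 23) (C := 1) (by decide) (by decide) (by decide)
      (by decide +kernel) (by decide +kernel), Int.cast_one, one_mul]

theorem conj14 {a : GL chevD4.Idx K} (ha : m0 * a * m0⁻¹ ∈ UG K q) {c : K} (hc : c ^ q = c) :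
    ∃ z, z ^ q = z ∧ a * Sys.xG S K 14 c * a⁻¹ = Sys.xG S K 14 c * Sys.xG S K 23 z := by
  have hc' : (-c) ^ q = -c := by rw [negq hq hK, hc]
  obtain ⟨z, hz, e⟩ := conj22 hq hK ha hc'
  refine ⟨z, hz, mul_left_cancel (a := m0) (mul_right_cancel (b := m0⁻¹) ?_)⟩
  have h1 : m0 * Sys.xG S K 14 c * m0⁻¹ = Sys.xG S K 22 (-c) := by
    rw [nL_conj (by decide) (by decide), show wL chevD4 [0, 2, 3] 14 = 22 by decide +kernel,
      show sgnL [0, 2, 3] 14 = -1 by decide +kernel, Int.cast_neg, Int.cast_one, neg_one_mul]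
  have h2 : m0 * Sys.xG S K 23 z * m0⁻¹ = Sys.xG S K 23 z := by
    rw [nL_conj (by decide) (by decide), show wL chevD4 [0, 2, 3] 23 = 23 by decide +kernel,
      show sgnL [0, 2, 3] 23 = 1 by decide +kernel, Int.cast_one, one_mul]
  calc m0 * (a * Sys.xG S K 14 c * a⁻¹) * m0⁻¹
      = m0 * a * m0⁻¹ * (m0 * Sys.xG S K 14 c * m0⁻¹) * (m0 * a * m0⁻¹)⁻¹ := by group
    _ = m0 * Sys.xG S K 14 c * m0⁻¹ * (m0 * Sys.xG S K 23 z * m0⁻¹) := by rw [h1, e, h2]
    _ = _ := by group

end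

/-! ### The unipotent part and the long root elements of an overgroup -/

section

variable [Fintype K] {q : ℕ} {hq : IsPrimePow q} {hK : Fintype.card K = q ^ 3}
  {H : Subgroup (GL chevD4.Idx K)} (O : Over hq hK H)
  (hP : ∀ t, P q t ∈ H → t ^ q = t)

local notation "G1" => chevD4.genSubgroup K (d4Words K q)
local notation "m1" => nL S K [1]
local notation "m0" => nL S K [0, 2, 3]

include O hP

theorem param_of_conj14 {s c : K} (hc : c ^ q = c) (hc0 : c ≠ 0)
    (h : P q s * Sys.xG S K 14 c * (P q s)⁻¹ ∈ H) : s ^ q = s := by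
  set t : F0 hq hK := ⟨c, F0_mk hq hK hc⟩
  set HG := H.subgroupOf G1
  have hz : ∀ v, gz hq hK v ∈ HG := fun v =>
    Subgroup.mem_subgroupOf.2 (O.x (Or.inr (Or.inr (Or.inr rfl))) (F0_pow hq hK v))
  let A : AddSubgroup (F0 hq hK × K × K × F0 hq hK) :=
    { carrier := {x | (coord hq hK x : ↥G1) ∈ HG}
      zero_mem' := by
        obtain ⟨v, hv⟩ := coord_add hq hK 0 0
        rw [add_zero, mul_right_inj] at hv
        show (coord hq hK 0 : ↥G1) ∈ HG
        rw [hv]; exact hz v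
      add_mem' := fun {x y} hx hy => by
        obtain ⟨v, hv⟩ := coord_add hq hK x y
        exact (Subgroup.mul_mem_cancel_right _ (hz v)).1 (hv ▸ mul_mem hx hy)
      neg_mem' := fun {x} hx => by
        obtain ⟨v, hv⟩ := coord_add hq hK x (-x)
        obtain ⟨w, hw⟩ := coord_add hq hK 0 0
        rw [add_zero, mul_right_inj] at hw
        rw [add_neg_cancel, hw] at hv
        show (coord hq hK (-x) : ↥G1) ∈ HG
        refine (Subgroup.mul_mem_cancel_left HG (y := (coord hq hK (-x) : ↥G1)) hx).1 ?_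
        rw [hv]; exact mul_mem (hz w) (hz v) }
  have hline : ∀ u : K, P q u * Sys.xG S K 14 c * (P q u)⁻¹ ∈ H →
      line hq hK (some u) t ∈ A := by
    intro u hu
    obtain ⟨v, hv⟩ := gP_conj hq hK u t
    exact (Subgroup.mul_mem_cancel_right _ (hz v)).1 (hv ▸ Subgroup.mem_subgroupOf.2 hu)
  have h14 := O.x (Or.inr (Or.inl rfl)) hc
  have hfx : ∀ u : K, u ^ q = u → P q u * Sys.xG S K 14 c * (P q u)⁻¹ ∈ H := fun u hu =>
    mul_mem (mul_mem (O.P_fix hu) h14) (inv_mem (O.P_fix hu))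
  have hs1 : P q (s + 1) * Sys.xG S K 14 c * (P q (s + 1))⁻¹ ∈ H := by
    rw [add_comm, ← P_comm hq hK, show P q 1 * P q s * Sys.xG S K 14 c * (P q 1 * P q s)⁻¹ =
      P q 1 * (P q s * Sys.xG S K 14 c * (P q s)⁻¹) * (P q 1)⁻¹ by group]
    exact mul_mem (mul_mem (O.P_fix (one_pow q)) h) (inv_mem (O.P_fix (one_pow q)))
  have hD := sub_mem (add_mem (hline _ hs1) (hline _ (hfx 0 (zero_pow (by have := hq.two_le; omega)))))
    (add_mem (hline _ h) (hline _ (hfx 1 (one_pow q))))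
  set D := line hq hK (some (s + 1)) t + line hq hK (some 0) t -
    (line hq hK (some s) t + line hq hK (some 1) t) with hDdef
  have hq0 : q ≠ 0 := by have := hq.two_le; omega
  have h1 : D.1 = 0 := by simp [hDdef, line]
  have h2 : D.2.1 = 0 := by simp [hDdef, line]; ring
  have h3 : D.2.2.1 = (s ^ q + s ^ (q ^ 2)) * c := by
    simp [hDdef, line, addq hq hK, addq2 hq hK, zero_pow hq0, t]
    ring
  have hc2 : (coord hq hK D : ↥G1) = gb hq hK D.1 * g1 hq hK D.2.1 *
      (g2 hq hK D.2.2.1 * gc hq hK D.2.2.2) := rfl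
  have hb : gb hq hK D.1 * g1 hq hK D.2.1 ∈ HG := by
    refine mul_mem (Subgroup.mem_subgroupOf.2 (O.x (Or.inr (Or.inl rfl)) (F0_pow hq hK _)))
      (Subgroup.mem_subgroupOf.2 ?_)
    show U1 q D.2.1 ∈ H
    rw [h2, O.U1_iff]
    exact O.P_fix (zero_pow hq0)
  have hD' : (coord hq hK D : ↥G1) ∈ HG := hD
  rw [hc2, Subgroup.mul_mem_cancel_left _ hb, Subgroup.mul_mem_cancel_right _
    (Subgroup.mem_subgroupOf.2 (O.x (Or.inr (Or.inr (Or.inl rfl))) (F0_pow hq hK _)) :
      gc hq hK D.2.2.2 ∈ HG)] at hD'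
  have hfix : ((s ^ q + s ^ (q ^ 2)) * c) ^ q = (s ^ q + s ^ (q ^ 2)) * c := by
    rw [← h3]
    exact hP _ (O.U2_iff.1 (Subgroup.mem_subgroupOf.1 hD'))
  rw [mul_pow, hc, addq hq hK, pq2 hq hK, pq3 hq hK] at hfix
  have := mul_right_cancel₀ hc0 hfix
  linear_combination -this

theorem param_of_split {s c : K} {a : GL chevD4.Idx K} (ha : m0 * a * m0⁻¹ ∈ UG K q)
    (hc : c ^ q = c) (hc0 : c ≠ 0) (h : P q s * a * Sys.xG S K 14 c * (P q s * a)⁻¹ ∈ H) :
    s ^ q = s := by
  obtain ⟨z, hz, e⟩ := conj14 hq hK ha hc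
  refine param_of_conj14 O hP hc hc0 ?_
  rw [show P q s * a * Sys.xG S K 14 c * (P q s * a)⁻¹ =
      P q s * (a * Sys.xG S K 14 c * a⁻¹) * (P q s)⁻¹ by group, e,
    show P q s * (Sys.xG S K 14 c * Sys.xG S K 23 z) * (P q s)⁻¹ =
      P q s * Sys.xG S K 14 c * (P q s)⁻¹ * (P q s * Sys.xG S K 23 z * (P q s)⁻¹) by group,
    conj23 (q := q) ⟨P_pos q s, P_mem s⟩,
    Subgroup.mul_mem_cancel_right _ (O.x (Or.inr (Or.inr (Or.inr rfl))) hz)] at h
  exact h

theorem uni_fixed {u : GL chevD4.Idx K} (hu : u ∈ H) (hpos : u ∈ chevD4.posUnipotent K) :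
    fM hq hK u = u := by
  suffices key : ∀ (L : List (Fin 2)), ∀ u ∈ (tw hq hK).flipFix L, u ∈ H → fM hq hK u = u by
    refine key [0, 1, 0, 1, 0, 1] u ?_ hu
    refine (tw hq hK).mem_flipFix.2 ⟨?_, (tw hq hK).σ_mem (O.le hu)⟩
    rw [Sys.posUnipotent_eq S] at hpos
    refine (Subgroup.closure_le _).2 ?_ hpos
    rintro _ ⟨r, ⟨h12, h24⟩, t, rfl⟩
    refine Sys.xG_mem_uSub S K (P := Sys.flipSet S K ((tw hq hK).nW [0, 1, 0, 1, 0, 1]))
      ⟨h24, ?_⟩ h12 h24 t
    rw [(tw hq hK).perm_nW]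
    show (Sys.wperm S ([0, 1, 0, 1, 0, 1].flatMap blkF) ⟨r, h24⟩ : ℕ) < _
    rw [wperm_flat]
    exact (by decide +kernel : ∀ s : Fin chevD4.nroots, chevD4.nroots / 2 ≤ (s : ℕ) →
      wL chevD4 (wdN [0, 1, 0, 1, 0, 1]) (s : ℕ) < chevD4.nroots / 2) ⟨r, h24⟩ h12
  intro L
  induction hk : (invSet ((tw hq hK).wW L)).card using Nat.strong_induction_on generalizing L with
  | _ k ih =>
    intro u hu huH
    by_cases h0 : ∃ s, s ∈ invSet ((tw hq hK).wW L)
    · obtain ⟨i, b, hb, hneg⟩ := (tw hq hK).exists_flip L h0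
      obtain ⟨v, hv, x, hx, e⟩ := (tw hq hK).flipFix_split hb hneg hu
      have hlt : (invSet ((tw hq hK).wW (L ++ [i]))).card < k := by
        have := (tw hq hK).flip_card_step hb hneg
        have := (tw hq hK).blk_inv_pos i
        omega
      set n := (Sys.wN S K ((tw hq hK).blk i) : GL chevD4.Idx K) with hn
      have hnH : n ∈ H ∧ fM hq hK n = n := by
        rw [hn]
        exact ⟨O.fix _ ((tw hq hK).n_mem i) (gmap_wN S _ _), gmap_wN S _ _⟩
      have hxfix : x ∈ H ∧ fM hq hK x = x := by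
        rcases (show i = 0 ∨ i = 1 from (by decide : ∀ j : Fin 2, j = 0 ∨ j = 1) i) with rfl | rfl
        · obtain ⟨s, rfl⟩ := (mem_XX0 hq hK).mp hx
          have hs : (-s) ^ q = -s := by
            have ha : m0 * (P q s * u⁻¹) * m0⁻¹ ∈ UG K q := by
              have hvU : v⁻¹ ∈ UG K q :=
                inv_mem ⟨uSub_le_posUnipotent K _ hv.1, (tw hq hK).flipFix_le_G _ hv⟩
              convert hvU using 1
              rw [e]
              show m0 * _ * m0⁻¹ = _
              rw [hn, show (Sys.wN S K ((tw hq hK).blk (0 : Fin 2)) : GL chevD4.Idx K) = m0 from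
                n0_eq' hq hK]
              group
            refine param_of_split O hP ha (c := 1) (one_pow q) one_ne_zero ?_
            rw [← P_inv hq hK, inv_mul_cancel_left]
            exact mul_mem (mul_mem (inv_mem huH) (O.x (Or.inr (Or.inl rfl)) (one_pow q)))
              (inv_mem (inv_mem huH))
          rw [negq hq hK, neg_inj] at hs
          exact ⟨O.P_fix hs, by rw [fM_P, hs]⟩
        · obtain ⟨t, ht, rfl⟩ := (mem_XX1 hq hK).mp hx
          exact ⟨O.x (Or.inr (Or.inl rfl)) ht, fM_x hq hK ht⟩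
      have hvH : v ∈ H := by
        have : v = n * (u * x⁻¹) * n⁻¹ := by rw [e]; group
        rw [this]
        exact mul_mem (mul_mem hnH.1 (mul_mem huH (inv_mem hxfix.1))) (inv_mem hnH.1)
      have hvf := ih _ hlt (L ++ [i]) rfl v hv hvH
      rw [e, map_mul, map_mul, map_mul, map_inv, hnH.2, hvf, hxfix.2]
    · have hu1 := ((tw hq hK).mem_flipFix.mp hu).1
      have hbot : uSub chevD4 K (Sys.flipSet S K ((tw hq hK).nW L)) = ⊥ :=
        uSub_empty_of fun r hr hp => by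
          obtain ⟨h, hf⟩ := hr
          rw [(tw hq hK).perm_nW] at hf
          exact h0 ⟨⟨r, h⟩, mem_invSet.mpr ⟨((Sys.pos_iff S r).mp hp).1, hf⟩⟩
      rw [hbot, Subgroup.mem_bot] at hu1
      rw [hu1, map_one]

/-- Moved to the highest root by a subfield element of `H`. -/
def Good (hq : IsPrimePow q) (hK : Fintype.card K = q ^ 3) (H : Subgroup (GL chevD4.Idx K))
    (R : GL chevD4.Idx K) : Prop :=
  ∃ m ∈ H, fM hq hK m = m ∧ ∃ d, m * R * m⁻¹ = Sys.xG S K 23 d

omit O hP in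
theorem Good.of_conj {R m : GL chevD4.Idx K} (hm : m ∈ H) (hmf : fM hq hK m = m)
    (h : Good hq hK H (m * R * m⁻¹)) : Good hq hK H R := by
  obtain ⟨n, hn, hnf, d, e⟩ := h
  exact ⟨n * m, mul_mem hn hm, by rw [map_mul, hnf, hmf], d, by rw [← e]; group⟩

theorem good22 {v : GL chevD4.Idx K} (hv : v ∈ UG K q) (c : K) :
    Good hq hK H (v * Sys.xG S K 22 c * v⁻¹) := by
  obtain ⟨t, ht, a, -, rfl, ha⟩ := split1 hq hK hv
  have ht' : (-t) ^ q = -t := by rw [negq hq hK, ht]
  refine ⟨m1 * Sys.xG S K 14 (-t), mul_mem O.n1 (O.x (Or.inr (Or.inl rfl)) ht'),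
    by rw [map_mul, fM_nL, fM_x hq hK ht'], c, ?_⟩
  rw [← x14_inv, show ∀ y x : GL chevD4.Idx K, m1 * y⁻¹ * (y * a * x * (y * a)⁻¹) * (m1 * y⁻¹)⁻¹ =
      m1 * a * m1⁻¹ * (m1 * x * m1⁻¹) * (m1 * a * m1⁻¹)⁻¹ from fun y x => by group,
    nL_conj (by decide) (by decide), show wL chevD4 [1] 22 = 23 by decide +kernel,
    show sgnL [1] 22 = 1 by decide +kernel, Int.cast_one, one_mul, conj23 ha]

theorem good14 {v : GL chevD4.Idx K} (hv : v ∈ UG K q) {c : K} (hc : c ^ q = c) (hc0 : c ≠ 0)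
    (hR : v * Sys.xG S K 14 c * v⁻¹ ∈ H) : Good hq hK H (v * Sys.xG S K 14 c * v⁻¹) := by
  obtain ⟨s, a, -, rfl, ha⟩ := split0 hq hK hv
  have hs := param_of_split O hP ha hc hc0 hR
  have hs' : (-s) ^ q = -s := by rw [negq hq hK, hs]
  refine Good.of_conj (mul_mem O.n0 (O.P_fix hs')) (by rw [map_mul, fM_nL, fM_P, hs']) ?_
  rw [← P_inv hq hK, show ∀ y x : GL chevD4.Idx K, m0 * y⁻¹ * (y * a * x * (y * a)⁻¹) *
      (m0 * y⁻¹)⁻¹ = m0 * a * m0⁻¹ * (m0 * x * m0⁻¹) * (m0 * a * m0⁻¹)⁻¹ from fun y x => by group,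
    nL_conj (by decide) (by decide), show wL chevD4 [0, 2, 3] 14 = 22 by decide +kernel]
  exact good22 O hP ha _

theorem good9 {v : GL chevD4.Idx K} (hv : v ∈ UG K q) {c : K} (hc : c ^ q = c) (hc0 : c ≠ 0)
    (hR : v * Sys.xG S K 9 c * v⁻¹ ∈ H) : Good hq hK H (v * Sys.xG S K 9 c * v⁻¹) := by
  obtain ⟨t, ht, a, -, rfl, ha⟩ := split1 hq hK hv
  have ht' : (-t) ^ q = -t := by rw [negq hq hK, ht]
  set m := m1 * Sys.xG S K 14 (-t) with hm
  have hmH : m ∈ H := mul_mem O.n1 (O.x (Or.inr (Or.inl rfl)) ht')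
  refine Good.of_conj hmH (by rw [hm, map_mul, fM_nL, fM_x hq hK ht']) ?_
  have hR' := mul_mem (mul_mem hmH hR) (inv_mem hmH)
  rw [hm, ← x14_inv, show ∀ y x : GL chevD4.Idx K, m1 * y⁻¹ * (y * a * x * (y * a)⁻¹) *
      (m1 * y⁻¹)⁻¹ = m1 * a * m1⁻¹ * (m1 * x * m1⁻¹) * (m1 * a * m1⁻¹)⁻¹ from fun y x => by group,
    nL_conj (by decide) (by decide), show wL chevD4 [1] 9 = 14 by decide +kernel,
    show sgnL [1] 9 = -1 by decide +kernel, Int.cast_neg, Int.cast_one, neg_one_mul] at hR' ⊢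
  exact good14 O hP ha (by rw [negq hq hK, hc]) (neg_ne_zero.2 hc0) hR'

theorem good1 {v : GL chevD4.Idx K} (hv : v ∈ UG K q) {c : K} (hc : c ^ q = c) (hc0 : c ≠ 0)
    (hR : v * Sys.xG S K 1 c * v⁻¹ ∈ H) : Good hq hK H (v * Sys.xG S K 1 c * v⁻¹) := by
  have h23 := O.x (Or.inr (Or.inr (Or.inr rfl))) (one_pow q)
  have hy : v * Sys.xG S K 14 c * v⁻¹ ∈ H := by
    have e : Sys.xG S K 23 1 * (v * Sys.xG S K 1 c * v⁻¹) * (Sys.xG S K 23 1)⁻¹ =
        v * Sys.xG S K 1 c * v⁻¹ * (v * Sys.xG S K 14 c * v⁻¹) := by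
      have e2 : v * Sys.xG S K 23 1 = Sys.xG S K 23 1 * v := top_comm_pos hv.1 1
      calc _ = Sys.xG S K 23 1 * v * Sys.xG S K 1 c * (Sys.xG S K 23 1 * v)⁻¹ := by group
        _ = v * (Sys.xG S K 23 1 * Sys.xG S K 1 c * (Sys.xG S K 23 1)⁻¹) * v⁻¹ := by
          rw [← e2]; group
        _ = _ := by
          rw [conj_of (r := 23) (s := 1) (w := 14) (C := 1) (by decide) (by decide) (by decide)
            (by decide +kernel) (by decide +kernel), Int.cast_one, one_mul, one_mul]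
          group
    have := mul_mem (mul_mem h23 hR) (inv_mem h23)
    rwa [e, Subgroup.mul_mem_cancel_left _ hR] at this
  obtain ⟨s, a, -, rfl, ha⟩ := split0 hq hK hv
  have hs := param_of_split O hP ha hc hc0 hy
  have hs' : (-s) ^ q = -s := by rw [negq hq hK, hs]
  set m := m0 * P q (-s) with hm
  have hmH : m ∈ H := mul_mem O.n0 (O.P_fix hs')
  refine Good.of_conj hmH (by rw [hm, map_mul, fM_nL, fM_P, hs']) ?_
  have hR' := mul_mem (mul_mem hmH hR) (inv_mem hmH)
  rw [hm, ← P_inv hq hK, show ∀ y x : GL chevD4.Idx K, m0 * y⁻¹ * (y * a * x * (y * a)⁻¹) *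
      (m0 * y⁻¹)⁻¹ = m0 * a * m0⁻¹ * (m0 * x * m0⁻¹) * (m0 * a * m0⁻¹)⁻¹ from fun y x => by group,
    nL_conj (by decide) (by decide), show wL chevD4 [0, 2, 3] 1 = 9 by decide +kernel,
    show sgnL [0, 2, 3] 1 = 1 by decide +kernel, Int.cast_one, one_mul] at hR' ⊢
  exact good9 O hP ha hc hc0 hR'

end

/-! ### Orbits and stabilisers -/

theorem top_vec {u : GL chevD4.Idx K} (hu : u ∈ chevD4.posUnipotent K) :
    (u : Matrix chevD4.Idx chevD4.Idx K) *ᵥ evec chevD4 K 23 = evec chevD4 K 23 := by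
  rw [Sys.posUnipotent_eq S] at hu
  induction hu using Subgroup.closure_induction with
  | mem x hx =>
    obtain ⟨r, ⟨h1, h2⟩, t, rfl⟩ := hx
    have h3 := (by decide +kernel : ∀ r < 24, 12 ≤ r → colTerms chevD4 r 27 = [(27, 1, 0)]) r h2 h1
    rw [Sys.xG_val, evec, x_bv (Sys.wf S) h2 (by decide), show chevD4.rank + 23 = 27 from rfl, h3]
    simp
  | one => simp
  | mul x y _ _ hx hy => rw [Units.val_mul, ← Matrix.mulVec_mulVec, hy, hx]
  | inv x _ hx =>
    conv_lhs => rw [← hx, Matrix.mulVec_mulVec, ← Units.val_mul, inv_mul_cancel, Units.val_one,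
      Matrix.one_mulVec]

/-- Two fixed root groups meet trivially. -/
theorem eq_zero_of_x {k : ℕ} (hk : k = 1 ∨ k = 9 ∨ k = 14 ∨ k = 22) {c d : K}
    (h : Sys.xG S K k c = Sys.xG S K 23 d) : c = 0 := by
  obtain ⟨hk', j, hj, hc⟩ : k < chevD4.nroots ∧ ∃ j, j < 4 ∧
      (chevD4.cartan j k = 1 ∨ chevD4.cartan j k = -1) := by
    rcases hk with rfl | rfl | rfl | rfl
    · exact ⟨by decide, 1, by decide +kernel⟩
    · exact ⟨by decide, 0, by decide +kernel⟩
    · exact ⟨by decide, 0, by decide +kernel⟩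
    · exact ⟨by decide, 1, by decide +kernel⟩
  have hne : k ≠ 23 := by omega
  have h1 := congrArg (fun g : GL chevD4.Idx K =>
    crd chevD4 ((g : Matrix chevD4.Idx chevD4.Idx K) *ᵥ bv chevD4 K j) k) h
  simp only [Sys.xG_val] at h1
  rw [x_bv_h hk' hj, x_bv_h (show 23 < chevD4.nroots by decide) hj, crd_sub, crd_sub, crd_smul,
    crd_smul, ← evec, ← evec, crd_evec hk', crd_evec hk', if_pos rfl, if_neg hne, mul_one,
    mul_zero, sub_zero] at h1
  rcases hc with e | e <;> simpa [e] using h1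

section

variable [Fintype K] {q : ℕ} (hq : IsPrimePow q) (hK : Fintype.card K = q ^ 3)

local notation "G1" => chevD4.genSubgroup K (d4Words K q)
local notation "m1" => nL S K [1]
local notation "m0" => nL S K [0, 2, 3]

include hq hK

theorem entry_fixed {g : GL chevD4.Idx K} (hg : g ∈ G1) {u : ℕ} (hu : u = 0 ∨ u = 1) :
    crd chevD4 ((g : Matrix chevD4.Idx chevD4.Idx K) *ᵥ evec chevD4 K 23) u ^ q =
      crd chevD4 ((g : Matrix chevD4.Idx chevD4.Idx K) *ᵥ evec chevD4 K 23) u := by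
  set Pm := (graphD4a.symMat_isUnit K).unit with hPm
  have hPv : (Pm : Matrix chevD4.Idx chevD4.Idx K) =
      symMat chevD4 K pA (symE 2785620) (symP [2, 1, 3, 0]) := IsUnit.unit_spec _
  have hs := congrArg (fun x : GL chevD4.Idx K =>
    (x : Matrix chevD4.Idx chevD4.Idx K) * (Pm : Matrix chevD4.Idx chevD4.Idx K))
      ((tw hq hK).σ_mem hg)
  change (Pm : Matrix chevD4.Idx chevD4.Idx K) *
      (g : Matrix chevD4.Idx chevD4.Idx K).map (phi hq hK) *
      ((Pm⁻¹ : GL chevD4.Idx K) : Matrix chevD4.Idx chevD4.Idx K) *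
      (Pm : Matrix chevD4.Idx chevD4.Idx K) = (g : Matrix chevD4.Idx chevD4.Idx K) * _ at hs
  rw [mul_assoc, ← Units.val_mul, inv_mul_cancel, Units.val_one, mul_one, hPv] at hs
  have hu' : u < chevD4.nroots ∧ pA u = u ∧ symE 2785620 u = 1 := by
    rcases hu with rfl | rfl <;> decide +kernel
  have h23 : pA 23 = 23 ∧ symE 2785620 23 = 1 := by decide +kernel
  have e1 : symMat chevD4 K pA (symE 2785620) (symP [2, 1, 3, 0]) *ᵥ evec chevD4 K 23 =
      evec chevD4 K 23 := by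
    rw [evec, graphD4a.symMat_e K (show 23 < chevD4.nroots by decide)]
    show ((symE 2785620 23 : ℤ) : K) • bv chevD4 K (chevD4.rank + pA 23) = _
    rw [h23.1, h23.2, Int.cast_one, one_smul]
  have hv := congrArg (fun A : Matrix chevD4.Idx chevD4.Idx K =>
    crd chevD4 (A *ᵥ evec chevD4 K 23) u) hs
  simp only [← Matrix.mulVec_mulVec, e1] at hv
  have e2 : ∀ w : chevD4.Idx → K,
      crd chevD4 (symMat chevD4 K pA (symE 2785620) (symP [2, 1, 3, 0]) *ᵥ w) u = crd chevD4 w u := by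
    intro w
    rw [crd_mulVec hu'.1, crd, dif_pos hu'.1, Finset.sum_eq_single (Sum.inr ⟨u, hu'.1⟩)]
    · have e := crd_evec (D := chevD4) (F := K) hu'.1 u
      rw [crd, dif_pos hu'.1, evec, if_pos rfl] at e
      simp [symMat, hu'.2.1, hu'.2.2, e]
    · rintro (j | s) - hne
      · have hj : (symP [2, 1, 3, 0] (j : ℕ)) < chevD4.rank := graphD4a.q_lt j j.isLt
        have e : (bv chevD4 K (symP [2, 1, 3, 0] (j : ℕ))) (Sum.inr ⟨u, hu'.1⟩) = 0 := by
          rw [show symP [2, 1, 3, 0] (j : ℕ) = ((⟨_, hj⟩ : Fin chevD4.rank) : ℕ) from rfl, bv_inl]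
          simp
        simp [symMat, e]
      · have hps : pA (s : ℕ) ≠ u := fun he => hne (congrArg Sum.inr (Fin.ext
          (graphD4a.p_inj s s.isLt u hu'.1 (he.trans hu'.2.1.symm))))
        have e : (bv chevD4 K (chevD4.rank + pA (s : ℕ))) (Sum.inr ⟨u, hu'.1⟩) = 0 := by
          rw [show pA (s : ℕ) = ((⟨_, graphD4a.p_lt s s.isLt⟩ : Fin chevD4.nroots) : ℕ) from rfl,
            bv_inr]
          simp [Pi.single_apply, Fin.ext_iff, Ne.symm hps]
        simp [symMat, e]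
    · intro h; exact absurd (Finset.mem_univ _) h
  rw [e2, crd_mulVec_evec hu'.1 (by decide), Matrix.map_apply, phi_apply] at hv
  rw [crd_mulVec_evec hu'.1 (by decide)] at hv ⊢
  exact hv

omit [Fintype K] hq hK in
theorem row_two {r u w : ℕ} (hr : r < chevD4.nroots) (hu : u < chevD4.nroots) (hw : w < chevD4.nroots)
    (huw : u ≠ w)
    (e1 : ((colTerms chevD4 r (chevD4.rank + u)).filter fun z => z.1 == chevD4.rank + u) =
      [(chevD4.rank + u, 1, 0)])
    (e2 : ((colTerms chevD4 r (chevD4.rank + w)).filter fun z => z.1 == chevD4.rank + u) =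
      [(chevD4.rank + u, -1, 1)])
    (e3 : ∀ c < chevD4.rank + chevD4.nroots, c ≠ chevD4.rank + u → c ≠ chevD4.rank + w →
      ((colTerms chevD4 r c).filter fun z => z.1 == chevD4.rank + u) = [])
    (t : K) (v : chevD4.Idx → K) :
    crd chevD4 ((Sys.xG S K r t : Matrix chevD4.Idx chevD4.Idx K) *ᵥ v) u =
      crd chevD4 v u + -t * crd chevD4 v w := by
  rw [crd_mulVec hu, crd, dif_pos hu, crd, dif_pos hw]
  have hrow : ∀ col, (Sys.xG S K r t : Matrix chevD4.Idx chevD4.Idx K) (Sum.inr ⟨u, hu⟩) col =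
      crd chevD4 (chevD4.x K r t *ᵥ Pi.single col 1) u := by
    intro col
    rw [Matrix.mulVec_single_one, crd, dif_pos hu]
    rfl
  simp only [hrow]
  rw [Finset.sum_eq_add (Sum.inr ⟨u, hu⟩) (Sum.inr ⟨w, hw⟩)]
  · rw [← bv_inr, ← bv_inr, crd_x_bv (Sys.wf S) hr (by show chevD4.rank + u < _; omega) hu,
      crd_x_bv (Sys.wf S) hr (by show chevD4.rank + w < _; omega) hu, e1, e2]
    simp
  · exact fun h => huw (congrArg Fin.val (Sum.inr.inj h))
  · rintro (j | c) - ⟨hne0, hne1⟩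
    · rw [← bv_inl, crd_x_bv (Sys.wf S) hr (by omega) hu, e3 j (by omega) (by omega) (by omega)]
      simp
    · rw [← bv_inr, crd_x_bv (Sys.wf S) hr (by omega) hu,
        e3 (chevD4.rank + c) (by omega)
          (fun e => hne0 (congrArg Sum.inr (Fin.ext (Nat.add_left_cancel e))))
          (fun e => hne1 (congrArg Sum.inr (Fin.ext (Nat.add_left_cancel e))))]
      simp
  all_goals exact fun h => absurd (Finset.mem_univ _) h

theorem word_top (L : List (Fin 2)) :
    ((tw hq hK).wW L ⟨23, by decide⟩ : ℕ) ∈ [0, 1, 9, 14, 22, 23] := by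
  show (Sys.wperm S (L.flatMap blkF) ⟨23, by decide⟩ : ℕ) ∈ _
  rw [wperm_flat]
  induction L with
  | nil => simp [wdN, wL]
  | cons i L ih =>
    rw [show wL chevD4 (wdN (i :: L)) 23 = wL chevD4 (blkN i) (wL chevD4 (wdN L) 23) by
      simp [wdN, wL, List.foldr_append]]
    exact (by decide +kernel : ∀ i : Fin 2, ∀ s ∈ ([0, 1, 9, 14, 22, 23] : List ℕ),
      wL chevD4 (blkN i) s ∈ ([0, 1, 9, 14, 22, 23] : List ℕ)) i _ ih

theorem borel_top {b : GL chevD4.Idx K} (hb : b ∈ (tw hq hK).B1) {r : ℕ}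
    (hr : r = 22 ∨ r = 23) :
    ∃ v ∈ UG K q, ∃ d ≠ 0, d ^ q = d ∧
      b * Sys.xG S K r 1 * b⁻¹ = v * Sys.xG S K r d * v⁻¹ ∧
      (b : Matrix chevD4.Idx chevD4.Idx K) *ᵥ evec chevD4 K r =
        d • ((v : Matrix chevD4.Idx chevD4.Idx K) *ᵥ evec chevD4 K r) := by
  obtain ⟨v, hv, t, ht, rfl⟩ := (tw hq hK).mem_B1.mp hb
  have hr' : r < chevD4.nroots := by rcases hr with rfl | rfl <;> decide
  have ht' : t ∈ TT K q := ht
  obtain ⟨c, -, rfl⟩ := ht'
  refine ⟨v, hv, (torusVal chevD4 c r : K), Units.ne_zero _, ?_, ?_, ?_⟩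
  · refine param_fixed hq hK (r := r) (by omega) ?_
    have hG : tor chevD4 K c ∈ G1 := (tw hq hK).T_mem ht
    have hx := x_mem hq hK (r := r) (by omega) (one_pow q)
    have := mul_mem (mul_mem hG hx) (inv_mem hG)
    rwa [Sys.tor_conj S K c hr', mul_one] at this
  · rw [show v * tor chevD4 K c * Sys.xG S K r 1 * (v * tor chevD4 K c)⁻¹ =
      v * (tor chevD4 K c * Sys.xG S K r 1 * (tor chevD4 K c)⁻¹) * v⁻¹ by group,
      Sys.tor_conj S K c hr', mul_one]
  · rw [Units.val_mul, ← Matrix.mulVec_mulVec, Sys.tor_evec S K c hr', Matrix.mulVec_smul]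

/-- The conjugate of the top root element, according to the Bruhat decomposition. -/
theorem top_conj {g : GL chevD4.Idx K} (hg : g ∈ G1) :
    ∃ b ∈ (tw hq hK).B1, ∃ L, ∃ b' ∈ (tw hq hK).B1,
      g = b * ((tw hq hK).nW L : GL chevD4.Idx K) * b' ∧
      ∃ v ∈ UG K q, ∃ c ≠ 0, g * Sys.xG S K 23 1 * g⁻¹ =
          v * Sys.xG S K ((tw hq hK).wW L ⟨23, by decide⟩) c * v⁻¹ ∧
        crd chevD4 ((g : Matrix chevD4.Idx chevD4.Idx K) *ᵥ evec chevD4 K 23) 0 =
          if 0 = ((tw hq hK).wW L ⟨23, by decide⟩ : ℕ) then c else 0 := by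
  obtain ⟨b, hb, L, b', hb', rfl⟩ := (tw hq hK).cover hg
  obtain ⟨v', hv', d, hd, -, e', ev'⟩ := borel_top hq hK hb' (Or.inr rfl)
  rw [conj23 hv'] at e'
  rw [top_vec hv'.1] at ev'
  obtain ⟨a, ha, hconj, hvec⟩ :=
    Sys.monomial_act S K ((tw hq hK).nW L) (⟨23, by decide⟩ : Fin chevD4.nroots)
  rw [(tw hq hK).perm_nW] at hconj hvec
  set k : Fin chevD4.nroots := (tw hq hK).wW L ⟨23, by decide⟩
  obtain ⟨v, hv, t, ht, rfl⟩ := (tw hq hK).mem_B1.mp hb
  have ht' : t ∈ TT K q := ht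
  obtain ⟨c, -, rfl⟩ := ht'
  set n := ((tw hq hK).nW L : GL chevD4.Idx K)
  refine ⟨_, hb, L, b', hb', rfl, v, hv, (torusVal chevD4 c k : K) * (a * d),
    mul_ne_zero (Units.ne_zero _) (mul_ne_zero ha hd), ?_, ?_⟩
  · rw [show v * tor chevD4 K c * n * b' * Sys.xG S K 23 1 * (v * tor chevD4 K c * n * b')⁻¹ =
      v * (tor chevD4 K c * (n * (b' * Sys.xG S K 23 1 * b'⁻¹) * n⁻¹) * (tor chevD4 K c)⁻¹) * v⁻¹
        by group, e', hconj, Sys.tor_conj S K c k.isLt]
  · simp only [Units.val_mul, ← Matrix.mulVec_mulVec]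
    rw [ev']
    simp only [Matrix.mulVec_smul, hvec]
    rw [Sys.tor_evec S K c k.isLt]
    simp only [Matrix.mulVec_smul, crd_smul]
    rw [Sys.pos_unipotent_row_zero S K hv.1 (by decide), crd_evec (by decide)]
    split_ifs <;> ring

omit [Fintype K] hq hK in
theorem comm_others {i : ℕ} (hi : i < chevD4.rank) {v x : GL chevD4.Idx K}
    (hv : v ∈ chevD4.posUnipotent K) (hx : x ∈ chevD4.posUnipotent K) :
    v * x * v⁻¹ * x⁻¹ ∈ uSub chevD4 K (Sys.others S i) := by
  set N := uSub chevD4 K (Sys.others S i)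
  have hN : chevD4.posUnipotent K ≤ Subgroup.normalizer (N : Set (GL chevD4.Idx K)) := by
    rw [← Sys.others_sup S K hi, Sys.rootSubgroup_eq S K]
    exact sup_le Subgroup.le_normalizer (Sys.xRange_le_normalizer_others S K hi (Or.inl rfl))
  obtain ⟨u, hu, t, rfl⟩ := Sys.posUnipotent_split S K hi hv
  obtain ⟨u', hu', l, rfl⟩ := Sys.posUnipotent_split S K hi hx
  set X := fun t : K => Sys.xG S K (chevD4.simple i) t
  have hX : ∀ t, X t ∈ chevD4.posUnipotent K := fun t => by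
    rw [← uSub_univ]
    exact Sys.xG_mem_uSub S K (Set.mem_univ _) (Sys.simple_pos S i hi) ((Sys.wf S).simple_lt i hi) t
  have hc : ∀ g ∈ chevD4.posUnipotent K, ∀ y ∈ N, g * y * g⁻¹ ∈ N := fun g hg y hy =>
    (Subgroup.mem_normalizer_iff.mp (hN hg) y).mp hy
  rw [show u * X t * (u' * X l) * (u * X t)⁻¹ * (u' * X l)⁻¹ =
      u * (X t * u' * (X t)⁻¹) * (X t * X l * (X t)⁻¹ * u⁻¹ * (X l)⁻¹) * u'⁻¹ by group,
    show X t * X l * (X t)⁻¹ = X l by
      simp only [X, Sys.xG_inv, Sys.xG_add]; congr 1; ring]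
  exact mul_mem (mul_mem (mul_mem hu (hc _ (hX t) _ hu')) (hc _ (hX l) _ (inv_mem hu))) (inv_mem hu')

end

section

variable [Fintype K] {q : ℕ} {hq : IsPrimePow q} {hK : Fintype.card K = q ^ 3}
  {H : Subgroup (GL chevD4.Idx K)} (O : Over hq hK H)
  (hP : ∀ t, P q t ∈ H → t ^ q = t)

local notation "G1" => chevD4.genSubgroup K (d4Words K q)
local notation "m1" => nL S K [1]
local notation "m0" => nL S K [0, 2, 3]

include O hP

theorem borel_fixed {g : GL chevD4.Idx K} (hg : g ∈ H) (hgB : g ∈ (tw hq hK).B1) :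
    fM hq hK g = g := by
  obtain ⟨v, hv, t, ht, rfl⟩ := (tw hq hK).mem_B1.mp hgB
  have htG : t ∈ G1 := (tw hq hK).T_mem ht
  have htT : t ∈ TT K q := ht
  obtain ⟨c, -, rfl⟩ := htT
  have htw := fun r (hr : r < chevD4.nroots) =>
    twist_torusVal S K graphD4a (phi hq hK) ((tw hq hK).σ_mem htG) hr
  have h13 : (torusVal chevD4 c 13 : K) = (torusVal chevD4 c 18 : K) ^ q := by
    have := htw 18 (by decide)
    rwa [phi_apply, show symP [0, 1, 6, 2, 7, 10, 3, 8, 4, 9, 11, 5, 18, 12, 14, 19, 15, 20, 13, 16, 21, 17, 22, 23] 18 = 13 by decide +kernel] at this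
  have h12 : (torusVal chevD4 c 12 : K) = (torusVal chevD4 c 13 : K) ^ q := by
    have := htw 13 (by decide)
    rwa [phi_apply, show symP [0, 1, 6, 2, 7, 10, 3, 8, 4, 9, 11, 5, 18, 12, 14, 19, 15, 20, 13, 16, 21, 17, 22, 23] 13 = 12 by decide +kernel] at this
  have h14 : (torusVal chevD4 c 14 : K) ^ q = torusVal chevD4 c 14 := by
    have := htw 14 (by decide)
    rw [phi_apply, show symP [0, 1, 6, 2, 7, 10, 3, 8, 4, 9, 11, 5, 18, 12, 14, 19, 15, 20, 13, 16, 21, 17, 22, 23] 14 = 14 by decide +kernel] at this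
    exact this.symm
  set l := (torusVal chevD4 c 18 : K) with hl
  have hP1 : tor chevD4 K c * P q 1 * (tor chevD4 K c)⁻¹ = P q l := by
    rw [P, conj_prod3, Sys.tor_conj S K c (by decide), Sys.tor_conj S K c (by decide),
      Sys.tor_conj S K c (by decide), P, h12, h13, ← pow_mul, ← sq]
    simp [hl]
  have hy : v * P q l * v⁻¹ ∈ H := by
    rw [← hP1, show v * (tor chevD4 K c * P q 1 * (tor chevD4 K c)⁻¹) * v⁻¹ =
      v * tor chevD4 K c * P q 1 * (v * tor chevD4 K c)⁻¹ by group]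
    exact mul_mem (mul_mem hg (O.P_fix (one_pow q))) (inv_mem hg)
  have hyf := uni_fixed O hP hy (mul_mem (mul_mem hv.1 (P_pos q l)) (inv_mem hv.1))
  set N := uSub chevD4 K (Sys.others S 0)
  have hd : v * P q l * v⁻¹ * (P q l)⁻¹ ∈ N := comm_others (by decide) hv.1 (P_pos q l)
  have hd' : v * P q l * v⁻¹ * (P q (l ^ q))⁻¹ ∈ N := by
    have := gmap_mem_uSub S (phi hq hK) hd
    rwa [show gmap chevD4 (phi hq hK) = fM hq hK from rfl, map_mul, map_inv (fM hq hK) (P q l),
      hyf, fM_P] at this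
  have h2 := mul_mem (inv_mem hd) hd'
  rw [mul_inv_rev, inv_inv, mul_assoc, inv_mul_cancel_left, P_inv hq hK, P_comm hq hK] at h2
  have hlq : l ^ q = l := by
    set dl := l + -l ^ q
    have hrest : ∀ r, r = 13 ∨ r = 12 → ∀ t, Sys.xG S K r t ∈ N := fun r hr t =>
      Sys.xG_mem_uSub S K (P := Sys.others S 0)
        (show r ≠ chevD4.simple 0 by rw [simple0]; omega) (by rcases hr with rfl | rfl <;> decide)
        (by rcases hr with rfl | rfl <;> decide) t
    rw [P, Subgroup.mul_mem_cancel_right _ (hrest 12 (Or.inr rfl) _),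
      Subgroup.mul_mem_cancel_right _ (hrest 13 (Or.inl rfl) _)] at h2
    have h3 := FoldData.eq_zero_of_mem_uSub (SE := S) (Sys.closed_others S (i := 0) (by decide))
      (show 18 < chevD4.nroots by decide) (by decide)
      (fun hm => hm (by rw [simple0])) h2
    exact (add_neg_eq_zero.1 h3).symm
  have htf : fM hq hK (tor chevD4 K c) = tor chevD4 K c := by
    rw [fM, gmap_tor S, ← mul_inv_eq_one, ← map_inv, ← map_mul]
    refine Sys.tor_eq_one_of_simple S K _ fun i hi => ?_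
    have e2 : (torusVal chevD4 (fun j => Units.map (phi hq hK : K →* K) (c j)) (chevD4.simple i) : K) =
        (torusVal chevD4 c (chevD4.simple i) : K) ^ q := by
      rw [← phi_apply hq hK, torusVal_mul_cast, torusVal_mul_cast, map_prod]
      exact Finset.prod_congr rfl fun j _ => by rw [map_zpow₀]; rfl
    have e3 : (torusVal chevD4 c (chevD4.simple i) : K) ^ q = torusVal chevD4 c (chevD4.simple i) := by
      replace hi : i < 4 := hi
      interval_cases i
      · rw [simple0]; exact hlq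
      · rw [simple1]; exact h14
      · rw [simple2, h13, hlq, hlq]
      · rw [simple3, h12, h13, hlq, hlq, hlq]
    rw [torusVal_mul, show torusVal chevD4 c⁻¹ (chevD4.simple i) = (torusVal chevD4 c (chevD4.simple i))⁻¹ by
      simp [torusVal, Finset.prod_inv_distrib], Units.val_mul, Units.val_inv_eq_inv_val,
      mul_inv_eq_one₀ (Units.ne_zero _)]
    exact e2.trans e3
  have htH := O.fix _ htG htf
  have hvH : v ∈ H := by
    have := mul_mem hg (inv_mem htH)
    rwa [mul_inv_cancel_right] at this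
  rw [map_mul, htf, uni_fixed O hP hvH hv.1]

theorem stab_fixed {g : GL chevD4.Idx K} (hg : g ∈ H) {d : K}
    (h : g * Sys.xG S K 23 1 * g⁻¹ = Sys.xG S K 23 d) : fM hq hK g = g := by
  obtain ⟨b, hb, L, b', hb', hgeq, v, hv, c, hc, e, -⟩ := top_conj hq hK (O.le hg)
  set k := ((tw hq hK).wW L ⟨23, by decide⟩ : ℕ) with hk
  have hx : Sys.xG S K k c = Sys.xG S K 23 d := by
    refine mul_left_cancel (a := v) (mul_right_cancel (b := v⁻¹) ?_)
    rw [← e, h, conj23 hv]
  have hmem := word_top hq hK L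
  simp only [← hk, List.mem_cons, List.not_mem_nil, or_false] at hmem
  have hk23 : k = 23 := by
    rcases hmem with h0 | h0 | h0 | h0 | h0 | h0
    · exfalso
      rw [h0] at hx
      have hneg : Sys.xG S K 0 c ∈ chevD4.borelSubgroup K := by
        rw [hx]; exact Sys.xG_mem_borel S K (by decide) (by decide) d
      exact Sys.xG_neg_not_mem_borel S K (by decide) hc hneg
    · exact absurd (eq_zero_of_x (Or.inl h0) hx) hc
    · exact absurd (eq_zero_of_x (Or.inr (Or.inl h0)) hx) hc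
    · exact absurd (eq_zero_of_x (Or.inr (Or.inr (Or.inl h0))) hx) hc
    · exact absurd (eq_zero_of_x (Or.inr (Or.inr (Or.inr h0))) hx) hc
    · exact h0
  have hall : ∀ L : List (Fin 2), ∃ j : Fin weylWords.length,
      (tw hq hK).wW L = (tw hq hK).wW (weylWords.get j) := by
    intro L
    induction L with
    | nil => exact ⟨⟨0, by decide⟩, rfl⟩
    | cons i L ih =>
      obtain ⟨j, hj⟩ := ih
      obtain ⟨j', hj'⟩ := weyl_closed hq hK i j
      exact ⟨j', by rw [Tw.wW_cons, hj, hj']⟩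
  obtain ⟨j, hj⟩ := hall L
  have hL' : weylWords.get j = [] ∨ weylWords.get j = [0] := by
    refine (by decide +kernel : ∀ j : Fin weylWords.length,
      wL chevD4 (wdN (weylWords.get j)) 23 = 23 → weylWords.get j = [] ∨ weylWords.get j = [0]) j ?_
    have := (congrArg (fun σ : Equiv.Perm (Fin chevD4.nroots) => (σ ⟨23, by decide⟩ : ℕ)) hj).symm
    simp only [← hk, hk23] at this
    change (Sys.wperm S ((weylWords.get j).flatMap blkF) ⟨23, by decide⟩ : ℕ) = 23 at this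
    rwa [wperm_flat] at this
  rcases hL' with h0 | h0 <;> rw [h0] at hj
  · refine borel_fixed O hP hg ?_
    have hT := (tw hq hK).nW_mem_T (L := L) (by rw [hj, Tw.wW_nil])
    rw [hgeq]
    exact mul_mem (mul_mem hb ((tw hq hK).T_le_B1 hT)) hb'
  have hn0 : ((tw hq hK).nW [0] : GL chevD4.Idx K) = m0 := by
    rw [Tw.nW_single]; exact n0_eq' hq hK
  have hsq : m0 * m0 ∈ (tw hq hK).B1 := by
    refine (tw hq hK).T_le_B1 ?_
    have := (tw hq hK).n_sq 0
    rwa [show (Sys.wN S K ((tw hq hK).blk (0 : Fin 2)) : GL chevD4.Idx K) = m0 from n0_eq' hq hK] at this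
  have hT : m0 * ((tw hq hK).nW L : GL chevD4.Idx K) ∈ (tw hq hK).T := by
    rw [← hn0, ← Subgroup.coe_mul, ← Tw.nW_append]
    refine (tw hq hK).nW_mem_T ?_
    rw [Tw.wW_append, hj, Tw.wW_single, Tw.wperm_blk_sq]
  obtain ⟨u, hu, t, ht, rfl⟩ := (tw hq hK).mem_B1.mp hb
  obtain ⟨s, a, ha', rfl, ha⟩ := split0 hq hK hu
  have ht0 : m0⁻¹ * t * m0 ∈ (tw hq hK).B1 := by
    refine (tw hq hK).T_le_B1 ?_
    have := (tw hq hK).T_conj' 0 t ht
    rwa [show (Sys.wN S K ((tw hq hK).blk (0 : Fin 2)) : GL chevD4.Idx K) = m0 from n0_eq' hq hK] at this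
  set b4 := (m0 * m0)⁻¹ * (m0 * a * m0⁻¹) * (m0 * m0) * (m0⁻¹ * t * m0) * (m0 * m0)⁻¹ *
    (m0 * ((tw hq hK).nW L : GL chevD4.Idx K)) * b' with hb4def
  have hb4 : b4 ∈ (tw hq hK).B1 :=
    mul_mem (mul_mem (mul_mem (mul_mem (mul_mem (mul_mem (inv_mem hsq) ((tw hq hK).U_le_B1 ha)) hsq)
      ht0) (inv_mem hsq)) ((tw hq hK).T_le_B1 hT)) hb'
  have hg4 : g = P q s * m0 * b4 := by rw [hgeq, hb4def]; group
  obtain ⟨v4, hv4, l, hl0, hl, e4, -⟩ := borel_top hq hK hb4 (Or.inl rfl)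
  obtain ⟨z, hz, ez⟩ := conj22 hq hK hv4 hl
  have hy : g * Sys.xG S K 22 1 * g⁻¹ ∈ H :=
    mul_mem (mul_mem hg (O.x (Or.inr (Or.inr (Or.inl rfl))) (one_pow q))) (inv_mem hg)
  rw [hg4, show P q s * m0 * b4 * Sys.xG S K 22 1 * (P q s * m0 * b4)⁻¹ =
      P q s * (m0 * (b4 * Sys.xG S K 22 1 * b4⁻¹) * m0⁻¹) * (P q s)⁻¹ by group, e4, ez,
    show ∀ x y : GL chevD4.Idx K, P q s * (m0 * (x * y) * m0⁻¹) * (P q s)⁻¹ =
      P q s * (m0 * x * m0⁻¹) * (P q s)⁻¹ * (P q s * (m0 * y * m0⁻¹) * (P q s)⁻¹) from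
        fun x y => by group,
    nL_conj (by decide) (by decide), nL_conj (by decide) (by decide),
    show wL chevD4 [0, 2, 3] 22 = 14 by decide +kernel,
    show wL chevD4 [0, 2, 3] 23 = 23 by decide +kernel,
    show sgnL [0, 2, 3] 22 = 1 by decide +kernel, show sgnL [0, 2, 3] 23 = 1 by decide +kernel,
    Int.cast_one, one_mul, one_mul, conj23 (q := q) ⟨P_pos q s, P_mem s⟩,
    Subgroup.mul_mem_cancel_right _ (O.x (Or.inr (Or.inr (Or.inr rfl))) hz)] at hy
  have hs := param_of_conj14 O hP hl hl0 hy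
  have hb4H : b4 ∈ H := by
    have : b4 = (P q s * m0)⁻¹ * g := by rw [hg4]; group
    rw [this]
    exact mul_mem (inv_mem (mul_mem (O.P_fix hs) O.n0)) hg
  rw [hg4, map_mul, map_mul, fM_P, hs, fM_nL, borel_fixed O hP hb4H hb4]

theorem all_fixed {g : GL chevD4.Idx K} (hg : g ∈ H) : fM hq hK g = g := by
  set E0 := fun g : GL chevD4.Idx K =>
    crd chevD4 ((g : Matrix chevD4.Idx chevD4.Idx K) *ᵥ evec chevD4 K 23) 0
  set E1 := fun g : GL chevD4.Idx K =>
    crd chevD4 ((g : Matrix chevD4.Idx chevD4.Idx K) *ᵥ evec chevD4 K 23) 1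
  obtain ⟨m, hm, hmf, hm0⟩ : ∃ m ∈ H, fM hq hK m = m ∧ E0 (m * g) = 0 := by
    have hrow : ∀ t h, E0 (Sys.xG S K 9 t * h) = E0 h + -t * E1 h := fun t h => by
      simp only [E0, E1, Units.val_mul, ← Matrix.mulVec_mulVec]
      exact row_two (by decide) (by decide) (by decide) (by decide) (by decide +kernel)
        (by decide +kernel) (by decide +kernel) t _
    have hrow' : ∀ t h, E1 (Sys.xG S K 14 t * h) = E1 h + -t * E0 h := fun t h => by
      simp only [E0, E1, Units.val_mul, ← Matrix.mulVec_mulVec]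
      exact row_two (by decide) (by decide) (by decide) (by decide) (by decide +kernel)
        (by decide +kernel) (by decide +kernel) t _
    have key : ∀ g ∈ H, E1 g ≠ 0 → ∃ m ∈ H, fM hq hK m = m ∧ E0 (m * g) = 0 := by
      intro g hg h1
      have hf : (E0 g / E1 g) ^ q = E0 g / E1 g := by
        rw [div_pow]
        exact congrArg₂ _ (entry_fixed hq hK (O.le hg) (Or.inl rfl))
          (entry_fixed hq hK (O.le hg) (Or.inr rfl))
      refine ⟨_, O.x (Or.inl rfl) hf, fM_x hq hK hf, ?_⟩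
      rw [hrow]; field_simp; ring
    by_cases h0 : E0 g = 0
    · exact ⟨1, one_mem _, map_one _, by rw [one_mul, h0]⟩
    by_cases h1 : E1 g = 0
    · have h14 := O.x (Or.inr (Or.inl rfl)) (one_pow q)
      obtain ⟨m, hm, hmf, hm0⟩ := key _ (mul_mem h14 hg) (by rw [hrow', h1]; simpa using h0)
      refine ⟨m * Sys.xG S K 14 1, mul_mem hm h14, by rw [map_mul, hmf, fM_x hq hK (one_pow q)], ?_⟩
      rw [mul_assoc]; exact hm0
    · exact key g hg h1
  have hg' : m * g ∈ H := mul_mem hm hg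
  obtain ⟨b, hb, L, b', hb', -, v, hv, c, hc, e, he⟩ := top_conj hq hK (O.le hg')
  set k := ((tw hq hK).wW L ⟨23, by decide⟩ : ℕ) with hk
  have hk0 : k ≠ 0 := fun h0 => hc (by rw [if_pos h0.symm] at he; rw [← he]; exact hm0)
  have hmem := word_top hq hK L
  simp only [← hk, List.mem_cons, List.not_mem_nil, or_false] at hmem
  have hR : v * Sys.xG S K k c * v⁻¹ ∈ H := by
    rw [← e]; exact mul_mem (mul_mem hg' (O.x (Or.inr (Or.inr (Or.inr rfl))) (one_pow q))) (inv_mem hg')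
  have hcq : c ^ q = c := by
    refine param_fixed hq hK (r := k) (by omega) ?_
    have hv2 : v ∈ G1 := hv.2
    have := mul_mem (mul_mem (inv_mem hv2) (O.le hR)) hv2
    rwa [show v⁻¹ * (v * Sys.xG S K k c * v⁻¹) * v = Sys.xG S K k c by group] at this
  have hGood : Good hq hK H (v * Sys.xG S K k c * v⁻¹) := by
    rcases hmem with h | h | h | h | h | h
    · exact absurd h hk0
    · rw [h] at hR ⊢; exact good1 O hP hv hcq hc hR
    · rw [h] at hR ⊢; exact good9 O hP hv hcq hc hR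
    · rw [h] at hR ⊢; exact good14 O hP hv hcq hc hR
    · rw [h]; exact good22 O hP hv c
    · rw [h]; exact ⟨1, one_mem _, map_one _, c, by rw [one_mul, inv_one, mul_one, conj23 hv]⟩
  obtain ⟨n, hn, hnf, d, hd⟩ := hGood
  have hfix := stab_fixed O hP (g := n * (m * g)) (mul_mem hn hg') (d := d) (by
    rw [← hd, ← e]; group)
  rw [map_mul, map_mul, hnf, hmf] at hfix
  exact mul_left_cancel (mul_left_cancel hfix)

end

/-- The subfield points form a maximal subgroup. -/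
theorem maximal [Fintype K] {q : ℕ} (hq : IsPrimePow q) (hK : Fintype.card K = q ^ 3)
    (M : Subgroup (GL chevD4.Idx K))
    (hM : ∀ g, g ∈ M ↔ g ∈ chevD4.genSubgroup K (d4Words K q) ∧
      ∀ i j : chevD4.Idx, ((g : Matrix chevD4.Idx chevD4.Idx K) i j) ^ q =
        (g : Matrix chevD4.Idx chevD4.Idx K) i j) :
    M ≠ chevD4.genSubgroup K (d4Words K q) ∧ ∀ H : Subgroup (GL chevD4.Idx K), M ≤ H →
      H ≤ chevD4.genSubgroup K (d4Words K q) → H = M ∨ H = chevD4.genSubgroup K (d4Words K q) := by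
  have hmem : ∀ g, g ∈ M ↔ g ∈ chevD4.genSubgroup K (d4Words K q) ∧ fM hq hK g = g := by
    intro g
    rw [hM g]
    refine and_congr_right fun _ => ⟨fun h => Units.ext (Matrix.ext fun i j => ?_),
      fun h i j => ?_⟩
    · rw [fM, gmap_val, phi_apply]; exact h i j
    · rw [← phi_apply hq hK, ← gmap_val]; exact congrArg (fun x : GL chevD4.Idx K =>
        (x : Matrix chevD4.Idx chevD4.Idx K) i j) h
  refine ⟨fun e => ?_, fun H hMH hHG => ?_⟩
  · obtain ⟨t, ht⟩ := exists_not_fixed hq hK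
    have h := ((hmem (P q t)).1 (e.symm ▸ P_mem t)).2
    rw [fM_P] at h
    exact ht (P_inj hq hK h)
  · have O : Over hq hK H := ⟨fun g hg hf => hMH ((hmem g).2 ⟨hg, hf⟩), hHG⟩
    by_cases hP : ∀ t, P q t ∈ H → t ^ q = t
    · exact Or.inl (le_antisymm (fun g hg => (hmem g).2 ⟨hHG hg, all_fixed O hP hg⟩) hMH)
    · push Not at hP
      obtain ⟨t, ht, hne⟩ := hP
      exact Or.inr (le_antisymm hHG (O.eq_of_short ht hne))

end CfsgLib.TwistedLie.D4.Subfield65
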