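import Cfsg.Agent.TwistedLie.D4EvenMul

/-!
Type `D₄` in characteristic two: coordinates of the positive unipotent subgroup, and conjugations of
twisted coordinates.
-/

set_option autoImplicit false

namespace CfsgLib.TwistedLie.D4E

open Cfsg.Lie CfsgLib.Chevalley

variable (F : Type*) [Field F]

theorem half24 : chevD4.nroots / 2 = 12 := by decide +kernel

theorem xd_mem_pos {r : ℕ} (h1 : 12 ≤ r) (h2 : r < 24) (t : F) :
    xd F r t ∈ chevD4.posUnipotent F := by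
  rw [← uSub_univ]
  exact sysD4.xG_mem_uSub F (Set.mem_univ _) (by rw [half24]; exact h1)
    (lt_of_lt_of_le h2 (by decide +kernel)) t

theorem uD_mem_pos (b a1 a2 a3 c1 c2 c3 d1 d2 d3 e f : F) :
    uD F b a1 a2 a3 c1 c2 c3 d1 d2 d3 e f ∈ chevD4.posUnipotent F := by
  unfold uD
  repeat' refine mul_mem (xd_mem_pos F (by norm_num) (by norm_num) _) ?_
  exact xd_mem_pos F (by norm_num) (by norm_num) _

theorem uD_zero : uD F 0 0 0 0 0 0 0 0 0 0 0 0 = 1 := by simp [uD, xd, sysD4.xG_zero]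

theorem x14_eq (t : F) : xd F 14 t = uD F t 0 0 0 0 0 0 0 0 0 0 0 := by simp [uD, xd, sysD4.xG_zero]
theorem x18_eq (t : F) : xd F 18 t = uD F 0 t 0 0 0 0 0 0 0 0 0 0 := by simp [uD, xd, sysD4.xG_zero]
theorem x13_eq (t : F) : xd F 13 t = uD F 0 0 t 0 0 0 0 0 0 0 0 0 := by simp [uD, xd, sysD4.xG_zero]
theorem x12_eq (t : F) : xd F 12 t = uD F 0 0 0 t 0 0 0 0 0 0 0 0 := by simp [uD, xd, sysD4.xG_zero]
theorem x19_eq (t : F) : xd F 19 t = uD F 0 0 0 0 t 0 0 0 0 0 0 0 := by simp [uD, xd, sysD4.xG_zero]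
theorem x16_eq (t : F) : xd F 16 t = uD F 0 0 0 0 0 t 0 0 0 0 0 0 := by simp [uD, xd, sysD4.xG_zero]
theorem x15_eq (t : F) : xd F 15 t = uD F 0 0 0 0 0 0 t 0 0 0 0 0 := by simp [uD, xd, sysD4.xG_zero]
theorem x21_eq (t : F) : xd F 21 t = uD F 0 0 0 0 0 0 0 t 0 0 0 0 := by simp [uD, xd, sysD4.xG_zero]
theorem x20_eq (t : F) : xd F 20 t = uD F 0 0 0 0 0 0 0 0 t 0 0 0 := by simp [uD, xd, sysD4.xG_zero]
theorem x17_eq (t : F) : xd F 17 t = uD F 0 0 0 0 0 0 0 0 0 t 0 0 := by simp [uD, xd, sysD4.xG_zero]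
theorem x22_eq (t : F) : xd F 22 t = uD F 0 0 0 0 0 0 0 0 0 0 t 0 := by simp [uD, xd, sysD4.xG_zero]
theorem x23_eq (t : F) : xd F 23 t = uD F 0 0 0 0 0 0 0 0 0 0 0 t := by simp [uD, xd, sysD4.xG_zero]

/-- The coordinate map. -/
noncomputable def uVec (v : Fin 12 → F) : ↥(chevD4.posUnipotent F) :=
  ⟨uD F (v 0) (v 1) (v 2) (v 3) (v 4) (v 5) (v 6) (v 7) (v 8) (v 9) (v 10) (v 11),
    uD_mem_pos F _ _ _ _ _ _ _ _ _ _ _ _⟩

variable [CharP F 2] [Fintype F]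

theorem uVec_bijective : Function.Bijective (uVec F) := by
  classical
  let M : Submonoid (GL chevD4.Idx F) :=
    { carrier := {g | ∃ v, g = (uVec F v : GL chevD4.Idx F)}
      one_mem' := ⟨0, by simp [uVec, uD_zero]⟩
      mul_mem' := by
        rintro _ _ ⟨v, rfl⟩ ⟨w, rfl⟩
        simp only [uVec]
        rw [uD_mul]
        exact ⟨![_, _, _, _, _, _, _, _, _, _, _, _], rfl⟩ }
  let H : Subgroup (GL chevD4.Idx F) :=
    { M with
      inv_mem' := by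
        intro g hg
        have h : g ^ (orderOf g - 1) ∈ M := Submonoid.pow_mem M hg _
        have e : g ^ (orderOf g - 1) = g⁻¹ := by
          refine eq_inv_of_mul_eq_one_left ?_
          rw [← pow_succ, Nat.sub_add_cancel (orderOf_pos g), pow_orderOf_eq_one]
        rwa [e] at h }
  have hle : chevD4.posUnipotent F ≤ H := by
    rw [← uSub_univ]
    refine sysD4.uSub_le F fun r _ h1 h2 t => ?_
    rw [half24] at h1
    replace h2 : r < 24 := h2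
    show xd F r t ∈ H
    interval_cases r
    · exact ⟨![0, 0, 0, t, 0, 0, 0, 0, 0, 0, 0, 0], x12_eq F t⟩
    · exact ⟨![0, 0, t, 0, 0, 0, 0, 0, 0, 0, 0, 0], x13_eq F t⟩
    · exact ⟨![t, 0, 0, 0, 0, 0, 0, 0, 0, 0, 0, 0], x14_eq F t⟩
    · exact ⟨![0, 0, 0, 0, 0, 0, t, 0, 0, 0, 0, 0], x15_eq F t⟩
    · exact ⟨![0, 0, 0, 0, 0, t, 0, 0, 0, 0, 0, 0], x16_eq F t⟩
    · exact ⟨![0, 0, 0, 0, 0, 0, 0, 0, 0, t, 0, 0], x17_eq F t⟩
    · exact ⟨![0, t, 0, 0, 0, 0, 0, 0, 0, 0, 0, 0], x18_eq F t⟩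
    · exact ⟨![0, 0, 0, 0, t, 0, 0, 0, 0, 0, 0, 0], x19_eq F t⟩
    · exact ⟨![0, 0, 0, 0, 0, 0, 0, 0, t, 0, 0, 0], x20_eq F t⟩
    · exact ⟨![0, 0, 0, 0, 0, 0, 0, t, 0, 0, 0, 0], x21_eq F t⟩
    · exact ⟨![0, 0, 0, 0, 0, 0, 0, 0, 0, 0, t, 0], x22_eq F t⟩
    · exact ⟨![0, 0, 0, 0, 0, 0, 0, 0, 0, 0, 0, t], x23_eq F t⟩
  have hs : Function.Surjective (uVec F) := fun g => by
    obtain ⟨v, hv⟩ := hle g.2
    exact ⟨v, Subtype.ext hv.symm⟩
  refine (Nat.bijective_iff_surjective_and_card _).mpr ⟨hs, ?_⟩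
  rw [← uSub_univ, sysD4.natCard_uSub F sysD4.closed_univ, Nat.card_fun, Nat.card_eq_fintype_card,
    Nat.card_fin]
  congr 1

theorem exists_uD {g : GL chevD4.Idx F} (hg : g ∈ chevD4.posUnipotent F) :
    ∃ b a1 a2 a3 c1 c2 c3 d1 d2 d3 e f : F, g = uD F b a1 a2 a3 c1 c2 c3 d1 d2 d3 e f := by
  obtain ⟨v, hv⟩ := (uVec_bijective F).2 ⟨g, hg⟩
  exact ⟨_, _, _, _, _, _, _, _, _, _, _, _, (congrArg Subtype.val hv).symm⟩

theorem uD_inj {b a1 a2 a3 c1 c2 c3 d1 d2 d3 e f B A1 A2 A3 C1 C2 C3 D1 D2 D3 E G : F}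
    (h : uD F b a1 a2 a3 c1 c2 c3 d1 d2 d3 e f = uD F B A1 A2 A3 C1 C2 C3 D1 D2 D3 E G) :
    b = B ∧ a1 = A1 ∧ a2 = A2 ∧ a3 = A3 ∧ c1 = C1 ∧ c2 = C2 ∧ c3 = C3 ∧ d1 = D1 ∧ d2 = D2 ∧
      d3 = D3 ∧ e = E ∧ f = G := by
  have h' : uVec F ![b, a1, a2, a3, c1, c2, c3, d1, d2, d3, e, f] =
      uVec F ![B, A1, A2, A3, C1, C2, C3, D1, D2, D3, E, G] := Subtype.ext h
  have h2 := (uVec_bijective F).1 h'
  exact ⟨congrFun h2 0, congrFun h2 1, congrFun h2 2, congrFun h2 3, congrFun h2 4, congrFun h2 5,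
    congrFun h2 6, congrFun h2 7, congrFun h2 8, congrFun h2 9, congrFun h2 10, congrFun h2 11⟩

omit [Fintype F]

/-- The element with twisted coordinates. -/
noncomputable def uT (φ : F →+* F) (b a c d e f : F) : GL chevD4.Idx F :=
  uD F b a (φ a) (φ (φ a)) c (φ c) (φ (φ c)) d (φ (φ d)) (φ d) e f

/-- The trace over the fixed field. -/
def trQ {R : Type*} [CommRing R] (φ : R →+* R) (x : R) : R := x + φ x + φ (φ x)

/-- The norm over the fixed field. -/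
def nmQ {R : Type*} [CommRing R] (φ : R →+* R) (x : R) : R := x * φ x * φ (φ x)

variable {F}

theorem two_zero : (2 : F) = 0 := CharTwo.two_eq_zero

variable {φ : F →+* F} (h3 : ∀ x, φ (φ (φ x)) = x)
include h3

omit [CharP F 2] in
theorem trQ_fix (x : F) : φ (trQ φ x) = trQ φ x := by
  simp only [trQ, map_add, h3]; ring

omit [CharP F 2] in
theorem nmQ_fix (x : F) : φ (nmQ φ x) = nmQ φ x := by
  simp only [nmQ, map_mul, h3]; ring

omit h3 in
/-- Conjugacy under a subgroup. -/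
def Cj {H : Type*} [Group H] (G : Subgroup H) (u v : H) : Prop := ∃ g ∈ G, g * u * g⁻¹ = v

omit [CharP F 2] h3 in
theorem Cj.trans {H : Type*} [Group H] {G : Subgroup H} {u v w : H} (h1 : Cj G u v) (h2 : Cj G v w) :
    Cj G u w := by
  obtain ⟨g, hg, rfl⟩ := h1
  obtain ⟨k, hk, rfl⟩ := h2
  exact ⟨k * g, mul_mem hk hg, by group⟩

omit [CharP F 2] h3 in
theorem Cj.symm {H : Type*} [Group H] {G : Subgroup H} {u v : H} (h : Cj G u v) : Cj G v u := by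
  obtain ⟨g, hg, rfl⟩ := h
  exact ⟨g⁻¹, inv_mem hg, by group⟩

omit [CharP F 2] h3 in
theorem Cj.of_mul {H : Type*} [Group H] {G : Subgroup H} {g u v : H} (hg : g ∈ G)
    (h : g * u = v * g) : Cj G u v :=
  ⟨g, hg, mul_inv_eq_iff_eq_mul.mpr h⟩

variable {G : Subgroup (GL chevD4.Idx F)}
  (hT : ∀ b a c d e f : F, φ b = b → φ e = e → φ f = f → uT F φ b a c d e f ∈ G)
include hT

theorem step_a_c {a d e f l : F} (hl : φ l = l) :
    Cj G (uT F φ 0 a (l * a) d e f)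
      (uT F φ 0 a 0 (d + l * a * φ a) (e + l * nmQ φ a) (f + l * (e + l * nmQ φ a))) := by
  refine Cj.of_mul (hT l 0 0 0 0 0 hl (map_zero _) (map_zero _)) ?_
  have h2 := two_zero (F := F)
  simp only [uT, uD_mul, nmQ, map_add, map_mul, map_zero, h3, hl]
  congr 1 <;> grind

theorem step_a_d {a d e f γ : F} (hd : d = a * φ γ + φ a * γ) :
    Cj G (uT F φ 0 a 0 d e f)
      (uT F φ 0 a 0 0 (e + trQ φ (a * φ a * φ (φ γ))) (f + trQ φ (a * φ γ * φ (φ γ)))) := by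
  refine Cj.of_mul (hT 0 0 γ 0 0 0 (map_zero _) (map_zero _) (map_zero _)) ?_
  have h2 := two_zero (F := F)
  subst hd
  simp only [uT, uD_mul, trQ, map_add, map_mul, map_zero, h3]
  congr 1 <;> grind

theorem step_a_e {a e f δ : F} (hd : trQ φ (a * φ δ) = e) :
    Cj G (uT F φ 0 a 0 0 e f) (uT F φ 0 a 0 0 0 f) := by
  refine Cj.of_mul (hT 0 0 0 δ 0 0 (map_zero _) (map_zero _) (map_zero _)) ?_
  have h2 := two_zero (F := F)
  subst hd
  simp only [uT, uD_mul, trQ, map_add, map_mul, map_zero, h3]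
  congr 1 <;> grind

theorem step_c_d {c d e f α : F} (hd : d = α * φ c + φ α * c) :
    Cj G (uT F φ 0 0 c d e f)
      (uT F φ 0 0 c 0 (e + trQ φ (α * φ α * φ (φ c))) (f + trQ φ (α * φ c * φ (φ c)))) := by
  refine Cj.of_mul (hT 0 α 0 0 0 0 (map_zero _) (map_zero _) (map_zero _)) ?_
  have h2 := two_zero (F := F)
  subst hd
  simp only [uT, uD_mul, trQ, map_add, map_mul, map_zero, h3]
  congr 1 <;> grind

theorem step_c_f {c f δ : F} (hd : trQ φ (c * φ δ) = f) :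
    Cj G (uT F φ 0 0 c 0 0 f) (uT F φ 0 0 c 0 0 0) := by
  refine Cj.of_mul (hT 0 0 0 δ 0 0 (map_zero _) (map_zero _) (map_zero _)) ?_
  have h2 := two_zero (F := F)
  subst hd
  simp only [uT, uD_mul, trQ, map_add, map_mul, map_zero, h3]
  congr 1 <;> grind

theorem step_d_e {d e f α : F} (hd : trQ φ (α * φ d) = e) :
    Cj G (uT F φ 0 0 0 d e f) (uT F φ 0 0 0 d 0 f) := by
  refine Cj.of_mul (hT 0 α 0 0 0 0 (map_zero _) (map_zero _) (map_zero _)) ?_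
  have h2 := two_zero (F := F)
  subst hd
  simp only [uT, uD_mul, trQ, map_add, map_mul, map_zero, h3]
  congr 1 <;> grind

theorem step_d_f {d f γ : F} (hd : trQ φ (γ * φ d) = f) :
    Cj G (uT F φ 0 0 0 d 0 f) (uT F φ 0 0 0 d 0 0) := by
  refine Cj.of_mul (hT 0 0 γ 0 0 0 (map_zero _) (map_zero _) (map_zero _)) ?_
  have h2 := two_zero (F := F)
  subst hd
  simp only [uT, uD_mul, trQ, map_add, map_mul, map_zero, h3]
  congr 1 <;> grind

theorem step_e {e f l : F} (hl : φ l = l) (hf : l * e = f) :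
    Cj G (uT F φ 0 0 0 0 e f) (uT F φ 0 0 0 0 e 0) := by
  refine Cj.of_mul (hT l 0 0 0 0 0 hl (map_zero _) (map_zero _)) ?_
  have h2 := two_zero (F := F)
  subst hf
  simp only [uT, uD_mul, map_add, map_mul, map_zero, h3, hl]
  congr 1 <;> grind

theorem step_b_c {b c d e f α : F} (hb : φ b = b) (hc : b * α = c) :
    ∃ ε ψ : F, Cj G (uT F φ b 0 c d e f) (uT F φ b 0 0 (d + b * α * φ α) ε ψ) := by
  refine ⟨e + b * nmQ φ α + trQ φ (α * φ (d + b * α * φ α)),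
    f + b * trQ φ (c * φ α * φ (φ α)),
    Cj.of_mul (hT 0 α 0 0 0 0 (map_zero _) (map_zero _) (map_zero _)) ?_⟩
  have h2 := two_zero (F := F)
  subst hc
  simp only [uT, uD_mul, nmQ, trQ, map_add, map_mul, map_zero, h3, hb]
  congr 1 <;> grind

theorem step_b_f {b d f η : F} (hη : φ η = η) (hf : b * η = f) :
    Cj G (uT F φ b 0 0 d 0 f) (uT F φ b 0 0 d 0 0) := by
  refine Cj.of_mul (hT 0 0 0 0 η 0 (map_zero _) hη (map_zero _)) ?_
  have h2 := two_zero (F := F)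
  subst hf
  simp only [uT, uD_mul, map_zero, h3]
  congr 1 <;> grind

end CfsgLib.TwistedLie.D4E
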