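import Cfsg.Agent.TwistedLie.InvTwist
import Cfsg.Agent.TwistedLie.E6Facts

/-!
`²E₆(q)`, `q` even: a non-trivial fixed involution of a Levi factor is conjugate to one with a
non-zero coordinate at the fixed fundamental root `α₄`.
-/

set_option autoImplicit false

namespace CfsgLib.TwistedLie.E6I

open Cfsg.Lie CfsgLib.Chevalley CfsgLib.TwistedLie.E6

noncomputable section

local notation "S" => sysE6

/-- The positive roots supported on `J`. -/
abbrev sp (J : List ℕ) : List ℕ := spanList chevE6 (Sys.vec sysE6) J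

/-- The supports of the states. -/
def Js : List (List ℕ) := [[0, 1, 2, 3, 4, 5], [0, 2, 3, 4, 5], [2, 3, 4], [3]]

/-- The roots of an orbit of fundamental roots. -/
abbrev bRoots (b : Fin 4) : List ℕ := (blkN b).map chevE6.simple

/-- The height after reflecting in an orbit. -/
def htW (b : Fin 4) (x : ℕ) : ℤ :=
  sumOn (Sys.vec sysE6) (List.range chevE6.rank) x - ((blkN b).map fun j => chevE6.cartan j x).sum

/-- Check: the descent along the orbits inside `J`. -/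
def chkDesc (J : List ℕ) : Bool :=
  (sp J).all fun r => (J.map chevE6.simple).contains r ||
    decide (2 ≤ sumOn (Sys.vec sysE6) (List.range chevE6.rank) r) &&
    (List.finRange 4).any fun b => (blkN b).all (fun j => J.contains j) &&
      decide (htW b r < sumOn (Sys.vec sysE6) (List.range chevE6.rank) r)

/-- Check: the action of an orbit inside `J`. -/
def chkBlock (J : List ℕ) : Bool :=
  (List.finRange 4).all fun b => !((blkN b).all fun j => J.contains j) ||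
    (sp J).all fun x => (bRoots b).contains x ||
      ((sp J).contains (wL chevE6 (blkN b) x) && !(bRoots b).contains (wL chevE6 (blkN b) x) &&
        decide (htW b x = sumOn (Sys.vec sysE6) (List.range chevE6.rank) (wL chevE6 (blkN b) x)) &&
        decide (1 ≤ htW b x) && decide (wL chevE6 (blkN b) (wL chevE6 (blkN b) x) = x))

theorem chkDesc_ok : ∀ J ∈ Js, chkDesc J = true := by decide +kernel

theorem chkBlock_ok : ∀ J ∈ Js, chkBlock J = true := by decide +kernel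

theorem sp_pi : ∀ J ∈ Js, ∀ r ∈ sp J, pE r ∈ sp J := by decide +kernel

/-- The part of the group inside a Levi factor. -/
noncomputable def levi (K : Type*) [Field K] (q : ℕ) (J : List ℕ) :
    Subgroup (GL chevE6.Idx K) :=
  twistedE6 K q ⊓ genSub chevE6 K {r | r ∈ leviGens chevE6 (Sys.vec sysE6) J}

/-- The target: conjugate inside the Levi factor to an element with a coordinate at `α₄`. -/
def Raised (K : Type*) [Field K] (q : ℕ) (J : List ℕ) (u : GL chevE6.Idx K) : Prop :=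
  ∃ h ∈ levi K q J, h * u * h⁻¹ ∈ uSub chevE6 K (rSet (sp J)) ∧
    h * u * h⁻¹ ∉ uSub chevE6 K (rSet (sp J) \ {39})

variable {K : Type*} [Field K] [Fintype K] [CharP K 2] {q : ℕ}
variable (hq : IsPrimePow q) (hK : Fintype.card K = q ^ 2)
include hq hK

/-- The twist of `²E₆(q)`. -/
noncomputable def twist : RootTwist S K where
  σ := sigma hq hK
  π := pE
  φ := phi hq hK
  hx r hr t := by
    have h1 : ((sgE r : ℤ) : K) = 1 := by
      have h := (by decide +kernel : ∀ r < 72, (sgE r).natAbs = 1) r hr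
      rcases Int.natAbs_eq (sgE r) with e | e <;> rw [e, h] <;> simp [CharTwo.neg_eq]
    rw [sigma, Folded.sigma, twistHom_x S K graphE6 _ hr, h1, one_mul]
  π_lt := by decide +kernel
  π_pos := by decide +kernel
  π_π := by decide +kernel
  φ_φ := phi_phi hq hK

local notation "φ" => phi hq hK
local notation "GG" => twistedE6 K q
local notation "TW" => twist hq hK

/-- Fixed elements of the positive unipotent subgroup lie in the group. -/
theorem mem_of_fixed {P : Set ℕ} {u : GL chevE6.Idx K} (hu : u ∈ uSub chevE6 K P)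
    (hfix : (TW).σ u = u) : u ∈ GG := by
  refine (tw hq hK).flipFix_le_G longWord (((tw hq hK).mem_flipFix).mpr ⟨?_, hfix⟩)
  have hle : chevE6.posUnipotent K ≤ uSub chevE6 K (Sys.flipSet S K ((tw hq hK).nW longWord)) := by
    rw [← uSub_univ]
    refine Sys.uSub_le S K fun r _ h1 h2 t => Sys.xG_mem_uSub S K ?_ h1 h2 t
    refine ⟨h2, ?_⟩
    rw [(tw hq hK).perm_nW]
    show (Sys.wperm S (longWord.flatMap blkF) ⟨r, h2⟩ : ℕ) < _
    rw [wperm_flat]
    exact long_neg r h2 h1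
  exact hle (uSub_le_posUnipotent K P hu)

omit [CharP K 2] in
theorem fix_of_mem {g : GL chevE6.Idx K} (hg : g ∈ GG) : sigma hq hK g = g :=
  (tw hq hK).σ_mem hg

theorem mem_levi_of_fixed {J : List ℕ} {u : GL chevE6.Idx K}
    (hu : u ∈ uSub chevE6 K (rSet (sp J))) (hfix : (TW).σ u = u) : u ∈ levi K q J := by
  refine ⟨mem_of_fixed hq hK hu hfix, ?_⟩
  have hle : uSub chevE6 K (rSet (sp J)) ≤
      genSub chevE6 K {r | r ∈ leviGens chevE6 (Sys.vec sysE6) J} :=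
    Sys.uSub_le S K fun r hr _ _ t => Sys.xG_mem_genSub S K (List.mem_append_left _ hr) t
  exact hle hu

omit [CharP K 2] in
theorem nW_perm (W : List (Fin 4)) (r : Fin chevE6.nroots) :
    (Sys.perm S K ((tw hq hK).nW W) r : ℕ) = wL chevE6 (wdN W) r := by
  rw [(tw hq hK).perm_nW]
  exact wperm_flat W r

omit [CharP K 2] in
theorem nW_mem_levi {J : List ℕ} (hJ : J ∈ Js) {W : List (Fin 4)}
    (hW : ∀ j ∈ wdN W, j ∈ J) : ((tw hq hK).nW W : GL chevE6.Idx K) ∈ levi K q J := by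
  refine ⟨(tw hq hK).nW_mem W, Sys.wN_mem_genSub S K
    ((by decide +kernel : ∀ J ∈ Js, ∀ j ∈ J, j < chevE6.rank) J hJ) _ fun a ha => hW _ ?_⟩
  obtain ⟨b, hb, hab⟩ := List.mem_flatMap.mp ha
  exact List.mem_flatMap.mpr ⟨b, hb, mem_blkF.mp hab⟩

theorem fixed_conj {J : List ℕ} {h u : GL chevE6.Idx K} (hh : h ∈ levi K q J)
    (hfix : (TW).σ u = u) : (TW).σ (h * u * h⁻¹) = h * u * h⁻¹ := by
  have : (TW).σ h = h := fix_of_mem hq hK hh.1
  rw [map_mul, map_mul, map_inv, this, hfix]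

omit hq hK in
theorem sq_conj {H : Type*} [Group H] (h : H) {u : H} (hu : u * u = 1) :
    h * u * h⁻¹ * (h * u * h⁻¹) = 1 := by
  rw [show h * u * h⁻¹ * (h * u * h⁻¹) = h * (u * u) * h⁻¹ by group, hu]; group

omit hq hK in
theorem Raised.of_conj {J : List ℕ} {h u : GL chevE6.Idx K} (hh : h ∈ levi K q J)
    (hr : Raised K q J (h * u * h⁻¹)) : Raised K q J u := by
  obtain ⟨k, hk, h1, h2⟩ := hr
  refine ⟨k * h, mul_mem hk hh, ?_, ?_⟩ <;>
    rwa [show k * h * u * (k * h)⁻¹ = k * (h * u * h⁻¹) * k⁻¹ by group]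

omit hq hK in
/-- A non-zero coordinate is seen. -/
theorem not_mem_of_coord {P : List ℕ} {k : ℕ} (hk : k < chevE6.nroots)
    (hP : Sys.Closed S (rSet (rDel P k))) {u : GL chevE6.Idx K} {c : K}
    (h : Sys.Coord S K (rSet P) k u c) (hc : c ≠ 0) :
    u ∉ uSub chevE6 K (rSet P \ {k}) := fun h0 => by
  rw [rSet_del] at hP
  exact hc (Sys.coord_unique S hP hk h ((Sys.coord_zero_iff S).mpr h0))

theorem coord_restrict {P P' : List ℕ} (hsub : ∀ r ∈ P', r ∈ P) {k : ℕ} (hkP : k ∈ P')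
    (hk : chevE6.nroots / 2 ≤ k ∧ k < chevE6.nroots) (hP' : Sys.Closed S (rSet P'))
    (hP : Sys.Closed S (rSet (rDel P k))) {u : GL chevE6.Idx K} {c : K}
    (hu : u ∈ uSub chevE6 K (rSet P')) (h : Sys.Coord S K (rSet P) k u c) :
    Sys.Coord S K (rSet P') k u c := by
  obtain ⟨c', hc'⟩ := Sys.exists_coord S hP' hkP hk hu
  have : Sys.Coord S K (rSet P) k u c' :=
    uSub_mono (P := rSet P' \ {k}) (Q := rSet P \ {k}) (fun r hr => ⟨hsub r hr.1, hr.2⟩) hc'
  rw [rSet_del] at hP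
  rwa [Sys.coord_unique S hP hk.2 h this]

theorem coord_fixed_fixed {P : List ℕ} (hP : ∀ r ∈ P, pE r ∈ P) {k : ℕ} (hk : k < chevE6.nroots)
    (hkf : pE k = k) (hPk : Sys.Closed S (rSet (rDel P k))) {u : GL chevE6.Idx K}
    (hfix : (TW).σ u = u) {c : K} (h : Sys.Coord S K (rSet P) k u c) : φ c = c := by
  have h' := (TW).coord_fixed (P := rSet P) (fun r _ hr => hP r hr) hk hfix h
  rw [show (TW).π k = k from hkf] at h'
  rw [rSet_del] at hPk
  exact Sys.coord_unique S hPk hk h' h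

/-- The second half of a transfer: `u` has coordinate `A` at `a` and none at `a + s`. -/
theorem transfer_core {J : List ℕ} (hJ : J ∈ Js) {P : List ℕ} {a a' as s : ℕ} {bs ba : Fin 4}
    (hPc : ∀ L ∈ [P, rDel P a, rDel P a', rDel P as, rDel (rDel P a) a',
      rDel (rDel (rDel P a) a') as, sp J, rDel (sp J) s],
      chkClosedList chevE6 (Sys.vec sysE6) L = true)
    (hpi : pE a = a' ∧ ∀ r ∈ P, pE r ∈ P)
    (ha : a ∈ P ∧ a' ∈ P ∧ as ∈ rDel (rDel P a) a')
    (hlt : a < chevE6.nroots ∧ a' < chevE6.nroots ∧ (36 ≤ as ∧ as < chevE6.nroots) ∧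
      s < chevE6.nroots)
    (hW : ∀ j ∈ wdN [bs] ++ wdN [ba], j ∈ J)
    (hs : ∀ r ∈ P, wL chevE6 (wdN [bs]) r ∈ P ∧ (r ≠ as → wL chevE6 (wdN [bs]) r ≠ a) ∧
      (r ≠ a → wL chevE6 (wdN [bs]) r ≠ as) ∧ 36 ≤ wL chevE6 (wdN [bs]) r)
    (hsv : wL chevE6 (wdN [bs]) a = as ∧ wL chevE6 (wdN [bs]) as = a)
    (hb : ∀ r ∈ rDel (rDel P a) a', wL chevE6 (wdN [ba]) r ∈ sp J ∧
      (r ≠ as → wL chevE6 (wdN [ba]) r ≠ s) ∧ 36 ≤ wL chevE6 (wdN [ba]) r)
    (hbv : wL chevE6 (wdN [ba]) as = s)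
    {u : GL chevE6.Idx K} (hu : u ∈ uSub chevE6 K (rSet P)) (hfix : (TW).σ u = u) {A : K}
    (hA : A ≠ 0) (hcA : Sys.Coord S K (rSet P) a u A) (hcC : Sys.Coord S K (rSet P) as u 0) :
    ∃ h ∈ levi K q J, h * u * h⁻¹ ∈ uSub chevE6 K (rSet (sp J)) ∧
      h * u * h⁻¹ ∉ uSub chevE6 K (rSet (sp J) \ {s}) := by
  have hcl : ∀ L ∈ [P, rDel P a, rDel P a', rDel P as, rDel (rDel P a) a',
      rDel (rDel (rDel P a) a') as, sp J, rDel (sp J) s], Sys.Closed S (rSet L) :=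
    fun L hL => closed_of_chk S (hPc L hL)
  simp only [List.forall_mem_cons, List.not_mem_nil, false_implies, implies_true, and_true] at hcl
  obtain ⟨cP, cPa, cPa', cPas, cQ, -, -, cJs⟩ := hcl
  have hW1 : ∀ j ∈ wdN [bs], j ∈ J := fun j hj => hW j (List.mem_append_left _ hj)
  have hW2 : ∀ j ∈ wdN [ba], j ∈ J := fun j hj => hW j (List.mem_append_right _ hj)
  obtain ⟨n, hn⟩ : ∃ n, n = (tw hq hK).nW [bs] := ⟨_, rfl⟩
  obtain ⟨n', hn'⟩ : ∃ n, n = (tw hq hK).nW [ba] := ⟨_, rfl⟩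
  have hnl : (n : GL chevE6.Idx K) ∈ levi K q J := hn ▸ nW_mem_levi hq hK hJ hW1
  have hnl' : (n' : GL chevE6.Idx K) ∈ levi K q J := hn' ▸ nW_mem_levi hq hK hJ hW2
  have hp : ∀ r : Fin chevE6.nroots, (Sys.perm S K n r : ℕ) = wL chevE6 (wdN [bs]) r :=
    fun r => hn ▸ nW_perm hq hK [bs] r
  have hp' : ∀ r : Fin chevE6.nroots, (Sys.perm S K n' r : ℕ) = wL chevE6 (wdN [ba]) r :=
    fun r => hn' ▸ nW_perm hq hK [ba] r
  set u1 := (n : GL chevE6.Idx K) * u * (n : GL chevE6.Idx K)⁻¹ with hu1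
  have h1 : u1 ∈ uSub chevE6 K (rSet P) :=
    uSub_perm S n _ hp (P' := rSet P) (fun r _ hr => ⟨(hs r hr).1, (hs r hr).2.2.2⟩) hu
  have h1f : (TW).σ u1 = u1 := fixed_conj hq hK hnl hfix
  obtain ⟨m, hm, hc1⟩ := coord_perm S n _ hp (P' := rSet P) hlt.1 hsv.1
    (fun r _ hr hne => ⟨(hs r hr).1, (hs r hr).2.2.1 hne, (hs r hr).2.2.2⟩) hcA
  obtain ⟨m', -, hc0⟩ := coord_perm S n _ hp (P' := rSet P) hlt.2.2.1.2 hsv.2
    (fun r _ hr hne => ⟨(hs r hr).1, (hs r hr).2.1 hne, (hs r hr).2.2.2⟩) hcC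
  rw [mul_zero] at hc0
  have hc0' := (TW).coord_fixed (P := rSet P) (fun r _ hr => hpi.2 r hr) hlt.1 h1f hc0
  rw [map_zero, show (TW).π a = a' from hpi.1] at hc0'
  have hQ : u1 ∈ uSub chevE6 K (rSet (rDel (rDel P a) a')) := by
    rw [rSet_del] at cPa cPa'
    have h := (Sys.mem_diff_list S cP h1 [a, a'] (by
      simp only [List.forall_mem_cons, List.not_mem_nil, false_implies, implies_true, and_true]
      exact ⟨⟨cPa, (Sys.coord_zero_iff S).mp hc0⟩, cPa', (Sys.coord_zero_iff S).mp hc0'⟩)).2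
    refine uSub_mono (fun r hr => ?_) h
    have hr' : r ∈ P ∧ r ∉ [a, a'] := hr
    simp [rDel] at hr' ⊢
    tauto
  have hcQ : Sys.Coord S K (rSet (rDel (rDel P a) a')) as u1 (m * A) :=
    coord_restrict hq hK (fun r hr => List.mem_of_mem_filter (List.mem_of_mem_filter hr)) ha.2.2
      hlt.2.2.1 cQ cPas hQ hc1
  obtain ⟨m2, hm2, hc2⟩ := coord_perm S n' _ hp' (P' := rSet (sp J)) hlt.2.2.1.2 hbv
    (fun r _ hr hne => ⟨(hb r hr).1, (hb r hr).2.1 hne, (hb r hr).2.2⟩) hcQ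
  refine ⟨n' * n, mul_mem hnl' hnl, ?_, ?_⟩ <;>
    rw [show ((n' : GL chevE6.Idx K) * n) * u * ((n' : GL chevE6.Idx K) * n)⁻¹ =
      (n' : GL chevE6.Idx K) * u1 * (n' : GL chevE6.Idx K)⁻¹ by rw [hu1]; group]
  · exact uSub_perm S n' _ hp' (fun r _ hr => ⟨(hb r hr).1, (hb r hr).2.2⟩) hQ
  · exact not_mem_of_coord hlt.2.2.2 cJs hc2 (mul_ne_zero hm2 (mul_ne_zero hm hA))

omit hq hK in
theorem exists_coord_ne {P : List ℕ} {k : ℕ} (hk : k ∈ P)
    (hkb : chevE6.nroots / 2 ≤ k ∧ k < chevE6.nroots) (hP : Sys.Closed S (rSet P))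
    {u : GL chevE6.Idx K} (hu : u ∈ uSub chevE6 K (rSet P))
    (hne : u ∉ uSub chevE6 K (rSet P \ {k})) :
    ∃ A : K, A ≠ 0 ∧ Sys.Coord S K (rSet P) k u A := by
  obtain ⟨A, hA⟩ := Sys.exists_coord S hP hk hkb hu
  exact ⟨A, fun h => hne ((Sys.coord_zero_iff S).mp (h ▸ hA)), hA⟩

/-- The roots without `α₄`. -/
abbrev spB (J : List ℕ) : List ℕ := rDel (sp J) 39

/-- Zero coordinate at `α₂` can be pushed to `α₄`. -/
theorem raise_two {u : GL chevE6.Idx K}
    (hu : u ∈ uSub chevE6 K (rSet (spB [0, 1, 2, 3, 4, 5]))) (hfix : (TW).σ u = u)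
    (hne : u ∉ uSub chevE6 K (rSet (spB [0, 1, 2, 3, 4, 5]) \ {46})) :
    Raised K q [0, 1, 2, 3, 4, 5] u := by
  set P := spB [0, 1, 2, 3, 4, 5] with hPdef
  have hcl : ∀ L ∈ [P, rDel P 46, rDel P 47], Sys.Closed S (rSet L) := fun L hL =>
    closed_of_chk S ((by decide +kernel : ∀ L ∈ [spB [0, 1, 2, 3, 4, 5],
      rDel (spB [0, 1, 2, 3, 4, 5]) 46, rDel (spB [0, 1, 2, 3, 4, 5]) 47],
      chkClosedList chevE6 (Sys.vec sysE6) L = true) L hL)
  simp only [List.forall_mem_cons, List.not_mem_nil, false_implies, implies_true, and_true] at hcl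
  obtain ⟨cP, c46, c47⟩ := hcl
  have hpiP : ∀ r ∈ P, pE r ∈ P := by decide +kernel
  obtain ⟨A, hA, hcA⟩ := exists_coord_ne (by decide +kernel) (by decide +kernel) cP hu hne
  obtain ⟨C, hcC⟩ := Sys.exists_coord S cP (show 47 ∈ P by decide +kernel) (by decide +kernel) hu
  have hAf := coord_fixed_fixed hq hK hpiP (by decide) (by decide +kernel) c46 hfix hcA
  have hCf := coord_fixed_fixed hq hK hpiP (by decide) (by decide +kernel) c47 hfix hcC
  obtain ⟨m1, cs, ck, hs1, -, hk1, hn1⟩ := shift S (show chkShift chevE6 P 39 47 46 = true by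
    decide +kernel) cP (show 47 ∈ P by decide +kernel) (C / A) hu
  obtain ⟨-, cs', ck', -, hz', hk1', hn1'⟩ := shift S (show chkShift chevE6 P 39 46 72 = true by
    decide +kernel) cP (show 46 ∈ P by decide +kernel) (C / A) hu
  rw [rSet_del] at c46 c47
  rw [Sys.coord_unique S c47 (by decide) hk1 hcC,
    Sys.coord_unique S c46 (by decide) (hs1 (by decide +kernel)) hcA, div_mul_cancel₀ _ hA,
    CharTwo.add_self_eq_zero] at hn1
  rw [Sys.coord_unique S c46 (by decide) hk1' hcA, hz' (by decide +kernel), mul_zero,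
    add_zero] at hn1'
  set k := Sys.xG S K 39 (C / A) with hk0
  have hkf : (TW).σ k = k := by
    rw [hk0, (TW).hx 39 (by decide), show (TW).π 39 = 39 from (by decide +kernel : pE 39 = 39)]
    congr 1
    show φ (C / A) = C / A
    rw [map_div₀, hAf, hCf]
  have hkm : k ∈ levi K q [0, 1, 2, 3, 4, 5] := mem_levi_of_fixed hq hK
    (Sys.xG_mem_uSub S K (P := rSet (sp [0, 1, 2, 3, 4, 5]))
      (show 39 ∈ sp [0, 1, 2, 3, 4, 5] by decide +kernel) (by decide) (by decide) _) hkf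
  refine Raised.of_conj hkm ?_
  obtain ⟨h, hh, h1, h2⟩ := transfer_core hq hK (J := [0, 1, 2, 3, 4, 5]) (by decide)
    (P := P) (a := 46) (a' := 46) (as := 47) (s := 39) (bs := 1) (ba := 0)
    (by decide +kernel) ⟨by decide +kernel, hpiP⟩ (by decide +kernel) (by decide) (by decide +kernel)
    (by decide +kernel) (by decide +kernel) (by decide +kernel) (by decide +kernel)
    m1 (fixed_conj hq hK hkm hfix) hA hn1' hn1
  exact ⟨h, hh, h1, h2⟩

set_option maxHeartbeats 1000000 in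
/-- A pair coordinate at `α₁, α₆` can be pushed to `α₃, α₅`. -/
theorem transfer_pair {J : List ℕ} (hJ : J ∈ [[0, 1, 2, 3, 4, 5], [0, 2, 3, 4, 5]])
    {u : GL chevE6.Idx K} (hu : u ∈ uSub chevE6 K (rSet (rDel (rDel (sp J) 42) 37)))
    (hfix : (TW).σ u = u)
    (hne : u ∉ uSub chevE6 K (rSet (rDel (rDel (sp J) 42) 37) \ {56})) :
    ∃ h ∈ levi K q J, h * u * h⁻¹ ∈ uSub chevE6 K (rSet (sp J)) ∧
      h * u * h⁻¹ ∉ uSub chevE6 K (rSet (sp J) \ {42}) := by
  set P := rDel (rDel (sp J) 42) 37 with hPdef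
  have hcl : ∀ L ∈ [P, rDel P 56, rDel P 57], Sys.Closed S (rSet L) := fun L hL =>
    closed_of_chk S ((by decide +kernel : ∀ J ∈ [[0, 1, 2, 3, 4, 5], [0, 2, 3, 4, 5]],
      ∀ L ∈ [rDel (rDel (sp J) 42) 37, rDel (rDel (rDel (sp J) 42) 37) 56,
        rDel (rDel (rDel (sp J) 42) 37) 57],
      chkClosedList chevE6 (Sys.vec sysE6) L = true) J hJ L hL)
  simp only [List.forall_mem_cons, List.not_mem_nil, false_implies, implies_true, and_true] at hcl
  obtain ⟨cP, c56, c57⟩ := hcl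
  obtain ⟨hpiP, i56, i57, i42, i37, hsh⟩ : (∀ r ∈ P, pE r ∈ P) ∧ 56 ∈ P ∧ 57 ∈ P ∧ 42 ∈ sp J ∧
      37 ∈ sp J ∧ chkShift chevE6 P 42 57 56 = true ∧ chkShift chevE6 P 37 57 72 = true ∧
      chkShift chevE6 P 42 56 72 = true ∧ chkShift chevE6 P 37 56 72 = true ∧
      chkShift chevE6 P 37 56 72 = true :=
    (by decide +kernel : ∀ J ∈ [[0, 1, 2, 3, 4, 5], [0, 2, 3, 4, 5]],
      (∀ r ∈ rDel (rDel (sp J) 42) 37, pE r ∈ rDel (rDel (sp J) 42) 37) ∧
      56 ∈ rDel (rDel (sp J) 42) 37 ∧ 57 ∈ rDel (rDel (sp J) 42) 37 ∧ 42 ∈ sp J ∧ 37 ∈ sp J ∧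
      chkShift chevE6 (rDel (rDel (sp J) 42) 37) 42 57 56 = true ∧
      chkShift chevE6 (rDel (rDel (sp J) 42) 37) 37 57 72 = true ∧
      chkShift chevE6 (rDel (rDel (sp J) 42) 37) 42 56 72 = true ∧
      chkShift chevE6 (rDel (rDel (sp J) 42) 37) 37 56 72 = true ∧
      chkShift chevE6 (rDel (rDel (sp J) 42) 37) 37 56 72 = true) J hJ
  obtain ⟨t1, t2, t3, t4, -⟩ := hsh
  have h72 : (72 : ℕ) ∉ P := fun h => absurd
    (((Sys.mem_spanList S).mp (List.mem_of_mem_filter (List.mem_of_mem_filter h))).1.2) (by decide)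
  obtain ⟨A, hA, hcA⟩ := exists_coord_ne i56 (by decide +kernel) cP hu hne
  obtain ⟨C, hcC⟩ := Sys.exists_coord S cP i57 (by decide +kernel) hu
  set l := C / A with hl
  obtain ⟨m1, cs, ck, -, hz, hk1, hn1⟩ := shift S t2 cP i57 (φ l) hu
  obtain ⟨-, cs', ck', -, hz', hk1', hn1'⟩ := shift S t4 cP i56 (φ l) hu
  rw [rSet_del] at c56 c57
  rw [hz h72, mul_zero, add_zero, Sys.coord_unique S c57 (by decide) hk1 hcC] at hn1
  rw [hz' h72, mul_zero, add_zero, Sys.coord_unique S c56 (by decide) hk1' hcA] at hn1'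
  set u0 := Sys.xG S K 37 (φ l) * u * (Sys.xG S K 37 (φ l))⁻¹ with hu0
  obtain ⟨m2, ds, dk, hs2, -, hk2, hn2⟩ := shift S t1 cP i57 l m1
  obtain ⟨-, ds', dk', -, hz2, hk2', hn2'⟩ := shift S t3 cP i56 l m1
  rw [Sys.coord_unique S c57 (by decide) hk2 hn1,
    Sys.coord_unique S c56 (by decide) (hs2 i56) hn1', hl, div_mul_cancel₀ _ hA,
    CharTwo.add_self_eq_zero, ← hl] at hn2
  rw [hz2 h72, mul_zero, add_zero, Sys.coord_unique S c56 (by decide) hk2' hn1'] at hn2'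
  set k := Sys.xG S K 42 l * Sys.xG S K 37 (φ l) with hk0
  have hu2 : Sys.xG S K 42 l * u0 * (Sys.xG S K 42 l)⁻¹ = k * u * k⁻¹ := by rw [hk0, hu0]; group
  rw [hu2] at m2 hn2 hn2'
  have hkf : (TW).σ k = k := by
    rw [hk0, map_mul, (TW).hx 42 (by decide), (TW).hx 37 (by decide),
      show (TW).π 42 = 37 from (by decide +kernel : pE 42 = 37),
      show (TW).π 37 = 42 from (by decide +kernel : pE 37 = 42),
      show (TW).φ (φ l) = l from phi_phi hq hK l, show (TW).φ l = φ l from rfl]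
    exact (Sys.evenComm_commute S K (R := [42]) (A := [37]) (by decide +kernel) (by simp) (by simp)
      l (φ l)).symm.eq
  have hkS : k ∈ uSub chevE6 K (rSet (sp J)) :=
    mul_mem (Sys.xG_mem_uSub S K (P := rSet (sp J)) i42 (by decide) (by decide) _)
      (Sys.xG_mem_uSub S K (P := rSet (sp J)) i37 (by decide) (by decide) _)
  have hkm := mem_levi_of_fixed hq hK hkS hkf
  have hJs : J ∈ Js := (by decide +kernel :
    ∀ J ∈ [[0, 1, 2, 3, 4, 5], [0, 2, 3, 4, 5]], J ∈ Js) J hJ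
  obtain ⟨h, hh, h1, h2⟩ := transfer_core hq hK hJs (P := P) (a := 56) (a' := 36) (as := 57)
    (s := 42) (bs := 2) (ba := 3)
    ((by decide +kernel : ∀ J ∈ [[0, 1, 2, 3, 4, 5], [0, 2, 3, 4, 5]],
      ∀ L ∈ [rDel (rDel (sp J) 42) 37, rDel (rDel (rDel (sp J) 42) 37) 56,
      rDel (rDel (rDel (sp J) 42) 37) 36, rDel (rDel (rDel (sp J) 42) 37) 57,
      rDel (rDel (rDel (rDel (sp J) 42) 37) 56) 36,
      rDel (rDel (rDel (rDel (rDel (sp J) 42) 37) 56) 36) 57, sp J, rDel (sp J) 42],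
      chkClosedList chevE6 (Sys.vec sysE6) L = true) J hJ)
    ⟨by decide +kernel, hpiP⟩
    ((by decide +kernel : ∀ J ∈ [[0, 1, 2, 3, 4, 5], [0, 2, 3, 4, 5]],
      56 ∈ rDel (rDel (sp J) 42) 37 ∧ 36 ∈ rDel (rDel (sp J) 42) 37 ∧
      57 ∈ rDel (rDel (rDel (rDel (sp J) 42) 37) 56) 36) J hJ)
    (by decide)
    ((by decide +kernel : ∀ J ∈ [[0, 1, 2, 3, 4, 5], [0, 2, 3, 4, 5]],
      ∀ j ∈ wdN [2] ++ wdN [3], j ∈ J) J hJ)
    ((by decide +kernel : ∀ J ∈ [[0, 1, 2, 3, 4, 5], [0, 2, 3, 4, 5]],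
      ∀ r ∈ rDel (rDel (sp J) 42) 37, wL chevE6 (wdN [2]) r ∈ rDel (rDel (sp J) 42) 37 ∧
      (r ≠ 57 → wL chevE6 (wdN [2]) r ≠ 56) ∧ (r ≠ 56 → wL chevE6 (wdN [2]) r ≠ 57) ∧
      36 ≤ wL chevE6 (wdN [2]) r) J hJ)
    (by decide +kernel)
    ((by decide +kernel : ∀ J ∈ [[0, 1, 2, 3, 4, 5], [0, 2, 3, 4, 5]],
      ∀ r ∈ rDel (rDel (rDel (rDel (sp J) 42) 37) 56) 36, wL chevE6 (wdN [3]) r ∈ sp J ∧
      (r ≠ 57 → wL chevE6 (wdN [3]) r ≠ 42) ∧ 36 ≤ wL chevE6 (wdN [3]) r) J hJ)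
    (by decide +kernel) m2 (fixed_conj hq hK hkm hfix) hA hn2' hn2
  refine ⟨h * k, mul_mem hh hkm, ?_, ?_⟩ <;>
    rwa [show h * k * u * (h * k)⁻¹ = h * (k * u * k⁻¹) * h⁻¹ by group]

theorem exists_nonfixed : ∃ μ : K, φ μ ≠ μ := by
  by_contra h
  push Not at h
  have h1 := card_fixedAdd K hq hK (phi_apply hq hK)
  have e : fixedAdd K (phi hq hK) = ⊤ := by
    ext t; exact ⟨fun _ => trivial, fun _ => h t⟩
  rw [e, Nat.card_congr AddSubgroup.topEquiv.toEquiv, Nat.card_eq_fintype_card, hK] at h1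
  have := hq.two_le
  nlinarith

set_option maxHeartbeats 1000000 in
/-- A pair coordinate at `α₃, α₅` of an involution can be pushed to `α₄`. -/
theorem raise_pair {J : List ℕ} (hJ : J ∈ [[0, 1, 2, 3, 4, 5], [0, 2, 3, 4, 5], [2, 3, 4]])
    {u : GL chevE6.Idx K} (hu : u ∈ uSub chevE6 K (rSet (spB J))) (hfix : (TW).σ u = u)
    (hsq : u * u = 1) (hne : u ∉ uSub chevE6 K (rSet (spB J) \ {42})) :
    Raised K q J u := by
  set P := spB J with hPdef
  set Q := rDel (rDel P 42) 37 with hQdef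
  have hcl : ∀ L ∈ [P, rDel P 42, rDel P 37, rDel P 43, Q, rDel Q 43, rDel Q 40, rDel Q 44,
      rDel (sp J) 39], Sys.Closed S (rSet L) := fun L hL =>
    closed_of_chk S ((by decide +kernel :
      ∀ J ∈ [[0, 1, 2, 3, 4, 5], [0, 2, 3, 4, 5], [2, 3, 4]],
      ∀ L ∈ [spB J, rDel (spB J) 42, rDel (spB J) 37, rDel (spB J) 43,
        rDel (rDel (spB J) 42) 37, rDel (rDel (rDel (spB J) 42) 37) 43,
        rDel (rDel (rDel (spB J) 42) 37) 40, rDel (rDel (rDel (spB J) 42) 37) 44,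
        rDel (sp J) 39],
      chkClosedList chevE6 (Sys.vec sysE6) L = true) J hJ L hL)
  simp only [List.forall_mem_cons, List.not_mem_nil, false_implies, implies_true, and_true] at hcl
  obtain ⟨cP, c42, c37, c43, cQ, q43, q40, q44, cJ⟩ := hcl
  obtain ⟨hpiP, hpiQ, ⟨i42, i37, i43, j43, j40, j44⟩, ⟨a1, a2, b1, b2, b3⟩, ⟨w1, w2⟩⟩ :
      (∀ r ∈ P, pE r ∈ P) ∧ (∀ r ∈ Q, pE r ∈ Q) ∧
      (42 ∈ P ∧ 37 ∈ P ∧ 43 ∈ P ∧ 43 ∈ Q ∧ 40 ∈ Q ∧ 44 ∈ Q) ∧
      (chkShift chevE6 P 39 43 42 = true ∧ chkShift chevE6 P 39 42 72 = true ∧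
        chkShift chevE6 Q 37 44 43 = true ∧ chkShift chevE6 Q 37 40 72 = true ∧
        chkShift chevE6 Q 42 44 40 = true) ∧
      (∀ r ∈ P, wL chevE6 (wdN [1]) r ∈ P ∧ (r ≠ 43 → wL chevE6 (wdN [1]) r ≠ 42) ∧
        (r ≠ 42 → wL chevE6 (wdN [1]) r ≠ 43) ∧ 36 ≤ wL chevE6 (wdN [1]) r) ∧
      (∀ r ∈ Q, wL chevE6 (wdN [2]) r ∈ sp J ∧ (r ≠ 44 → wL chevE6 (wdN [2]) r ≠ 39) ∧
        36 ≤ wL chevE6 (wdN [2]) r) :=
    (by decide +kernel : ∀ J ∈ [[0, 1, 2, 3, 4, 5], [0, 2, 3, 4, 5], [2, 3, 4]],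
      (∀ r ∈ spB J, pE r ∈ spB J) ∧
      (∀ r ∈ rDel (rDel (spB J) 42) 37, pE r ∈ rDel (rDel (spB J) 42) 37) ∧
      (42 ∈ spB J ∧ 37 ∈ spB J ∧ 43 ∈ spB J ∧ 43 ∈ rDel (rDel (spB J) 42) 37 ∧
        40 ∈ rDel (rDel (spB J) 42) 37 ∧ 44 ∈ rDel (rDel (spB J) 42) 37) ∧
      (chkShift chevE6 (spB J) 39 43 42 = true ∧ chkShift chevE6 (spB J) 39 42 72 = true ∧
        chkShift chevE6 (rDel (rDel (spB J) 42) 37) 37 44 43 = true ∧
        chkShift chevE6 (rDel (rDel (spB J) 42) 37) 37 40 72 = true ∧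
        chkShift chevE6 (rDel (rDel (spB J) 42) 37) 42 44 40 = true) ∧
      (∀ r ∈ spB J, wL chevE6 (wdN [1]) r ∈ spB J ∧ (r ≠ 43 → wL chevE6 (wdN [1]) r ≠ 42) ∧
        (r ≠ 42 → wL chevE6 (wdN [1]) r ≠ 43) ∧ 36 ≤ wL chevE6 (wdN [1]) r) ∧
      (∀ r ∈ rDel (rDel (spB J) 42) 37, wL chevE6 (wdN [2]) r ∈ sp J ∧
        (r ≠ 44 → wL chevE6 (wdN [2]) r ≠ 39) ∧ 36 ≤ wL chevE6 (wdN [2]) r)) J hJ
  have hJs : J ∈ Js := (by decide +kernel :
    ∀ J ∈ [[0, 1, 2, 3, 4, 5], [0, 2, 3, 4, 5], [2, 3, 4]], J ∈ Js) J hJ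
  have hP72 : (72 : ℕ) ∉ P := fun h => absurd
    (((Sys.mem_spanList S).mp (List.mem_of_mem_filter h)).1.2) (by decide)
  have hQ72 : (72 : ℕ) ∉ Q := fun h => hP72 (List.mem_of_mem_filter (List.mem_of_mem_filter h))
  have hQsub : ∀ r ∈ Q, r ∈ P := fun r hr => List.mem_of_mem_filter (List.mem_of_mem_filter hr)
  have hPi : ∀ r < chevE6.nroots, r ∈ rSet P → (TW).π r ∈ rSet P := fun r _ hr => hpiP r hr
  have hQi : ∀ r < chevE6.nroots, r ∈ rSet Q → (TW).π r ∈ rSet Q := fun r _ hr => hpiQ r hr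
  have hπ43 : (TW).π 43 = 40 := (by decide +kernel : pE 43 = 40)
  have hπ42 : (TW).π 42 = 37 := (by decide +kernel : pE 42 = 37)
  have toQ : ∀ {x : GL chevE6.Idx K}, x ∈ uSub chevE6 K (rSet P) → (TW).σ x = x →
      Sys.Coord S K (rSet P) 42 x 0 → x ∈ uSub chevE6 K (rSet Q) := by
    intro x hx hxf hx0
    have hx0' := (TW).coord_fixed hPi (by decide) hxf hx0
    rw [map_zero, hπ42] at hx0'
    have h1 := c42
    have h2 := c37
    rw [rSet_del] at h1 h2
    have h := (Sys.mem_diff_list S cP hx [42, 37] (by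
      simp only [List.forall_mem_cons, List.not_mem_nil, false_implies, implies_true, and_true]
      exact ⟨⟨h1, (Sys.coord_zero_iff S).mp hx0⟩, h2, (Sys.coord_zero_iff S).mp hx0'⟩)).2
    refine uSub_mono (fun r hr => ?_) h
    have hr' : r ∈ P ∧ r ∉ [42, 37] := hr
    simp [hQdef, rDel] at hr' ⊢
    tauto
  -- coordinate sums after conjugating by a pair element
  have pairShift : ∀ {x : GL chevE6.Idx K} {C E : K} (l : K), x ∈ uSub chevE6 K (rSet Q) →
      (TW).σ x = x → Sys.Coord S K (rSet Q) 43 x C → Sys.Coord S K (rSet Q) 44 x E →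
      (Sys.xG S K 42 l * Sys.xG S K 37 (φ l)) * x * (Sys.xG S K 42 l * Sys.xG S K 37 (φ l))⁻¹ ∈
        uSub chevE6 K (rSet Q) ∧
      Sys.Coord S K (rSet Q) 44
        ((Sys.xG S K 42 l * Sys.xG S K 37 (φ l)) * x * (Sys.xG S K 42 l * Sys.xG S K 37 (φ l))⁻¹)
        (E + φ l * C + l * φ C) := by
    intro x C E l hx hxf hC hE
    have hC' := (TW).coord_fixed hQi (by decide) hxf hC
    rw [hπ43] at hC'
    obtain ⟨m1, cs, ck, hs1, -, hk1, hn1⟩ := shift S b1 cQ j44 (φ l) hx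
    obtain ⟨-, cs', ck', -, hz', hk1', hn1'⟩ := shift S b2 cQ j40 (φ l) hx
    have h1 := q44
    have h2 := q43
    have h3 := q40
    rw [rSet_del] at h1 h2 h3
    rw [Sys.coord_unique S h1 (by decide) hk1 hE,
      Sys.coord_unique S h2 (by decide) (hs1 j43) hC] at hn1
    rw [hz' hQ72, mul_zero, add_zero, Sys.coord_unique S h3 (by decide) hk1' hC'] at hn1'
    obtain ⟨m2, ds, dk, hs2, -, hk2, hn2⟩ := shift S b3 cQ j44 l m1
    rw [Sys.coord_unique S h1 (by decide) hk2 hn1,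
      Sys.coord_unique S h3 (by decide) (hs2 j40) hn1'] at hn2
    have e : Sys.xG S K 42 l * (Sys.xG S K 37 (φ l) * x * (Sys.xG S K 37 (φ l))⁻¹) *
        (Sys.xG S K 42 l)⁻¹ = (Sys.xG S K 42 l * Sys.xG S K 37 (φ l)) * x *
          (Sys.xG S K 42 l * Sys.xG S K 37 (φ l))⁻¹ := by group
    rw [e] at m2 hn2
    exact ⟨m2, hn2⟩
  have hpfix : ∀ l : K, (TW).σ (Sys.xG S K 42 l * Sys.xG S K 37 (φ l)) =
      Sys.xG S K 42 l * Sys.xG S K 37 (φ l) := by
    intro l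
    rw [map_mul, (TW).hx 42 (by decide), (TW).hx 37 (by decide), hπ42,
      show (TW).π 37 = 42 from (by decide +kernel : pE 37 = 42),
      show (TW).φ (φ l) = l from phi_phi hq hK l, show (TW).φ l = φ l from rfl]
    exact (Sys.evenComm_commute S K (R := [42]) (A := [37]) (by decide +kernel) (by simp) (by simp)
      l (φ l)).symm.eq
  obtain ⟨A, hA, hcA⟩ := exists_coord_ne i42 (by decide +kernel) cP hu hne
  obtain ⟨C, hcC⟩ := Sys.exists_coord S cP i43 (by decide +kernel) hu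
  -- the involution condition
  set X := Sys.xG S K 42 A * Sys.xG S K 37 (φ A) with hX
  have hXinv : X⁻¹ = X := by
    rw [hX, mul_inv_rev, xG_inv2, xG_inv2]
    exact (Sys.evenComm_commute S K (R := [42]) (A := [37]) (by decide +kernel) (by simp) (by simp)
      A (φ A)).symm.eq
  have hXP : X ∈ uSub chevE6 K (rSet P) :=
    mul_mem (Sys.xG_mem_uSub S K (P := rSet P) i42 (by decide) (by decide) _)
      (Sys.xG_mem_uSub S K (P := rSet P) i37 (by decide) (by decide) _)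
  have hXc : ∀ {k : ℕ}, k ∈ P → k < chevE6.nroots → chevE6.nroots / 2 ≤ k →
      Sys.Coord S K (rSet P) k X ((if 42 = k then A else 0) + if 37 = k then φ A else 0) :=
    fun {k} hk h1 h2 => Sys.coord_mul S cP hk ⟨h2, h1⟩
      (Sys.coord_xG S i42 (by decide +kernel) A) (Sys.coord_xG S i37 (by decide +kernel) _)
  set r := X * u with hr
  have hrf : (TW).σ r = r := by rw [hr, map_mul, hpfix A, hfix]
  have hrQ : r ∈ uSub chevE6 K (rSet Q) := by
    refine toQ (mul_mem hXP hu) hrf ?_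
    have h := Sys.coord_mul S cP i42 (by decide +kernel)
      (hXc i42 (by decide) (by decide +kernel)) hcA
    simpa [CharTwo.add_self_eq_zero] using h
  have hrC : Sys.Coord S K (rSet Q) 43 r C := by
    refine coord_restrict hq hK hQsub j43 (by decide +kernel) cQ c43 hrQ ?_
    have h := Sys.coord_mul S cP i43 (by decide +kernel)
      (hXc i43 (by decide) (by decide +kernel)) hcC
    simpa using h
  obtain ⟨E0, hE0⟩ := Sys.exists_coord S cQ j44 (by decide +kernel) hrQ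
  obtain ⟨mX, hcX⟩ := pairShift A hrQ hrf hrC hE0
  have hone : X * r * X⁻¹ * r = 1 := by
    rw [hXinv, hr]
    have hXX : X * X = 1 := inv_eq_iff_mul_eq_one.mp hXinv
    calc X * (X * u) * X * (X * u) = (X * X) * u * (X * X) * u := by simp only [mul_assoc]
      _ = 1 := by rw [hXX, one_mul, mul_one, hsq]
  have hrel : φ A * C + A * φ C = 0 := by
    have h := Sys.coord_mul S cQ j44 (by decide +kernel) hcX hE0
    rw [← hX, hone] at h
    have h' := q44
    rw [rSet_del] at h'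
    have := Sys.coord_unique S h' (by decide) h (Sys.coord_one S _ _)
    have h2 : E0 + E0 = 0 := CharTwo.add_self_eq_zero E0
    linear_combination this - h2
  set l := C / A with hl
  have hlf : φ l = l := by
    rw [hl, map_div₀, div_eq_div_iff (by simpa using hA) hA]
    have h2 : φ A * C + φ A * C = 0 := CharTwo.add_self_eq_zero _
    linear_combination hrel - h2
  -- kill the coordinate at 43
  obtain ⟨m1, cs, ck, hs1, -, hk1, hn1⟩ := shift S a1 cP i43 l hu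
  obtain ⟨-, cs', ck', -, hz', hk1', hn1'⟩ := shift S a2 cP i42 l hu
  have h42 := c42
  have h43 := c43
  rw [rSet_del] at h42 h43
  rw [Sys.coord_unique S h43 (by decide) hk1 hcC,
    Sys.coord_unique S h42 (by decide) (hs1 i42) hcA, hl, div_mul_cancel₀ _ hA,
    CharTwo.add_self_eq_zero, ← hl] at hn1
  rw [hz' hP72, mul_zero, add_zero, Sys.coord_unique S h42 (by decide) hk1' hcA] at hn1'
  have hkm : Sys.xG S K 39 l ∈ levi K q J := by
    refine mem_levi_of_fixed hq hK (Sys.xG_mem_uSub S K (P := rSet (sp J))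
      ((by decide +kernel : ∀ J ∈ Js, 39 ∈ sp J) J hJs) (by decide) (by decide) _) ?_
    rw [(TW).hx 39 (by decide), show (TW).π 39 = 39 from (by decide +kernel : pE 39 = 39)]
    congr 1
  refine Raised.of_conj hkm ?_
  set u' := Sys.xG S K 39 l * u * (Sys.xG S K 39 l)⁻¹ with hu'
  have hu'f : (TW).σ u' = u' := fixed_conj hq hK hkm hfix
  obtain ⟨n, hn⟩ : ∃ n, n = (tw hq hK).nW [1] := ⟨_, rfl⟩
  have hnl : (n : GL chevE6.Idx K) ∈ levi K q J := hn ▸ nW_mem_levi hq hK hJs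
    ((by decide +kernel : ∀ J ∈ Js, ∀ j ∈ wdN [1], j ∈ J) J hJs)
  have hp : ∀ r : Fin chevE6.nroots, (Sys.perm S K n r : ℕ) = wL chevE6 (wdN [1]) r :=
    fun r => hn ▸ nW_perm hq hK [1] r
  refine Raised.of_conj hnl ?_
  set u1 := (n : GL chevE6.Idx K) * u' * (n : GL chevE6.Idx K)⁻¹ with hu1
  have h1 : u1 ∈ uSub chevE6 K (rSet P) :=
    uSub_perm S n _ hp (P' := rSet P) (fun r _ hr => ⟨(w1 r hr).1, (w1 r hr).2.2.2⟩) m1
  have h1f : (TW).σ u1 = u1 := fixed_conj hq hK hnl hu'f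
  obtain ⟨m, hm, hc43⟩ := coord_perm S n _ hp (P' := rSet P) (k := 42) (k' := 43) (by decide) (by decide +kernel)
    (fun r _ hr hne => ⟨(w1 r hr).1, (w1 r hr).2.2.1 hne, (w1 r hr).2.2.2⟩) hn1'
  obtain ⟨m', -, hc42⟩ := coord_perm S n _ hp (P' := rSet P) (k := 43) (k' := 42) (by decide) (by decide +kernel)
    (fun r _ hr hne => ⟨(w1 r hr).1, (w1 r hr).2.1 hne, (w1 r hr).2.2.2⟩) hn1
  rw [mul_zero] at hc42
  have h1Q := toQ h1 h1f hc42
  have hc43' := coord_restrict hq hK hQsub j43 (by decide +kernel) cQ c43 h1Q hc43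
  obtain ⟨E, hE⟩ := Sys.exists_coord S cQ j44 (by decide +kernel) h1Q
  set A1 := m * A with hA1
  have hA10 : A1 ≠ 0 := mul_ne_zero hm hA
  obtain ⟨t, ht⟩ : ∃ t : K, E + φ t * A1 + t * φ A1 ≠ 0 := by
    by_cases hE0' : E = 0
    · obtain ⟨μ, hμ⟩ := exists_nonfixed hq hK
      refine ⟨μ / φ A1, ?_⟩
      rw [hE0', zero_add, map_div₀, phi_phi hq hK, div_mul_cancel₀ _ hA10,
        div_mul_cancel₀ _ (by simpa using hA10)]
      intro h
      exact hμ (by
        have h2 : μ + μ = 0 := CharTwo.add_self_eq_zero μ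
        linear_combination h - h2)
    · exact ⟨0, by simpa using hE0'⟩
  obtain ⟨hm2, hc44⟩ := pairShift t h1Q h1f hc43' hE
  set Y := Sys.xG S K 42 t * Sys.xG S K 37 (φ t) with hY
  have hYm : Y ∈ levi K q J := mem_levi_of_fixed hq hK
    (mul_mem (Sys.xG_mem_uSub S K (P := rSet (sp J)) (List.mem_of_mem_filter i42) (by decide)
        (by decide) _)
      (Sys.xG_mem_uSub S K (P := rSet (sp J)) (List.mem_of_mem_filter i37) (by decide)
        (by decide) _)) (hpfix t)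
  refine Raised.of_conj hYm ?_
  obtain ⟨n', hn'⟩ : ∃ n, n = (tw hq hK).nW [2] := ⟨_, rfl⟩
  have hnl' : (n' : GL chevE6.Idx K) ∈ levi K q J := hn' ▸ nW_mem_levi hq hK hJs
    ((by decide +kernel : ∀ J ∈ [[0, 1, 2, 3, 4, 5], [0, 2, 3, 4, 5], [2, 3, 4]],
      ∀ j ∈ wdN [2], j ∈ J) J hJ)
  have hp' : ∀ r : Fin chevE6.nroots, (Sys.perm S K n' r : ℕ) = wL chevE6 (wdN [2]) r :=
    fun r => hn' ▸ nW_perm hq hK [2] r
  obtain ⟨m2, hm20, hc39⟩ := coord_perm S n' _ hp' (P' := rSet (sp J)) (k := 44) (k' := 39) (by decide)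
    (by decide +kernel)
    (fun r _ hr hne => ⟨(w2 r hr).1, (w2 r hr).2.1 hne, (w2 r hr).2.2⟩) hc44
  exact ⟨(n' : GL chevE6.Idx K), hnl',
    uSub_perm S n' _ hp' (fun r _ hr => ⟨(w2 r hr).1, (w2 r hr).2.2⟩) hm2,
    not_mem_of_coord (by decide) cJ hc39 (mul_ne_zero hm20 ht)⟩

/-- Some fundamental coordinate can be made non-zero. -/
theorem lower {J : List ℕ} (hJ : J ∈ Js) {g : GL chevE6.Idx K}
    (hg : g ∈ uSub chevE6 K (rSet (sp J))) (hg1 : g ≠ 1) :
    ∃ h ∈ levi K q J, ∃ j ∈ J, h * g * h⁻¹ ∈ uSub chevE6 K (rSet (sp J)) ∧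
      h * g * h⁻¹ ∉ uSub chevE6 K (rSet (sp J) \ {chevE6.simple j}) := by
  classical
  set ht := sumOn (Sys.vec sysE6) (List.range chevE6.rank) with hht
  have hJlt : ∀ j ∈ J, j < chevE6.rank :=
    (by decide +kernel : ∀ J ∈ Js, ∀ j ∈ J, j < chevE6.rank) J hJ
  have hdesc := chkDesc_ok J hJ
  have hblk := chkBlock_ok J hJ
  simp only [chkDesc, chkBlock, List.all_eq_true, Bool.or_eq_true, Bool.and_eq_true,
    List.any_eq_true, decide_eq_true_eq, List.contains_iff_mem, List.mem_finRange, true_implies,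
    true_and] at hdesc hblk
  simp only [← hht] at hdesc hblk
  suffices H : ∀ k : ℕ, ∀ g ∈ uSub chevE6 K (rSet (sp J)),
      g ∉ uSub chevE6 K {r | r ∈ sp J ∧ (k : ℤ) ≤ ht r} →
      ∃ h ∈ levi K q J, ∃ j ∈ J, h * g * h⁻¹ ∈ uSub chevE6 K (rSet (sp J)) ∧
        h * g * h⁻¹ ∉ uSub chevE6 K (rSet (sp J) \ {chevE6.simple j}) by
    refine H (((sp J).map fun r => (ht r).natAbs).sum + 1) g hg fun hmem => hg1 ?_
    rw [uSub_empty_of] at hmem
    · exact Subgroup.mem_bot.mp hmem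
    rintro r ⟨hr, hbig⟩ -
    have h1 : (ht r).natAbs ≤ ((sp J).map fun r => (ht r).natAbs).sum :=
      List.le_sum_of_mem (List.mem_map.mpr ⟨r, hr, rfl⟩)
    revert hbig h1
    generalize ((sp J).map fun r => (ht r).natAbs).sum = B
    intro hbig h1
    push_cast at hbig
    omega
  intro k
  induction k using Nat.strong_induction_on with
  | _ k ih =>
    intro g hg hgk
    by_cases hs : ∃ j ∈ J, g ∉ uSub chevE6 K (rSet (sp J) \ {chevE6.simple j})
    · obtain ⟨j, hj, hj'⟩ := hs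
      exact ⟨1, one_mem _, j, hj, by simpa using hg, by simpa using hj'⟩
    push Not at hs
    obtain ⟨hN, hgN⟩ := Sys.mem_diff_list S (Sys.closed_spanSet S J) (q := g) hg
      (J.map chevE6.simple) fun u hu => by
      obtain ⟨j, hj, rfl⟩ := List.mem_map.mp hu
      exact ⟨Sys.closed_span_diff_simple S J (hJlt j hj), hs j hj⟩
    obtain ⟨t, ht0, hgt⟩ := Sys.exists_ordProd_half S K hN hgN
    obtain ⟨r, hr0, hrk⟩ : ∃ r, t r ≠ 0 ∧ ht r < (k : ℤ) := by
      by_contra hcon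
      push Not at hcon
      refine hgk (hgt ▸ Sys.ordProd_mem S K t le_rfl fun r _ _ => ?_)
      by_cases h0 : t r = 0
      · exact Or.inr h0
      · exact Or.inl ⟨(ht0 r h0).1.1, hcon r h0⟩
    obtain ⟨⟨hrS, hrN⟩, hrp, hrl⟩ := ht0 r hr0
    obtain ⟨hr2, b, hbJ, hbr⟩ := (hdesc r hrS).resolve_left hrN
    have hB : ∀ x ∈ sp J, x ∉ bRoots b → wL chevE6 (blkN b) x ∈ sp J ∧
        wL chevE6 (blkN b) x ∉ bRoots b ∧ htW b x = ht (wL chevE6 (blkN b) x) ∧ 1 ≤ htW b x ∧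
        wL chevE6 (blkN b) (wL chevE6 (blkN b) x) = x := by
      intro x hx hxb
      rcases hblk b with h | h
      · simp at h
        obtain ⟨j, hj, hj'⟩ := h
        exact absurd (hbJ j hj) hj'
      · obtain ⟨⟨⟨⟨g1, g2⟩, g3⟩, g4⟩, g5⟩ := (h x hx).resolve_left hxb
        exact ⟨g1, by simpa using g2, g3, g4, g5⟩
    have hbsub : ∀ x ∈ bRoots b, x ∈ J.map chevE6.simple := by
      intro x hx
      obtain ⟨j, hj, rfl⟩ := List.mem_map.mp hx
      exact List.mem_map.mpr ⟨j, hbJ j hj, rfl⟩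
    have hpos : ∀ x ∈ sp J, 36 ≤ x ∧ x < chevE6.nroots := fun x hx =>
      ((Sys.mem_spanList S).mp hx).1
    obtain ⟨n, hn⟩ : ∃ n, n = (tw hq hK).nW [b] := ⟨_, rfl⟩
    have hwd : wdN [b] = blkN b := by simp [wdN]
    have hnl : (n : GL chevE6.Idx K) ∈ levi K q J :=
      hn ▸ nW_mem_levi hq hK hJ (fun j hj => hbJ j (hwd ▸ hj))
    have hp : ∀ x : Fin chevE6.nroots, (Sys.perm S K n x : ℕ) = wL chevE6 (blkN b) x :=
      fun x => by rw [hn, nW_perm hq hK, hwd]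
    have hpi : ∀ x ∈ sp J, x ∉ bRoots b → ∀ hx : x < chevE6.nroots,
        (Sys.perm S K n⁻¹ ⟨x, hx⟩ : ℕ) = wL chevE6 (blkN b) x := by
      intro x hx hxb hx'
      obtain ⟨g1, -, -, -, g5⟩ := hB x hx hxb
      have e : Sys.perm S K n ⟨_, (hpos _ g1).2⟩ = (⟨x, hx'⟩ : Fin chevE6.nroots) :=
        Fin.ext (by rw [hp]; exact g5)
      rw [map_inv]
      have e2 := (Equiv.Perm.inv_eq_iff_eq (f := Sys.perm S K n)).mpr e.symm
      rw [e2]
    set g' := (n : GL chevE6.Idx K) * g * (n : GL chevE6.Idx K)⁻¹ with hg'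
    have hg'S : g' ∈ uSub chevE6 K (rSet (sp J)) := by
      refine uSub_perm S n _ hp (P := {x | x ∈ sp J ∧ x ∉ J.map chevE6.simple})
        (fun x _ hx => ?_) hgN
      obtain ⟨g1, -⟩ := hB x hx.1 (fun h => hx.2 (hbsub x h))
      exact ⟨g1, (hpos _ g1).1⟩
    have hkr : g' ∉ uSub chevE6 K {x | x ∈ sp J ∧ ((ht r).toNat : ℤ) ≤ ht x} := by
      intro hmem
      rw [Int.toNat_of_nonneg (by omega)] at hmem
      set Q : Set ℕ := {x | x ∈ sp J ∧ x ∉ bRoots b ∧ ht r ≤ htW b x} with hQ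
      have hback : g ∈ uSub chevE6 K Q := by
        have hle : uSub chevE6 K {x | x ∈ sp J ∧ ht r ≤ ht x} ≤
            (uSub chevE6 K Q).comap (MulAut.conj (n⁻¹ : GL chevE6.Idx K)).toMonoidHom := by
          refine Sys.uSub_le S K fun x hx hx1 hx2 u => ?_
          obtain ⟨c, -, hc⟩ := Sys.conj_root S K n⁻¹ ⟨x, hx2⟩
          have hxb : x ∉ bRoots b := by
            intro hxb
            obtain ⟨j, hj, rfl⟩ := List.mem_map.mp hxb
            have h1 := hx.2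
            have h2 := Sys.height_simple S (hJlt j (hbJ j hj))
            rw [← hht] at h2
            omega
          obtain ⟨g1, g2, g3, -, g5⟩ := hB x hx.1 hxb
          obtain ⟨g1', -, g3', -, -⟩ := hB _ g1 g2
          rw [Subgroup.mem_comap, MulEquiv.coe_toMonoidHom, MulAut.conj_apply, ← Subgroup.coe_inv,
            show Sys.xG S K x u = Sys.xG S K ((⟨x, hx2⟩ : Fin chevE6.nroots) : ℕ) u from rfl,
            (hc u).1, hpi x hx.1 hxb hx2]
          refine Sys.xG_mem_uSub S K (P := Q) ⟨g1, g2, ?_⟩ (hpos _ g1).1 (hpos _ g1).2 _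
          rw [g3', g5]
          exact hx.2
        have h2 := hle hmem
        rwa [Subgroup.mem_comap, MulEquiv.coe_toMonoidHom, MulAut.conj_apply, inv_inv, hg',
          show (n : GL chevE6.Idx K)⁻¹ * ((n : GL chevE6.Idx K) * g * (n : GL chevE6.Idx K)⁻¹) *
            (n : GL chevE6.Idx K) = g by group] at h2
      have hQc : Sys.Closed S Q := by
        rintro a ⟨ha, hab, ha'⟩ c ⟨hc, hcb, hc'⟩ pa pc x hx u v hu hv hvv
        have hxJ : x ∈ sp J := Sys.closed_spanSet S J a ha c hc pa pc x hx u v hu hv hvv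
        have hxb : x ∉ bRoots b := by
          intro hxb
          obtain ⟨j, hj, rfl⟩ := List.mem_map.mp hxb
          exact (Sys.closed_span_diff_simple S J (hJlt j (hbJ j hj)) a ⟨ha, fun e => hab (e ▸ hxb)⟩
            c ⟨hc, fun e => hcb (e ▸ hxb)⟩ pa pc _ hx u v hu hv hvv).2 rfl
        refine ⟨hxJ, hxb, ?_⟩
        have hd := Sys.sumOn_lin S (fun m hm => Sys.range_lt S hm) hvv
        have hcl : ((blkN b).map fun j => chevE6.cartan j x).sum =
            u * ((blkN b).map fun j => chevE6.cartan j a).sum +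
              v * ((blkN b).map fun j => chevE6.cartan j c).sum := by
          rw [← List.sum_map_mul_left, ← List.sum_map_mul_left, ← List.sum_map_add]
          refine congrArg List.sum (List.map_congr_left fun j hj => ?_)
          exact Sys.cartan_lin S (hJlt j (hbJ j hj)) (hpos a ha).2 (hpos c hc).2 hx hvv
        have e1 : htW b x = (u : ℤ) * htW b a + (v : ℤ) * htW b c := by
          unfold htW
          rw [hd, hcl]
          ring
        obtain ⟨-, -, -, hc1, -⟩ := hB c hc hcb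
        have e2 : ht r ≤ (u : ℤ) * htW b a :=
          ha'.trans (le_mul_of_one_le_left (by omega) (by omega))
        have e3 : 0 ≤ (v : ℤ) * htW b c := mul_nonneg (by omega) (by omega)
        omega
      obtain ⟨t', ht', hgt'⟩ := Sys.exists_ordProd_half S K hQc hback
      have := Sys.ordProd_inj_half S K (hgt.symm.trans hgt') hrp hrl
      obtain ⟨⟨-, -, hQr⟩, -⟩ := ht' r (by rw [← this]; exact hr0)
      omega
    obtain ⟨h, hh, j, hj, h1, h2⟩ := ih (ht r).toNat (by omega) g' hg'S hkr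
    refine ⟨h * n, mul_mem hh hnl, j, hj, ?_, ?_⟩ <;>
      rw [show h * (n : GL chevE6.Idx K) * g * (h * (n : GL chevE6.Idx K))⁻¹ = h * g' * h⁻¹ by
        rw [hg']; group] <;> assumption

end

end CfsgLib.TwistedLie.E6I
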