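import Cfsg.Agent.TwistedLie.F4Facts

/-!
The twisted Weyl group of `²F₄(q)` is dihedral of order `16`.
-/

set_option autoImplicit false

namespace CfsgLib.TwistedLie.F4

open Cfsg.Lie CfsgLib.Chevalley

local notation "S" => sysF4

/-- The table of the first twisted reflection. -/
def tabA : List ℕ :=
  [0, 5, 4, 3, 2, 1, 6, 11, 9, 8, 14, 7, 13, 12, 10, 23, 21, 30, 18, 28, 27, 16, 25, 15, 32, 22,
    31, 20, 19, 29, 17, 26, 24, 37, 35, 34, 40, 33, 39, 38, 36, 41, 46, 45, 44, 43, 42, 47]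

/-- The table of the second twisted reflection. -/
def tabB : List ℕ :=
  [1, 0, 2, 7, 15, 17, 16, 3, 8, 10, 9, 19, 18, 20, 33, 4, 6, 5, 12, 11, 13, 22, 21, 24, 23, 26,
    25, 34, 36, 35, 42, 41, 43, 14, 27, 29, 28, 38, 37, 39, 44, 31, 30, 32, 40, 45, 47, 46]

theorem tab_eq : ∀ r < 48, wL chevF4 (blkN 0) r = tabA.getD r 0 ∧
    wL chevF4 (blkN 1) r = tabB.getD r 0 := by decide +kernel

/-- The action on the root indices of the first twisted reflection. -/
def reflA : Equiv.Perm (Fin chevF4.nroots) :=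
  rootPerm chevF4 (tabA.getD · 0) (tabA.getD · 0) (by decide +kernel)

/-- The action on the root indices of the second twisted reflection. -/
def reflB : Equiv.Perm (Fin chevF4.nroots) :=
  rootPerm chevF4 (tabB.getD · 0) (tabB.getD · 0) (by decide +kernel)

theorem refl_rel : (∀ s, reflA (reflA s) = s) ∧ (∀ s, reflB (reflB s) = s) ∧
    ∀ s, ((reflA * reflB) ^ 8 : Equiv.Perm (Fin chevF4.nroots)) s = s := by decide +kernel

/-- The permutation attached to an element of the dihedral group. -/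
def dihPerm : DihedralGroup 8 → Equiv.Perm (Fin chevF4.nroots)
  | DihedralGroup.r i => (reflA * reflB) ^ i.val
  | DihedralGroup.sr i => reflA * (reflA * reflB) ^ i.val

theorem dihPerm_mul : ∀ x y : DihedralGroup 8, dihPerm (x * y) = dihPerm x * dihPerm y := by
  obtain ⟨hA, hB, h8⟩ := refl_rel
  have ha : reflA * reflA = 1 := Equiv.ext hA
  have hb : reflB * reflB = 1 := Equiv.ext hB
  have hc : (reflA * reflB) ^ 8 = 1 := Equiv.ext h8
  set c := reflA * reflB with hcdef
  set g : ZMod 8 → Equiv.Perm (Fin chevF4.nroots) := fun k => c ^ k.val with hgdef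
  have hg : ∀ i j, g (i + j) = g i * g j := fun i j => by
    simp only [hgdef]
    rw [ZMod.val_add, ← pow_add, ← pow_eq_pow_mod _ hc]
  have hg0 : g 0 = 1 := by simp [hgdef]
  have hneg : ∀ i, g (-i) = (g i)⁻¹ := fun i =>
    eq_inv_of_mul_eq_one_left (by rw [← hg, neg_add_cancel, hg0])
  have hai : reflA⁻¹ = reflA := inv_eq_of_mul_eq_one_right ha
  have hbi : reflB⁻¹ = reflB := inv_eq_of_mul_eq_one_right hb
  have hconj : reflA * c * reflA⁻¹ = c⁻¹ := by
    rw [hcdef, mul_inv_rev, hbi, hai, ← mul_assoc, ha, one_mul]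
  have key : ∀ i, g i * reflA = reflA * g (-i) := fun i => by
    have h1 : reflA * g i * reflA⁻¹ = g (-i) := by
      rw [hneg]
      show reflA * c ^ i.val * reflA⁻¹ = (c ^ i.val)⁻¹
      rw [← conj_pow, hconj, inv_pow]
    calc g i * reflA = reflA * (reflA * g i * reflA) := by
          simp only [← mul_assoc, ha, one_mul]
      _ = _ := by rw [show reflA * g i * reflA = reflA * g i * reflA⁻¹ by rw [hai], h1]
  rintro (i | i) (j | j)
  · exact hg i j
  · show reflA * g (j - i) = g i * (reflA * g j)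
    rw [← mul_assoc, key, sub_eq_neg_add, hg, mul_assoc]
  · show reflA * g (i + j) = reflA * g i * g j
    rw [hg, mul_assoc]
  · show g (j - i) = reflA * g i * (reflA * g j)
    rw [mul_assoc, ← mul_assoc (g i), key, ← mul_assoc, ← mul_assoc, ha, one_mul, sub_eq_neg_add,
      hg]

theorem dihPerm_ne : ∀ x : DihedralGroup 8, x = 1 ∨
    ∃ j : Fin 4, (dihPerm x ⟨chevF4.simple j % 48, Nat.mod_lt _ (by decide)⟩ : ℕ) ≠
      chevF4.simple j := by
  decide +kernel

theorem dihPerm_inj : ∀ x y : DihedralGroup 8, dihPerm x = dihPerm y → x = y := by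
  intro x y h
  have h1 : dihPerm (x⁻¹ * y) = 1 := by
    have h0 : dihPerm (1 : DihedralGroup 8) = 1 := by
      rw [DihedralGroup.one_def]; simp [dihPerm]
    rw [dihPerm_mul, ← h, ← dihPerm_mul, inv_mul_cancel, h0]
  rcases dihPerm_ne (x⁻¹ * y) with e | ⟨j, hj⟩
  · exact inv_mul_eq_one.mp e
  · rw [h1, Equiv.Perm.one_apply] at hj
    exact absurd (Nat.mod_eq_of_lt ((by decide +kernel : ∀ j : Fin 4, chevF4.simple j < 48) j)) hj

/-- The same, as a homomorphism. -/
def dihHom : DihedralGroup 8 →* Equiv.Perm (Fin chevF4.nroots) := MonoidHom.mk' dihPerm dihPerm_mul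

theorem dihHom_gen : dihHom (.sr 0) = reflA ∧ dihHom (.sr 1) = reflB := by
  refine ⟨?_, ?_⟩
  · show reflA * (reflA * reflB) ^ (0 : ZMod 8).val = reflA
    simp
  · show reflA * (reflA * reflB) ^ (1 : ZMod 8).val = reflB
    rw [show (1 : ZMod 8).val = 1 from rfl, pow_one, ← mul_assoc,
      show reflA * reflA = 1 from Equiv.ext refl_rel.1, one_mul]

variable {K : Type*} [Field K] [Fintype K] {m : ℕ} (hK : Fintype.card K = 2 ^ (2 * m + 1))
include hK

theorem blk_perm : ∀ i, Sys.wperm S ((tw hK).blk i) = ![reflA, reflB] i := by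
  rw [Fin.forall_fin_two]
  exact ⟨Equiv.ext fun s => Fin.ext (by rw [wperm_val, hbl hK, (tab_eq _ s.isLt).1]; rfl),
    Equiv.ext fun s => Fin.ext (by rw [wperm_val, hbl hK, (tab_eq _ s.isLt).2]; rfl)⟩

theorem wW_range (L : List (Fin 2)) : (tw hK).wW L ∈ dihHom.range := by
  induction L with
  | nil => rw [Tw.wW_nil]; exact one_mem _
  | cons i L ih =>
    rw [Tw.wW_cons]
    refine mul_mem ?_ ih
    obtain ⟨hA, hB⟩ := dihHom_gen
    rw [blk_perm hK]
    fin_cases i
    exacts [⟨_, hA⟩, ⟨_, hB⟩]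

theorem weyl : ∃ φ : ↥(chevF4.monomialSubgroup K ⊓ (tw hK).G) →* DihedralGroup 8,
    Function.Surjective φ ∧ φ.ker = (chevF4.diagonalSubgroup K ⊓ (tw hK).G).subgroupOf
      (chevF4.monomialSubgroup K ⊓ (tw hK).G) := by
  let ψ : ↥(chevF4.monomialSubgroup K ⊓ (tw hK).G) →* Equiv.Perm (Fin chevF4.nroots) :=
    (Sys.perm S K).comp (Subgroup.inclusion inf_le_left)
  have hψ : ∀ g, ψ g ∈ dihHom.range := by
    intro g
    have hg : (g : GL chevF4.Idx K) ∈ (tw hK).N0 := (tw hK).monomial_inf ▸ g.2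
    obtain ⟨L, t, ht, e⟩ := hg
    have htN : t ∈ chevF4.monomialSubgroup K := by
      rw [Sys.monomial_eq S K]; exact Subgroup.mem_sup_left ((tw hK).T_le ht)
    have e2 : Subgroup.inclusion inf_le_left g =
        (tw hK).nW L * (⟨t, htN⟩ : ↥(chevF4.monomialSubgroup K)) := Subtype.ext e
    show Sys.perm S K (Subgroup.inclusion inf_le_left g) ∈ _
    rw [e2, map_mul, Sys.perm_of_mem_hSub S K (g := ⟨t, htN⟩) ((tw hK).T_le ht), mul_one,
      Tw.perm_nW]
    exact wW_range hK L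
  have hinj : Function.Injective dihHom := fun x y h => dihPerm_inj x y h
  let φ : ↥(chevF4.monomialSubgroup K ⊓ (tw hK).G) →* DihedralGroup 8 :=
    (MonoidHom.ofInjective hinj).symm.toMonoidHom.comp (ψ.codRestrict dihHom.range hψ)
  have hφ : ∀ g, dihHom (φ g) = ψ g := fun g =>
    MonoidHom.apply_ofInjective_symm hinj ⟨ψ g, hψ g⟩
  refine ⟨φ, fun d => ?_, ?_⟩
  · have hgen : ∀ i : Fin 2, ∃ g, φ g = ![DihedralGroup.sr 0, .sr 1] i := by
      intro i
      refine ⟨⟨_, ⟨(Sys.wN S K ((tw hK).blk i)).2, (tw hK).n_mem i⟩⟩, hinj ?_⟩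
      rw [hφ]
      show Sys.perm S K (Sys.wN S K ((tw hK).blk i)) = _
      rw [Sys.perm_wN, blk_perm hK]
      obtain ⟨hA, hB⟩ := dihHom_gen
      revert i
      rw [Fin.forall_fin_two]
      exact ⟨hA.symm, hB.symm⟩
    obtain ⟨a, ha⟩ := hgen 0
    obtain ⟨b, hb⟩ := hgen 1
    simp only [Matrix.cons_val_zero, Matrix.cons_val_one] at ha hb
    have hr : φ (a * b) = DihedralGroup.r 1 := by rw [map_mul, ha, hb]; decide
    rcases d with i | i
    · exact ⟨(a * b) ^ i.val, by rw [map_pow, hr, DihedralGroup.r_one_pow, ZMod.natCast_zmod_val]⟩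
    · exact ⟨a * (a * b) ^ i.val, by
        rw [map_mul, map_pow, hr, ha, DihedralGroup.r_one_pow, ZMod.natCast_zmod_val,
          DihedralGroup.sr_mul_r, zero_add]⟩
  · ext g
    rw [MonoidHom.mem_ker, ← map_eq_one_iff dihHom hinj, hφ]
    show Sys.perm S K (Subgroup.inclusion inf_le_left g) = 1 ↔ _
    rw [← MonoidHom.mem_ker, Sys.ker_perm]
    exact ⟨fun h => ⟨h, g.2.2⟩, fun h => h.1⟩

end CfsgLib.TwistedLie.F4
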