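import Cfsg.Agent.Chevalley.InvReduce

/-!
Involutions in characteristic two: coordinates of the fixed points of a graph-field twist, and the
cleaning of an involution that is fixed by the twist.
-/

set_option autoImplicit false

namespace CfsgLib.TwistedLie

open Cfsg.Lie CfsgLib.Chevalley

variable {D : ChevalleyDatum}

/-- A twist permuting the root subgroups, in characteristic two. -/
structure RootTwist (S : Sys D) (F : Type*) [Field F] where
  σ : GL D.Idx F →* GL D.Idx F
  π : ℕ → ℕ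
  φ : F →+* F
  hx : ∀ r < D.nroots, ∀ t : F, σ (S.xG F r t) = S.xG F (π r) (φ t)
  π_lt : ∀ r < D.nroots, π r < D.nroots
  π_pos : ∀ r < D.nroots, D.nroots / 2 ≤ r → D.nroots / 2 ≤ π r
  π_π : ∀ r < D.nroots, π (π r) = r
  φ_φ : ∀ t, φ (φ t) = t

/-- Check: a list of positive roots is closed. -/
def chkClosedList (D : ChevalleyDatum) (co : ℕ → ℕ → ℤ) (P : List ℕ) : Bool :=
  (P.all fun r => decide (D.nroots / 2 ≤ r) && decide (r < D.nroots)) &&
  ((List.range' (D.nroots / 2) (D.nroots - D.nroots / 2)).all fun k => P.contains k ||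
    P.all fun r => P.all fun s =>
      (List.range (sumOn co (List.range D.rank) k).toNat).all fun i =>
        (List.range (sumOn co (List.range D.rank) k).toNat).all fun j =>
          (List.range D.rank).any fun m =>
            decide (co m k ≠ ((i + 1 : ℕ) : ℤ) * co m r + ((j + 1 : ℕ) : ℤ) * co m s))

/-- Check: `x_v` normalises the roots of `P` and feeds the coordinate `u` from `s` only. -/
def chkShift (D : ChevalleyDatum) (P : List ℕ) (v u s : ℕ) : Bool :=
  decide (D.nroots / 2 ≤ v) && decide (v < D.nroots) && decide (s ≠ v) && P.all fun w =>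
    decide (D.nroots / 2 ≤ w) && decide (w < D.nroots) && (w == v ||
      ((D.commTerms v w).all (fun c => decide (c.2.1 % 2 = 0) || P.contains c.1) &&
        ((((D.commTerms v w).filter fun c => decide (c.2.1 % 2 ≠ 0) && c.1 == u).map
          fun c => c.2.2) == if w = s then [(1, 1)] else [])))

/-- The roots of a list, as a set. -/
abbrev rSet (P : List ℕ) : Set ℕ := {r | r ∈ P}

/-- The list without a root. -/
abbrev rDel (P : List ℕ) (u : ℕ) : List ℕ := P.filter fun r => decide (r ≠ u)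

theorem rSet_del (P : List ℕ) (u : ℕ) : rSet (rDel P u) = rSet P \ {u} := by
  ext r; simp

variable (S : Sys D)

theorem closed_of_chk {P : List ℕ} (h : chkClosedList D S.vec P = true) : S.Closed (rSet P) := by
  simp only [chkClosedList, Bool.and_eq_true, List.all_eq_true, decide_eq_true_eq, Bool.or_eq_true,
    List.contains_iff_mem, List.mem_range, List.any_eq_true] at h
  obtain ⟨h1, h2⟩ := h
  intro r hr s hs _ _ k hk i j hi hj hv
  by_contra hkP
  obtain ⟨hr1, hr2⟩ := h1 r hr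
  obtain ⟨hs1, hs2⟩ := h1 s hs
  have hkp : D.nroots / 2 ≤ k := by
    obtain ⟨m, hm, hpos⟩ := S.exists_vec_pos hr2 hr1
    refine S.pos_of_vec hk hm ?_
    rw [hv m hm]
    exact add_pos_of_pos_of_nonneg (mul_pos (by omega) hpos)
      (mul_nonneg (by omega) (S.vec_pos s hs2 hs1 m hm))
  have hd := S.sumOn_lin (fun m hm => S.range_lt hm) hv
  have e1 := S.height_pos hr2 hr1
  have e2 := S.height_pos hs2 hs1
  have e3 : (i : ℤ) ≤ (i : ℤ) * sumOn S.vec (List.range D.rank) r :=
    le_mul_of_one_le_right (by omega) e1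
  have e4 : (j : ℤ) ≤ (j : ℤ) * sumOn S.vec (List.range D.rank) s :=
    le_mul_of_one_le_right (by omega) e2
  have hk2 : k ∈ List.range' (D.nroots / 2) (D.nroots - D.nroots / 2) :=
    List.mem_range'_1.mpr ⟨hkp, by omega⟩
  obtain ⟨m, hm, hne⟩ :=
    (h2 k hk2).resolve_left hkP r hr s hs (i - 1) (by omega) (j - 1) (by omega)
  rw [Nat.sub_add_cancel hi, Nat.sub_add_cancel hj] at hne
  exact hne (hv m hm)

variable {F : Type*} [Field F]

/-- The permutation of the roots carries coordinates. -/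
theorem coord_perm (n : ↥(D.monomialSubgroup F)) (f : ℕ → ℕ) {P P' : Set ℕ} {k k' : ℕ}
    (hf : ∀ r : Fin D.nroots, (S.perm F n r : ℕ) = f r) (hk : k < D.nroots) (hk' : f k = k')
    (hmap : ∀ r < D.nroots, r ∈ P → r ≠ k → f r ∈ P' ∧ f r ≠ k' ∧ D.nroots / 2 ≤ f r)
    {q : GL D.Idx F} {c : F} (h : S.Coord F P k q c) :
    ∃ m : F, m ≠ 0 ∧ S.Coord F P' k' ((n : GL D.Idx F) * q * (n : GL D.Idx F)⁻¹) (m * c) := by
  obtain ⟨m, hm, hmc⟩ := S.conj_root F n ⟨k, hk⟩
  refine ⟨m, hm, ?_⟩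
  have h1 : (n : GL D.Idx F) * ((S.xG F k c)⁻¹ * q) * (n : GL D.Idx F)⁻¹ ∈
      uSub D F (P' \ {k'}) := by
    refine closure_conj_mem ?_ h
    rintro z ⟨r, t, ⟨hr, hrp⟩, hz⟩
    obtain ⟨hr1, hr2⟩ := (S.pos_iff r).mp hrp
    obtain ⟨e, -, he⟩ := S.conj_root F n ⟨r, hr2⟩
    obtain ⟨g1, g2, g3⟩ := hmap r hr2 hr.1 hr.2
    rw [S.eq_xG F hz, (he t).1, hf]
    exact S.xG_mem_uSub F (P := P' \ {k'}) ⟨g1, g2⟩ g3 (hf ⟨r, hr2⟩ ▸ Fin.isLt _) _
  have h2 := (hmc c).1
  rw [hf, hk'] at h2
  unfold Sys.Coord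
  rw [← h2]
  convert h1 using 1
  group

theorem uSub_perm (n : ↥(D.monomialSubgroup F)) (f : ℕ → ℕ) {P P' : Set ℕ}
    (hf : ∀ r : Fin D.nroots, (S.perm F n r : ℕ) = f r)
    (hmap : ∀ r < D.nroots, r ∈ P → f r ∈ P' ∧ D.nroots / 2 ≤ f r)
    {q : GL D.Idx F} (h : q ∈ uSub D F P) :
    (n : GL D.Idx F) * q * (n : GL D.Idx F)⁻¹ ∈ uSub D F P' := by
  refine closure_conj_mem ?_ h
  rintro z ⟨r, t, ⟨hr, hrp⟩, hz⟩
  obtain ⟨hr1, hr2⟩ := (S.pos_iff r).mp hrp
  obtain ⟨e, -, he⟩ := S.conj_root F n ⟨r, hr2⟩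
  obtain ⟨g1, g3⟩ := hmap r hr2 hr
  rw [S.eq_xG F hz, (he t).1, hf]
  exact S.xG_mem_uSub F g1 g3 (hf ⟨r, hr2⟩ ▸ Fin.isLt _) _

variable [CharP F 2]

theorem xG_inv2 (r : ℕ) (t : F) : (S.xG F r t)⁻¹ = S.xG F r t := by
  rw [S.xG_inv, CharTwo.neg_eq]

/-- Conjugation by a root element shifts one coordinate. -/
theorem shift {P : List ℕ} {v u s : ℕ} (h : chkShift D P v u s = true) (hP : S.Closed (rSet P))
    (hu : u ∈ P) (A : F) {q : GL D.Idx F} (hq : q ∈ uSub D F (rSet P)) :
    S.xG F v A * q * (S.xG F v A)⁻¹ ∈ uSub D F (rSet P) ∧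
    ∃ cs ck, (s ∈ P → S.Coord F (rSet P) s q cs) ∧ (s ∉ P → cs = 0) ∧
      S.Coord F (rSet P) u q ck ∧
      S.Coord F (rSet P) u (S.xG F v A * q * (S.xG F v A)⁻¹) (ck + A * cs) := by
  classical
  simp only [chkShift, Bool.and_eq_true, decide_eq_true_eq, List.all_eq_true, Bool.or_eq_true,
    beq_iff_eq, List.contains_iff_mem] at h
  obtain ⟨⟨⟨hv1, hv2⟩, hsv⟩, hP'⟩ := h
  have hb : ∀ {w}, w ∈ P → D.nroots / 2 ≤ w ∧ w < D.nroots := fun hw => (hP' _ hw).1
  have hub := hb hu
  have gen : ∀ w ∈ P, ∀ t : F,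
      S.xG F v A * S.xG F w t * (S.xG F v A)⁻¹ ∈ uSub D F (rSet P) ∧
      ∃ cs ck, (s ∈ P → S.Coord F (rSet P) s (S.xG F w t) cs) ∧ (s ∉ P → cs = 0) ∧
        S.Coord F (rSet P) u (S.xG F w t) ck ∧
        S.Coord F (rSet P) u (S.xG F v A * S.xG F w t * (S.xG F v A)⁻¹) (ck + A * cs) := by
    intro w hw t
    have hwb := hb hw
    have hcw := S.coord_xG (F := F) (u := u) (P := rSet P) hw hwb t
    by_cases hwv : w = v
    · subst hwv
      rw [S.xG_inv, S.xG_add, S.xG_add, show A + t + -A = t by ring]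
      refine ⟨S.xG_mem_uSub F (P := rSet P) hw hwb.1 hwb.2 t, 0, if w = u then t else 0, fun _ => ?_,
        fun _ => rfl, hcw, by rw [mul_zero, add_zero]; exact hcw⟩
      have := S.coord_xG (F := F) (u := s) (P := rSet P) hw hwb t
      rwa [if_neg (Ne.symm hsv)] at this
    obtain ⟨hodd, hterm⟩ := (hP' w hw).2.resolve_left hwv
    have hne : w ≠ D.neg v := fun e => by
      have := (S.neg_half v hv2).mpr hv1
      omega
    rw [S.xG_conj F hv2 hwb.2 hwv hne A t]
    have key : ∀ L : List (ℕ × ℤ × ℕ × ℕ), (∀ c ∈ L, c ∈ D.commTerms v w) →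
        S.wG F (L.map fun c => (c.1, (c.2.1 : F) * (- -A) ^ c.2.2.1 * t ^ c.2.2.2)) ∈
            uSub D F (rSet P) ∧
          S.Coord F (rSet P) u
            (S.wG F (L.map fun c => (c.1, (c.2.1 : F) * (- -A) ^ c.2.2.1 * t ^ c.2.2.2)))
            (((L.filter fun c => decide (c.2.1 % 2 ≠ 0) && c.1 == u).map fun c => c.2.2).map
              fun p => A ^ p.1 * t ^ p.2).sum := by
      intro L hL
      induction L with
      | nil => exact ⟨by simp [Sys.wG], by simpa [Sys.wG] using S.coord_one (F := F) (rSet P) u⟩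
      | cons c L ih =>
        rw [List.forall_mem_cons] at hL
        obtain ⟨ih1, ih2⟩ := ih hL.2
        rw [List.map_cons, Sys.wG, List.map_cons, List.prod_cons]
        by_cases hev : c.2.1 % 2 = 0
        · rw [S.int_cast_eq_zero F hev, zero_mul, zero_mul, S.xG_zero, one_mul,
            List.filter_cons_of_neg (by simp [hev])]
          exact ⟨ih1, ih2⟩
        · have hcP : c.1 ∈ P := (hodd c hL.1).resolve_left hev
          have hx := S.coord_xG (F := F) (u := u) (P := rSet P) hcP (hb hcP)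
            ((c.2.1 : F) * (- -A) ^ c.2.2.1 * t ^ c.2.2.2)
          refine ⟨mul_mem (S.xG_mem_uSub F (P := rSet P) hcP (hb hcP).1 (hb hcP).2 _) ih1, ?_⟩
          have h2 := S.coord_mul hP hu hub hx ih2
          convert h2 using 1
          · rfl
          by_cases he : c.1 = u
          · rw [if_pos he, List.filter_cons_of_pos (by simp [hev, he]), S.cast_of_odd hev]
            simp
          · rw [if_neg he, List.filter_cons_of_neg (by simp [he]), zero_add]
    obtain ⟨k1, k2⟩ := key _ fun c hc => hc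
    rw [hterm] at k2
    refine ⟨mul_mem (S.xG_mem_uSub F (P := rSet P) hw hwb.1 hwb.2 t) k1, if w = s then t else 0,
      if w = u then t else 0, fun hs => S.coord_xG hw hwb t, fun hs => if_neg fun (e : w = s) => hs (e ▸ hw),
      hcw, ?_⟩
    convert S.coord_mul hP hu hub hcw k2 using 1
    · rfl
    · split_ifs <;> simp
  induction hq using Subgroup.closure_induction'' with
  | mem x hx =>
    obtain ⟨w, t, ⟨hw, -⟩, hx⟩ := hx
    rw [S.eq_xG F hx]
    exact gen w hw t
  | inv_mem x hx =>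
    obtain ⟨w, t, ⟨hw, -⟩, hx⟩ := hx
    rw [S.eq_xG F hx, S.xG_inv]
    exact gen w hw (-t)
  | one =>
    exact ⟨by simp, 0, 0, fun _ => S.coord_one _ _, fun _ => rfl, S.coord_one _ _,
      by simpa using S.coord_one (F := F) (rSet P) u⟩
  | mul x y _ _ hx hy =>
    obtain ⟨m1, cs, ck, h0, z1, h2, h4⟩ := hx
    obtain ⟨m2, cs', ck', h0', z1', h2', h4'⟩ := hy
    have e : S.xG F v A * (x * y) * (S.xG F v A)⁻¹ = S.xG F v A * x * (S.xG F v A)⁻¹ *
        (S.xG F v A * y * (S.xG F v A)⁻¹) := by group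
    rw [e]
    refine ⟨mul_mem m1 m2, cs + cs', ck + ck',
      fun hs => S.coord_mul hP hs (hb hs) (h0 hs) (h0' hs),
      fun hs => by rw [z1 hs, z1' hs, add_zero], S.coord_mul hP hu hub h2 h2', ?_⟩
    convert S.coord_mul hP hu hub h4 h4' using 1
    ring

variable {S}
variable (T : RootTwist S F)

theorem RootTwist.uSub_map {P Q : Set ℕ} (h : ∀ r < D.nroots, r ∈ P → T.π r ∈ Q)
    {q : GL D.Idx F} (hq : q ∈ uSub D F P) : T.σ q ∈ uSub D F Q := by
  refine (Subgroup.closure_le (K := (uSub D F Q).comap T.σ)).mpr ?_ hq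
  rintro z ⟨r, t, ⟨hr, hrp⟩, hz⟩
  obtain ⟨hr1, hr2⟩ := (S.pos_iff r).mp hrp
  rw [SetLike.mem_coe, Subgroup.mem_comap, S.eq_xG F hz, T.hx r hr2]
  exact S.xG_mem_uSub F (h r hr2 hr) (T.π_pos r hr2 hr1) (T.π_lt r hr2) _

/-- The coordinates of a fixed element are twisted. -/
theorem RootTwist.coord_fixed {P : Set ℕ} (h : ∀ r < D.nroots, r ∈ P → T.π r ∈ P) {u : ℕ}
    (hu : u < D.nroots) {q : GL D.Idx F} (hfix : T.σ q = q) {c : F}
    (hc : S.Coord F P u q c) : S.Coord F P (T.π u) q (T.φ c) := by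
  unfold Sys.Coord at hc ⊢
  have h1 := T.uSub_map (Q := P \ {T.π u}) (fun r hr hrP => ⟨h r hr hrP.1, fun e => hrP.2 (by
    have := congrArg T.π (Set.mem_singleton_iff.mp e)
    rwa [T.π_π r hr, T.π_π u hu] at this)⟩) hc
  rwa [map_mul, map_inv, T.hx u hu, hfix] at h1

/-- Check: the twist respects the cleaning of `p_i` among the roots supported on `J`. -/
def chkTwistClean (D : ChevalleyDatum) (co : ℕ → ℕ → ℤ) (π : ℕ → ℕ) (J : List ℕ) (i : ℕ) : Bool :=
  decide (π (D.simple i) = D.simple i) && (spanList D co J).all fun r =>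
    (spanList D co J).contains (π r) && decide (D.cartan i (π r) = D.cartan i r) &&
    decide (sumOn co (otherPos J i) (π r) = sumOn co (otherPos J i) r) &&
    (decide (0 ≤ D.cartan i r) || decide (π r = r) || chkEvenComm D [r] [π r]) &&
    (decide (D.cartan i r ≤ 0) || r == D.simple i ||
      ((spanList D co J).contains (D.reflectRoot i r) &&
        decide (D.reflectRoot i r ≠ D.simple i) &&
        decide (D.cartan i (D.reflectRoot i r) < 0) &&
        decide (sumOn co (otherPos J i) (D.reflectRoot i r) = sumOn co (otherPos J i) r) &&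
        ((topTerms D i (D.reflectRoot i r)).map (fun c => (c.1, c.2.2.1)) == [(r, 1)]) &&
        decide (π (D.reflectRoot i r) = D.reflectRoot i (π r))))

section Clean

variable {J : List ℕ} {i : ℕ} (hC : S.CleanFacts J i)
  (hT : chkTwistClean D S.vec T.π J i = true)
include hC hT

/-- Clearing a list of coordinates of positive pairing in the lowest layer, respecting the twist. -/
theorem twist_clear {d : ℤ} {A : F} (hA : A ≠ 0) (hAf : T.φ A = A) : ∀ L : List ℕ,
    (∀ u ∈ L, u ∈ S.levelSet J i d ∧ 0 < D.cartan i u ∧ sumOn S.vec (otherPos J i) u = d) →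
    ∀ q ∈ uSub D F (S.levelSet J i d), T.σ q = q →
      ∃ h ∈ uSub D F (S.spanSet J), T.σ h = h ∧ ∃ q',
      h * (S.xG F (D.simple i) A * q) * h⁻¹ = S.xG F (D.simple i) A * q' ∧ T.σ q' = q' ∧
        q' ∈ uSub D F (S.levelSet J i d) ∧
        ∀ u ∈ L, q' ∈ uSub D F (S.levelSet J i d \ {u}) ∧
          q' ∈ uSub D F (S.levelSet J i d \ {T.π u}) := by
  classical
  simp only [chkTwistClean, Bool.and_eq_true, decide_eq_true_eq, List.all_eq_true,
    Bool.or_eq_true, List.contains_iff_mem, beq_iff_eq] at hT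
  obtain ⟨hπi, hT'⟩ := hT
  have hinvL : ∀ r < D.nroots, r ∈ S.levelSet J i d → T.π r ∈ S.levelSet J i d := by
    intro r hr ⟨⟨h1, h2⟩, h3⟩
    obtain ⟨⟨⟨⟨g1, g2⟩, g3⟩, -⟩, -⟩ := hT' r h1
    refine ⟨⟨g1, fun e => h2 ?_⟩, ?_⟩
    · have := congrArg T.π e
      rwa [T.π_π r hr, hπi] at this
    · rw [g2, g3]; exact h3
  have hP := Sys.closed_level hC d
  set X := S.xG F (D.simple i) A with hX0
  have hXσ : T.σ X = X := by rw [hX0, T.hx _ (S.wf.simple_lt i hC.lt), hπi, hAf]
  intro L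
  induction L with
  | nil => intro _ q hq hqf; exact ⟨1, one_mem _, map_one _, q, by group, hqf, hq, by simp⟩
  | cons u L ih =>
    intro hL q hq hqf
    rw [List.forall_mem_cons] at hL
    obtain ⟨h, hh, hhf, q', he, hqf', hq', hz⟩ := ih hL.2 q hq hqf
    obtain ⟨hu, hup, hud⟩ := hL.1
    have hub := Sys.pos_of_level hC hu
    have hu' := hinvL u hub.2 hu
    have hub' := Sys.pos_of_level hC hu'
    obtain ⟨⟨⟨⟨-, gc⟩, gd⟩, -⟩, hrefl⟩ := hT' u hu.1.1
    obtain ⟨⟨⟨⟨⟨hvS, hvne⟩, hvn⟩, hvd⟩, hvt⟩, hvπ⟩ :=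
      hrefl.resolve_left (fun h' => h'.elim (fun h'' => by omega) fun h'' => hu.1.2 h'')
    set v := D.reflectRoot i u with hv0
    have hv : v ∈ S.levelSet J i d := ⟨⟨hvS, hvne⟩, Or.inr (by rw [hvd, hud])⟩
    have hvb := Sys.pos_of_level hC hv
    have hv' := hinvL v hvb.2 hv
    have hvb' := Sys.pos_of_level hC hv'
    obtain ⟨⟨⟨⟨-, gvc⟩, gvd⟩, gev⟩, -⟩ := hT' v hvS
    obtain ⟨ck, hck⟩ := S.exists_coord hP hu hub hq'
    have hck' := T.coord_fixed hinvL hub.2 hqf' hck
    set e := ck * A⁻¹ with he0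
    have hAe : A * e = ck := by rw [he0, mul_left_comm, mul_inv_cancel₀ hA, mul_one]
    set k := if T.π v = v then S.xG F v e else S.xG F v e * S.xG F (T.π v) (T.φ e) with hk0
    have hk : k ∈ uSub D F (S.levelSet J i d) := by
      rw [hk0]
      split_ifs
      · exact S.xG_mem_uSub F hv hvb.1 hvb.2 _
      · exact mul_mem (S.xG_mem_uSub F hv hvb.1 hvb.2 _) (S.xG_mem_uSub F hv' hvb'.1 hvb'.2 _)
    have hcomm : T.π v ≠ v → Commute (S.xG F v e) (S.xG F (T.π v) (T.φ e)) := by
      intro hne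
      rcases gev with (g | g) | g
      · omega
      · exact absurd g hne
      · exact S.evenComm_commute F g (by simp) (by simp) _ _
    have hkσ : T.σ k = k := by
      rw [hk0]
      split_ifs with hfix
      · have hπu : T.π u = u := by
          have := congrArg (D.reflectRoot i) hvπ
          rw [hfix, hv0, S.w_w i hC.lt u hub.2, S.w_w i hC.lt _ hub'.2] at this
          exact this.symm
        have hckf : T.φ ck = ck := by
          rw [hπu] at hck'
          exact S.coord_unique (Sys.closed_level_diff hC d hup.ne' hud) hub.2 hck' hck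
        rw [T.hx v hvb.2, hfix, he0, map_mul, map_inv₀, hAf, hckf]
      · rw [map_mul, T.hx v hvb.2, T.hx _ hvb'.2, T.π_π v hvb.2, T.φ_φ, (hcomm hfix).eq]
    have hkinv : k⁻¹ = k := by
      rw [hk0]
      split_ifs with hfix
      · exact xG_inv2 S _ _
      · rw [mul_inv_rev, xG_inv2, xG_inv2, (hcomm hfix).eq]
    have hX : X⁻¹ = X := xG_inv2 S _ _
    have hkS : k ∈ uSub D F (S.spanSet J) := uSub_mono (fun r hr => hr.1.1) hk
    refine ⟨k * h, mul_mem hkS hh, by rw [map_mul, hkσ, hhf], X * k * X⁻¹ * q' * k⁻¹, ?_,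
      by simp only [map_mul, map_inv, hXσ, hkσ, hqf'],
      mul_mem (mul_mem (Sys.conj_mem hC A hk) hq') (inv_mem hk), ?_⟩
    · rw [show k * h * (X * q) * (k * h)⁻¹ = k * (h * (X * q) * h⁻¹) * k⁻¹ by group, he]
      have hXX : X * X = 1 := inv_eq_iff_mul_eq_one.mp hX
      simp only [← mul_assoc, hX, hXX, one_mul]
    -- coordinates of the conjugated element
    have hone : ∀ w, w ∈ S.levelSet J i d → 0 < D.cartan i w →
        sumOn S.vec (otherPos J i) w = d → ∀ x, x ∈ S.levelSet J i d → D.cartan i x < 0 →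
        (topTerms D i x).map (fun c => (c.1, c.2.2.1)) = [(D.reflectRoot i x, 1)] → ∀ t : F,
        S.Coord F (S.levelSet J i d) w (X * S.xG F x t * X⁻¹)
          (if D.reflectRoot i x = w then A * t else 0) ∧
        S.Coord F (S.levelSet J i d) w (S.xG F x t) 0 := by
      intro w hw hwp hwd x hx hxn htop t
      have hxw : x ≠ w := fun e' => by subst e'; omega
      have h1 := Sys.coord_conj hC hw hwp.ne' hwd hx A t
      rw [if_neg hxw, zero_add] at h1
      have h2 := S.coord_xG (F := F) (u := w) hx (Sys.pos_of_level hC hx) t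
      rw [if_neg hxw] at h2
      refine ⟨?_, h2⟩
      convert h1 using 1
      obtain ⟨c, hc, hc'⟩ := List.map_eq_singleton_iff.mp htop
      simp only [Prod.mk.injEq] at hc'
      rw [Sys.termValClean, hc]
      by_cases hcw : D.reflectRoot i x = w
      · rw [if_pos hcw, List.filter_cons_of_pos (by simp [hc'.1, hcw])]
        simp [hc'.2]
      · rw [if_neg hcw, List.filter_cons_of_neg (by simp [hc'.1, hcw])]
        simp
    have hvt1 : (topTerms D i v).map (fun c => (c.1, c.2.2.1)) = [(D.reflectRoot i v, 1)] := by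
      rw [hvt, hv0, S.w_w i hC.lt u hub.2]
    obtain ⟨-, hrefl'⟩ := hT' (T.π u) hu'.1.1
    obtain ⟨⟨⟨-, -⟩, hvt'⟩, -⟩ :=
      hrefl'.resolve_left (fun h' => h'.elim (fun h'' => by omega) fun h'' => hu'.1.2 h'')
    have hvt2 : (topTerms D i (T.π v)).map (fun c => (c.1, c.2.2.1)) =
        [(D.reflectRoot i (T.π v), 1)] := by
      rw [hvπ, hvt', S.w_w i hC.lt _ hub'.2]
    have hre1 : D.reflectRoot i v = u := by rw [hv0, S.w_w i hC.lt u hub.2]
    have hre2 : D.reflectRoot i (T.π v) = T.π u := by rw [hvπ, S.w_w i hC.lt _ hub'.2]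
    intro w hw
    rw [List.mem_cons] at hw
    obtain ⟨hwm, hwp, hwd⟩ : w ∈ S.levelSet J i d ∧ 0 < D.cartan i w ∧
        sumOn S.vec (otherPos J i) w = d := by
      rcases hw with rfl | hw
      · exact ⟨hu, hup, hud⟩
      · exact hL.2 w hw
    have hwb := Sys.pos_of_level hC hwm
    obtain ⟨cw, hcw⟩ := S.exists_coord hP hwm hwb hq'
    have hfin : S.Coord F (S.levelSet J i d) w (X * k * X⁻¹ * q' * k⁻¹) 0 := by
      have hsum : S.Coord F (S.levelSet J i d) w (X * k * X⁻¹) (if w = u then ck else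
          if w = T.π u then T.φ ck else 0) ∧ S.Coord F (S.levelSet J i d) w k 0 := by
        obtain ⟨a1, a2⟩ := hone w hwm hwp hwd v hv hvn hvt1 e
        obtain ⟨b1, b2⟩ := hone w hwm hwp hwd (T.π v) hv' (by omega) hvt2 (T.φ e)
        rw [hre1] at a1
        rw [hre2] at b1
        rw [hk0]
        split_ifs with hfix hwu hwu' hwu hwu'
        · subst hwu; rw [if_pos rfl, hAe] at a1; exact ⟨a1, a2⟩
        · exact absurd (hwu'.trans (by
            have := congrArg (D.reflectRoot i) hfix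
            rwa [hre2, hre1] at this)) hwu
        · rw [if_neg (Ne.symm hwu)] at a1; exact ⟨a1, a2⟩
        all_goals
          rw [show X * (S.xG F v e * S.xG F (T.π v) (T.φ e)) * X⁻¹ = (X * S.xG F v e * X⁻¹) *
            (X * S.xG F (T.π v) (T.φ e) * X⁻¹) by group]
          have hab := S.coord_mul hP hwm hwb a1 b1
          refine ⟨?_, by simpa using S.coord_mul hP hwm hwb a2 b2⟩
          convert hab using 1
        · have : T.π u ≠ u := fun h'' => hfix (by
            have := congrArg (D.reflectRoot i) (hre2.trans h'')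
            rwa [S.w_w i hC.lt _ hvb'.2] at this)
          subst hwu
          rw [if_pos rfl, if_neg this, hAe, add_zero]
        · rw [if_neg (Ne.symm hwu), if_pos hwu'.symm, zero_add, ← hAe, map_mul, hAf]
        · rw [if_neg (Ne.symm hwu), if_neg (Ne.symm hwu'), add_zero]
      have := S.coord_mul hP hwm hwb (S.coord_mul hP hwm hwb hsum.1 hcw) (hkinv.symm ▸ hsum.2)
      have hval : (if w = u then ck else if w = T.π u then T.φ ck else 0) + cw + 0 = 0 := by
        have huni := fun {c : F} (h' : S.Coord F (S.levelSet J i d) w q' c) =>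
          S.coord_unique (Sys.closed_level_diff hC d hwp.ne' hwd) hwb.2 hcw h'
        split_ifs with h1 h2
        · subst h1; rw [huni hck, CharTwo.add_self_eq_zero, add_zero]
        · subst h2; rw [huni hck', CharTwo.add_self_eq_zero, add_zero]
        · rw [huni (S.coord_zero_iff.mpr (hz w (hw.resolve_left h1)).1), add_zero, add_zero]
      rwa [hval] at this
    have hfix2 : T.σ (X * k * X⁻¹ * q' * k⁻¹) = X * k * X⁻¹ * q' * k⁻¹ := by
      simp only [map_mul, map_inv, hXσ, hkσ, hqf']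
    refine ⟨S.coord_zero_iff.mp hfin, S.coord_zero_iff.mp ?_⟩
    simpa using T.coord_fixed hinvL hwb.2 hfix2 hfin

/-- Cleaning, respecting the twist. -/
theorem twist_clean {A : F} (hA : A ≠ 0) (hAf : T.φ A = A) {q : GL D.Idx F}
    (hq : q ∈ uSub D F (S.spanSet J \ {D.simple i})) (hqf : T.σ q = q)
    (hinv : S.xG F (D.simple i) A * q * (S.xG F (D.simple i) A * q) = 1) :
    ∃ h ∈ uSub D F (S.spanSet J), T.σ h = h ∧ ∃ q',
      h * (S.xG F (D.simple i) A * q) * h⁻¹ = S.xG F (D.simple i) A * q' ∧ T.σ q' = q' ∧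
        q' ∈ uSub D F {r | r ∈ S.spanSet J ∧ D.cartan i r = 0} := by
  have hsq : ∀ {h q' : GL D.Idx F},
      h * (S.xG F (D.simple i) A * q) * h⁻¹ = S.xG F (D.simple i) A * q' →
      S.xG F (D.simple i) A * q' * (S.xG F (D.simple i) A * q') = 1 := fun {h q'} he => by
    rw [← he, show h * (S.xG F (D.simple i) A * q) * h⁻¹ *
      (h * (S.xG F (D.simple i) A * q) * h⁻¹) =
      h * (S.xG F (D.simple i) A * q * (S.xG F (D.simple i) A * q)) * h⁻¹ by group, hinv]
    group
  have key : ∀ n : ℕ, ∃ h ∈ uSub D F (S.spanSet J), T.σ h = h ∧ ∃ q',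
      h * (S.xG F (D.simple i) A * q) * h⁻¹ = S.xG F (D.simple i) A * q' ∧ T.σ q' = q' ∧
        q' ∈ uSub D F (S.levelSet J i (n + 1 : ℕ)) := by
    intro n
    induction n with
    | zero =>
      refine ⟨1, one_mem _, map_one _, q, by group, hqf, uSub_mono ?_ hq⟩
      rintro r ⟨hr, hrb⟩
      exact ⟨⟨hr, hrb⟩, Or.inr (by simpa using hC.deg_pos r hr hrb)⟩
    | succ n ih =>
      obtain ⟨h, hh, hhf, q', he, hqf', hq'⟩ := ih
      set d : ℤ := ((n + 1 : ℕ) : ℤ) with hd
      set Lp := (spanList D S.vec J).filter fun u => decide (u ≠ D.simple i) &&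
        decide (0 < D.cartan i u) && decide (sumOn S.vec (otherPos J i) u = d) with hLp
      set Ln := (spanList D S.vec J).filter fun u => decide (u ≠ D.simple i) &&
        decide (D.cartan i u ≠ 0) && decide (sumOn S.vec (otherPos J i) u = d) with hLn
      obtain ⟨h', hh', hhf', q'', he', hqf'', hq'', hz⟩ := twist_clear T hC hT hA hAf Lp
        (fun u hu => by
          simp only [hLp, List.mem_filter, Bool.and_eq_true, decide_eq_true_eq] at hu
          exact ⟨⟨⟨hu.1, hu.2.1.1⟩, Or.inr hu.2.2.ge⟩, hu.2.1.2, hu.2.2⟩) q' hq' hqf'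
      have hall : h' * h * (S.xG F (D.simple i) A * q) * (h' * h)⁻¹ =
          S.xG F (D.simple i) A * q'' := by
        rw [show h' * h * (S.xG F (D.simple i) A * q) * (h' * h)⁻¹ =
          h' * (h * (S.xG F (D.simple i) A * q) * h⁻¹) * h'⁻¹ by group, he, he']
      refine ⟨h' * h, mul_mem hh' hh, by rw [map_mul, hhf, hhf'], q'', hall, hqf'', ?_⟩
      obtain ⟨-, hm⟩ := S.mem_diff_list (Sys.closed_level hC d) hq'' Ln fun u hu => by
        simp only [hLn, List.mem_filter, Bool.and_eq_true, decide_eq_true_eq] at hu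
        refine ⟨Sys.closed_level_diff hC d hu.2.1.2 hu.2.2, ?_⟩
        rcases lt_or_gt_of_ne hu.2.1.2 with hn | hn
        · exact Sys.coord_neg_zero hC hA hq'' (hsq hall)
            ⟨⟨hu.1, hu.2.1.1⟩, Or.inr hu.2.2.ge⟩ hn hu.2.2
        · exact (hz u (by simp [hLp, hu.1, hu.2.1.1, hn, hu.2.2])).1
      refine uSub_mono ?_ hm
      rintro r ⟨⟨⟨hr1, hr2⟩, hr3⟩, hr4⟩
      refine ⟨⟨hr1, hr2⟩, ?_⟩
      by_cases h0 : D.cartan i r = 0
      · exact Or.inl h0
      · have hge := hr3.resolve_left h0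
        refine Or.inr ?_
        by_contra hlt
        refine hr4 ?_
        simp only [hLn, List.mem_filter, Bool.and_eq_true, decide_eq_true_eq]
        exact ⟨hr1, ⟨hr2, h0⟩, by omega⟩
  set B := ((spanList D S.vec J).map fun r => (sumOn S.vec (otherPos J i) r).natAbs).sum with hB
  obtain ⟨h, hh, hhf, q', he, hqf', hq'⟩ := key B
  refine ⟨h, hh, hhf, q', he, hqf', uSub_mono ?_ hq'⟩
  rintro r ⟨⟨hr, hrb⟩, h0 | hbig⟩
  · exact ⟨hr, h0⟩
  · exfalso
    have h1 : (sumOn S.vec (otherPos J i) r).natAbs ≤ B :=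
      List.le_sum_of_mem (List.mem_map.mpr ⟨r, hr, rfl⟩)
    have h2 := hC.deg_pos r hr hrb
    push_cast at hbig
    omega

end Clean

end CfsgLib.TwistedLie
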